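import Cfsg.Agent.LAE62.BlockResidual
import Cfsg.Agent.LocalP.Basic

/-!
The centralizer of the commutator module of a block: general facts and the case of a block acting trivially on the
relevant quotient of the `p`-core.
-/

set_option autoImplicit false

open Subgroup
open scoped commutatorElement

namespace Cfsg.Agent.LAE62.BlockCent

open Baumann

variable {G : Type*} [Group G] [Finite G] {p : ℕ} [hp : Fact p.Prime]

theorem mem_of_pow_eq_one {H : Subgroup G} {c : G} {o : ℕ} (hcp : c ^ p = 1) (ho : o.Coprime p)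
    (h : c ^ o ∈ H) : c ∈ H := by
  have hd : (orderOf c).Coprime o :=
    Nat.Coprime.coprime_dvd_left (orderOf_dvd_of_pow_eq_one hcp) ho.symm
  obtain ⟨m, hm⟩ := exists_pow_eq_self_of_coprime hd.symm
  rw [← hm]
  exact H.pow_mem h m

/-- If `E` acts trivially on `W / W'` and on the quotient by `W`, it acts trivially on the quotient by `W'`. -/
theorem stable_le {E W W' : Subgroup G} (hres : Cfsg.pResidualOf p E = E) (hE : E ≤ normalizer (W' : Set G))
    (hW : ∀ e ∈ E, ∀ w ∈ W, ⁅e, w⁆ ∈ W') (hexp : ∀ w ∈ W, w ^ p = 1) {A : Set G}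
    (hA : ∀ e ∈ E, ∀ a ∈ A, ⁅e, a⁆ ∈ W) {e a : G} (he : e ∈ E) (ha : a ∈ A) : ⁅e, a⁆ ∈ W' := by
  let S : Subgroup G :=
    { carrier := {e | e ∈ (normalizer (W' : Set G) : Subgroup G) ∧ ∀ a ∈ A, ⁅e, a⁆ ∈ W'}
      one_mem' := ⟨one_mem _, fun a _ => by rw [commutatorElement_one_left]; exact one_mem _⟩
      mul_mem' := by
        rintro x y ⟨hx, hx'⟩ ⟨hy, hy'⟩
        refine ⟨mul_mem hx hy, fun a ha => ?_⟩
        rw [show ⁅x * y, a⁆ = x * ⁅y, a⁆ * x⁻¹ * ⁅x, a⁆ by simp only [commutatorElement_def]; group]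
        exact mul_mem ((mem_normalizer_iff.1 hx _).1 (hy' a ha)) (hx' a ha)
      inv_mem' := by
        rintro x ⟨hx, hx'⟩
        refine ⟨inv_mem hx, fun a ha => ?_⟩
        rw [show ⁅x⁻¹, a⁆ = x⁻¹ * ⁅x, a⁆⁻¹ * x by simp only [commutatorElement_def]; group]
        exact (mem_normalizer_iff''.1 hx _).1 (inv_mem (hx' a ha)) }
  suffices h : E ≤ S from (h he).2 a ha
  conv_lhs => rw [← hres]
  refine pResidualOf_le fun e he hcop => ⟨hE he, fun a ha => ?_⟩
  set c := ⁅e, a⁆ with hc
  have hcW : c ∈ W := hA e he a ha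
  have hk : ∀ k : ℕ, ∃ w ∈ W', e ^ k * a * (e ^ k)⁻¹ = w * c ^ k * a := by
    intro k
    induction k with
    | zero => exact ⟨1, one_mem _, by simp⟩
    | succ k ih =>
      obtain ⟨w, hw, ih⟩ := ih
      refine ⟨e * w * e⁻¹ * ⁅e, c ^ k⁆,
        W'.mul_mem ((mem_normalizer_iff.1 (hE he) w).1 hw) (hW e he _ (W.pow_mem hcW k)), ?_⟩
      calc e ^ (k + 1) * a * (e ^ (k + 1))⁻¹ = e * (e ^ k * a * (e ^ k)⁻¹) * e⁻¹ := by rw [pow_succ']; group
        _ = e * (w * c ^ k * a) * e⁻¹ := by rw [ih]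
        _ = e * w * e⁻¹ * ⁅e, c ^ k⁆ * (c ^ k * c) * a := by simp only [hc, commutatorElement_def]; group
        _ = _ := by rw [← pow_succ]
  obtain ⟨w, hw, h⟩ := hk (orderOf e)
  rw [pow_orderOf_eq_one, one_mul, inv_one, mul_one, eq_comm, mul_eq_right, mul_eq_one_iff_eq_inv] at h
  exact mem_of_pow_eq_one (hexp c hcW) hcop (inv_mem_iff.1 (h ▸ hw))

/-- Elements normalized by a stabilized `p`-subgroup. -/
theorem le_normalizer_of_commutator {E K P : Subgroup G} (hres : Cfsg.pResidualOf p E = E) (hP : IsPGroup p P)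
    (hPE : P ≤ normalizer (E : Set G)) (h : ∀ k ∈ K, ∀ e ∈ E, ⁅k, e⁆ ∈ P) : K ≤ normalizer (E : Set G) := by
  intro k hk
  refine mem_normalizer_of_conj_mem fun e he => ?_
  have : E ≤ E.comap (MulAut.conj k).toMonoidHom := by
    conv_lhs => rw [← hres]
    refine pResidualOf_le fun y hy hyc => ?_
    show k * y * k⁻¹ ∈ E
    refine pElementsFree_mem hP hPE ?_ ?_
    · rw [show k * y * k⁻¹ = ⁅k, y⁆ * y by simp only [commutatorElement_def]; group]
      exact mul_mem (mem_sup_left (h k hk y hy)) (mem_sup_right hy)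
    · rw [← MulAut.conj_apply, MulEquiv.orderOf_eq]; exact hyc
  exact this he

/-- The normalizer of a block normalizes its commutator module. -/
theorem normalizer_le_normalizer_module (p : ℕ) (E : Subgroup G) :
    normalizer (E : Set G) ≤
      normalizer ((⁅Cfsg.omegaOneCenter p (Cfsg.pCoreOf p E), E⁆ : Subgroup G) : Set G) := by
  intro g hg
  rw [mem_normalizer_iff_map_conj_eq]
  show (⁅Cfsg.omegaOneCenter p (Cfsg.pCoreOf p E), E⁆ : Subgroup G).map (MulAut.conj g).toMonoidHom = _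
  have hE : E.map (MulAut.conj g).toMonoidHom = E := mem_normalizer_iff_map_conj_eq.1 hg
  have hQ : (Cfsg.pCoreOf p E).map (MulAut.conj g).toMonoidHom = Cfsg.pCoreOf p E :=
    mem_normalizer_iff_map_conj_eq.1 (LocalP.normalizer_le_normalizer_pCoreOf E hg)
  rw [map_commutator, Cfsg.omegaOneCenter, map_omegaOne (f := (MulAut.conj g).toMonoidHom) (MulAut.conj g).injective,
    Modules.map_inf_centralizer (f := (MulAut.conj g).toMonoidHom) (MulAut.conj g).injective, hQ, hE]

theorem centralizer_le_normalizer' (H : Subgroup G) : centralizer (H : Set G) ≤ normalizer (H : Set G) := fun x hx =>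
  mem_normalizer_of_conj_mem fun w hw => by rwa [← mem_centralizer_iff.1 hx w hw, mul_inv_cancel_right]

/-- The data attached to a block in a group of characteristic `p`. -/
structure BlockSetting (T : Sylow p G) (E : Subgroup G) : Prop where
  char : centralizer (Cfsg.pCore p G : Set G) ≤ Cfsg.pCore p G
  block : Cfsg.IsBaumannBlock p (T : Subgroup G) E

/-- The commutator module of a block. -/
abbrev WE (p : ℕ) (E : Subgroup G) : Subgroup G := ⁅Cfsg.omegaOneCenter p (Cfsg.pCoreOf p E), E⁆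

/-- The `p`-core of the normalizer of the commutator module. -/
abbrev PE (p : ℕ) (E : Subgroup G) : Subgroup G := Cfsg.pCoreOf p (normalizer (WE p E : Set G))

variable {T : Sylow p G} {E : Subgroup G}

theorem E_le_L : E ≤ normalizer (WE p E : Set G) := normalizer_commutator_ge_right _ E

theorem PE_isPGroup : IsPGroup p (PE p E) := LocalP.pCoreOf_isPGroup _

theorem L_le_normalizer_PE : normalizer (WE p E : Set G) ≤ normalizer (PE p E : Set G) :=
  LocalP.le_normalizer_pCoreOf _

theorem B_le_normalizer (h : BlockSetting T E) :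
    Cfsg.baumannSubgroupOf p (T : Subgroup G) ≤ normalizer (E : Set G) := by
  have h1 : Cfsg.baumannSubgroupOf p (T : Subgroup G) ≤
      normalizer ((⁅E, Cfsg.baumannSubgroupOf p (T : Subgroup G)⁆ : Subgroup G) : Set G) :=
    normalizer_commutator_ge_right _ _
  rwa [h.block.2.1] at h1

theorem WE_le_pCore (h : BlockSetting T E) : WE p E ≤ Cfsg.pCore p G :=
  (commutator_module h.char T h.block).2.1.trans (omegaOneCenter_le _)

theorem pCore_le_PE (h : BlockSetting T E) : Cfsg.pCore p G ≤ PE p E := by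
  haveI := Cores.pCore_normal_inst p G
  refine LocalP.le_pCoreOf ?_ (le_top.trans_eq (normalizer_eq_top (H := Cfsg.pCore p G)).symm) Cores.pCore_isPGroup
  have h1 : Cfsg.pCore p G ≤ centralizer (WE p E : Set G) := fun x hx => mem_centralizer_iff.2 fun w hw =>
    (mem_centralizer_iff.1 (omegaOneCenter_le_centralizer _ ((commutator_module h.char T h.block).2.1 hw)) x hx).symm
  exact h1.trans (centralizer_le_normalizer' _)

theorem centralizer_PE_le (h : BlockSetting T E) : centralizer (PE p E : Set G) ≤ PE p E :=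
  ((centralizer_le (pCore_le_PE h)).trans h.char).trans (pCore_le_PE h)

theorem WE_le_PE (h : BlockSetting T E) : WE p E ≤ PE p E := (WE_le_pCore h).trans (pCore_le_PE h)

theorem PE_le_normalizer (h : BlockSetting T E) : PE p E ≤ normalizer (E : Set G) :=
  le_normalizer_block T h.block.1 h.block.2.1 PE_isPGroup
    ((B_le_normalizer h).trans ((normalizer_le_normalizer_module p E).trans L_le_normalizer_PE))
    (E_le_L.trans L_le_normalizer_PE)

theorem commutator_PE_le (h : BlockSetting T E) : ∀ e ∈ E, ∀ a ∈ PE p E, ⁅e, a⁆ ∈ Cfsg.pCoreOf p E := by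
  have h1 : ⁅PE p E, E⁆ ≤ E := commutator_le.2 fun a ha e he => by
    rw [commutatorElement_def]
    exact E.mul_mem ((mem_normalizer_iff.1 (PE_le_normalizer h ha) e).1 he) (E.inv_mem he)
  have h2 : ⁅PE p E, E⁆ ≤ PE p E := commutator_le.2 fun a ha e he => by
    rw [commutatorElement_def, show a * e * a⁻¹ * e⁻¹ = a * (e * a⁻¹ * e⁻¹) by group]
    exact mul_mem ha ((mem_normalizer_iff.1 ((E_le_L.trans L_le_normalizer_PE) he) _).1 (inv_mem ha))
  have h3 : ⁅PE p E, E⁆ ≤ Cfsg.pCoreOf p E :=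
    LocalP.le_pCoreOf h1 (normalizer_commutator_ge_right _ _) (PE_isPGroup.to_le h2)
  intro e he a ha
  rw [← commutatorElement_inv]
  exact inv_mem (h3 (commutator_mem_commutator ha he))

/-- A subgroup whose elements have a power of `p`-power exponent centralizing the `p`-core lies in it. -/
theorem le_PE_of_stab (h : BlockSetting T E) {K S : Subgroup G} (hS : S ≤ K)
    (hKS : K ≤ normalizer (S : Set G)) (hK : K ≤ normalizer (WE p E : Set G))
    (hLK : normalizer (WE p E : Set G) ≤ normalizer (K : Set G))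
    (hpow : ∀ g ∈ S, ∃ m, g ^ p ^ m ∈ centralizer (PE p E : Set G)) : S ≤ PE p E := by
  have hp' : IsPGroup p S := fun ⟨g, hg⟩ => by
    obtain ⟨m, hm⟩ := hpow g hg
    obtain ⟨k, hk⟩ := PE_isPGroup (p := p) ⟨_, centralizer_PE_le h hm⟩
    refine ⟨m + k, Subtype.ext ?_⟩
    have hk' := congrArg Subtype.val hk
    simp only [SubgroupClass.coe_pow, OneMemClass.coe_one] at hk' ⊢
    rw [pow_add, pow_mul, hk']
  refine (LocalP.le_pCoreOf hS hKS hp').trans (LocalP.le_pCoreOf ((LocalP.pCoreOf_le K).trans hK) ?_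
    (LocalP.pCoreOf_isPGroup K))
  exact hLK.trans (LocalP.normalizer_le_normalizer_pCoreOf K)

theorem L_le_normalizer_centralizer :
    normalizer (WE p E : Set G) ≤ normalizer ((centralizer (WE p E : Set G) : Subgroup G) : Set G) := by
  intro g hg
  refine mem_normalizer_of_conj_mem fun c hc => mem_centralizer_iff.2 fun w hw => ?_
  have h := mem_centralizer_iff.1 hc _ ((mem_normalizer_iff''.1 hg w).1 hw)
  calc w * (g * c * g⁻¹) = g * (g⁻¹ * w * g * c) * g⁻¹ := by group
    _ = g * (c * (g⁻¹ * w * g)) * g⁻¹ := by rw [h]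
    _ = g * c * g⁻¹ * w := by group

/-- The case where the block acts trivially on `O_p / W`. -/
theorem centralizer_le_of_trivial (h : BlockSetting T E)
    (hW : ∀ e ∈ E, ∀ a ∈ PE p E, ⁅e, a⁆ ∈ Cfsg.omegaOneCenter p (Cfsg.pCoreOf p E)) :
    centralizer (WE p E : Set G) ≤ normalizer (E : Set G) := by
  set W := Cfsg.omegaOneCenter p (Cfsg.pCoreOf p E) with hWdef
  have hexp : ∀ w ∈ W, w ^ p = 1 := fun w hw => omegaOneCenter_pow hw
  have hWW : ∀ e ∈ E, ∀ w ∈ W, ⁅e, w⁆ ∈ WE p E := fun e he w hw => by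
    rw [← commutatorElement_inv]
    exact inv_mem (commutator_mem_commutator hw he)
  have hexp' : ∀ w ∈ WE p E, w ^ p = 1 := fun w hw =>
    omegaOneCenter_pow ((commutator_module h.char T h.block).2.1 hw)
  have hst : ∀ e ∈ E, ∀ a ∈ PE p E, ⁅e, a⁆ ∈ WE p E := fun e he a ha =>
    stable_le h.block.1 E_le_L hWW hexp (A := (PE p E : Set G)) hW he ha
  set K := centralizer (WE p E : Set G) with hK
  have hKL : K ≤ normalizer (WE p E : Set G) := centralizer_le_normalizer' _
  let S : Subgroup G :=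
    { carrier := {g | g ∈ K ∧ ∀ a ∈ PE p E, ⁅g, a⁆ ∈ WE p E}
      one_mem' := ⟨one_mem _, fun a _ => by rw [commutatorElement_one_left]; exact one_mem _⟩
      mul_mem' := by
        rintro x y ⟨hx, hx'⟩ ⟨hy, hy'⟩
        refine ⟨K.mul_mem hx hy, fun a ha => ?_⟩
        rw [show ⁅x * y, a⁆ = x * ⁅y, a⁆ * x⁻¹ * ⁅x, a⁆ by simp only [commutatorElement_def]; group]
        exact mul_mem ((mem_normalizer_iff.1 (hKL hx) _).1 (hy' a ha)) (hx' a ha)
      inv_mem' := by
        rintro x ⟨hx, hx'⟩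
        refine ⟨K.inv_mem hx, fun a ha => ?_⟩
        rw [show ⁅x⁻¹, a⁆ = x⁻¹ * ⁅x, a⁆⁻¹ * x by simp only [commutatorElement_def]; group]
        exact (mem_normalizer_iff''.1 (hKL hx) _).1 (inv_mem (hx' a ha)) }
  have hKS : K ≤ normalizer (S : Set G) := fun k hk => mem_normalizer_of_conj_mem fun s hs => by
    refine ⟨K.mul_mem (K.mul_mem hk hs.1) (K.inv_mem hk), fun a ha => ?_⟩
    rw [show ⁅k * s * k⁻¹, a⁆ = k * ⁅s, k⁻¹ * a * k⁆ * k⁻¹ by simp only [commutatorElement_def]; group]
    exact (mem_normalizer_iff.1 (hKL hk) _).1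
      (hs.2 _ ((mem_normalizer_iff''.1 (L_le_normalizer_PE (hKL hk)) a).1 ha))
  have hSP : S ≤ PE p E := by
    refine le_PE_of_stab h (fun g hg => hg.1) hKS hKL L_le_normalizer_centralizer fun g hg =>
      ⟨1, mem_centralizer_iff.2 fun a ha => ?_⟩
    have hc : Commute g ⁅g, a⁆ := ((mem_centralizer_iff.1 hg.1) _ (hg.2 a ha)).symm
    have hk := LocalP.conj_pow_eq_of_commute (x := g) (r := a) (c := ⁅g, a⁆)
      (by simp only [commutatorElement_def]; group) hc p
    rw [hexp' _ (hg.2 a ha), one_mul, mul_inv_eq_iff_eq_mul] at hk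
    rw [pow_one]; exact hk.symm
  refine le_normalizer_of_commutator h.block.1 PE_isPGroup (PE_le_normalizer h) fun k hk e he => hSP ⟨?_, fun a ha => ?_⟩
  · rw [commutatorElement_def, show k * e * k⁻¹ * e⁻¹ = k * (e * k⁻¹ * e⁻¹) by group]
    exact K.mul_mem hk ((mem_normalizer_iff.1 (L_le_normalizer_centralizer (E_le_L he)) _).1 (K.inv_mem hk))
  · -- `k e k⁻¹` and `e⁻¹` act trivially modulo the module
    rw [show ⁅⁅k, e⁆, a⁆ =
        (k * e * k⁻¹) * ⁅e⁻¹, a⁆ * (k * e * k⁻¹)⁻¹ * (k * ⁅e, k⁻¹ * a * k⁆ * k⁻¹) by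
      simp only [commutatorElement_def]; group]
    have h1 : k * e * k⁻¹ ∈ normalizer (WE p E : Set G) := mul_mem (mul_mem (hKL hk) (E_le_L he)) (inv_mem (hKL hk))
    exact mul_mem ((mem_normalizer_iff.1 h1 _).1 (hst _ (E.inv_mem he) a ha))
      ((mem_normalizer_iff.1 (hKL hk) _).1 (hst e he _ ((mem_normalizer_iff''.1 (L_le_normalizer_PE (hKL hk)) a).1 ha)))

end Cfsg.Agent.LAE62.BlockCent
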