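import Cfsg.Agent.LAE62.NaturalModule
import Mathlib.Data.ZMod.Basic
import Mathlib.Algebra.Field.ZMod

/-!
Facts on `SL(2, F)` in characteristic three: two anticommuting elements of the derived group, and nontrivial
subgroups normalized by the derived group contain `-1`.
-/

set_option autoImplicit false

open Subgroup Matrix
open scoped commutatorElement

namespace Cfsg.Agent.LAE62.BlockCent

variable {F : Type*} [Field F]

/-- The rotation. -/
def rI : SpecialLinearGroup (Fin 2) F := ⟨!![0, -1; 1, 0], by simp [det_fin_two]⟩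

/-- A conjugate of the rotation anticommuting with it. -/
def rJ (h3 : (3 : F) = 0) : SpecialLinearGroup (Fin 2) F :=
  ⟨!![1, 1; 1, -1], by simp [det_fin_two]; linear_combination -h3⟩

theorem rI_coe : ((rI : SpecialLinearGroup (Fin 2) F) : Matrix (Fin 2) (Fin 2) F) = !![0, -1; 1, 0] := rfl

theorem rJ_coe (h3 : (3 : F) = 0) : (rJ h3 : Matrix (Fin 2) (Fin 2) F) = !![1, 1; 1, -1] := rfl

theorem rI_mem (h3 : (3 : F) = 0) : rI ∈ commutator (SpecialLinearGroup (Fin 2) F) := by
  have h : ⁅upU (1 : F), loU (1 : F)⁆ ∈ commutator (SpecialLinearGroup (Fin 2) F) :=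
    commutator_mem_commutator (mem_top _) (mem_top _)
  convert h using 1
  apply Subtype.ext
  simp only [commutatorElement_def, SpecialLinearGroup.coe_mul, SpecialLinearGroup.coe_inv, upU_coe, loU_coe,
    adjugate_fin_two, rI_coe]
  ext i j
  fin_cases i <;> fin_cases j <;> simp [Matrix.mul_apply, Fin.sum_univ_two] <;> linear_combination -h3

theorem rJ_mem (h3 : (3 : F) = 0) : rJ h3 ∈ commutator (SpecialLinearGroup (Fin 2) F) := by
  have h := (inferInstance : (commutator (SpecialLinearGroup (Fin 2) F)).Normal).conj_mem _ (rI_mem h3) (upU (1 : F))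
  convert h using 1
  apply Subtype.ext
  simp only [SpecialLinearGroup.coe_mul, SpecialLinearGroup.coe_inv, upU_coe, adjugate_fin_two, rI_coe, rJ_coe]
  ext i j
  fin_cases i <;> fin_cases j <;> simp [Matrix.mul_apply, Fin.sum_univ_two] <;> linear_combination h3

theorem rI_rJ (h3 : (3 : F) = 0) : ⁅(rI : SpecialLinearGroup (Fin 2) F), rJ h3⁆ = -1 := by
  apply Subtype.ext
  simp only [commutatorElement_def, SpecialLinearGroup.coe_mul, SpecialLinearGroup.coe_inv, SpecialLinearGroup.coe_neg,
    SpecialLinearGroup.coe_one, adjugate_fin_two, rI_coe, rJ_coe]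
  ext i j
  fin_cases i <;> fin_cases j <;> simp [Matrix.mul_apply, Fin.sum_univ_two] <;> linear_combination h3

theorem neg_one_mem (h3 : (3 : F) = 0) : (-1 : SpecialLinearGroup (Fin 2) F) ∈ commutator _ := by
  rw [← rI_rJ h3]
  exact commutator_mem_commutator (mem_top _) (mem_top _)

theorem two_ne_zero_of_three (h3 : (3 : F) = 0) : (2 : F) ≠ 0 := fun h =>
  one_ne_zero (show (1 : F) = 0 by linear_combination h3 - h)

/-- A matrix commuting with both is scalar. -/
theorem eq_scalar_of_comm (h3 : (3 : F) = 0) (φ : Matrix (Fin 2) (Fin 2) F)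
    (hI : φ * (rI : SpecialLinearGroup (Fin 2) F).1 = (rI : SpecialLinearGroup (Fin 2) F).1 * φ)
    (hJ : φ * (rJ h3).1 = (rJ h3).1 * φ) : φ = φ 0 0 • (1 : Matrix (Fin 2) (Fin 2) F) := by
  rw [rI_coe] at hI
  rw [rJ_coe] at hJ
  have a := congrFun (congrFun hI 0) 0
  have b := congrFun (congrFun hI 0) 1
  have c := congrFun (congrFun hJ 0) 0
  simp [Matrix.mul_apply, Fin.sum_univ_two] at a b c
  have h10 : φ 1 0 = 0 := by
    have h : (2 : F) * φ 1 0 = 0 := by linear_combination a - c
    exact (mul_eq_zero.1 h).resolve_left (two_ne_zero_of_three h3)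
  have h01 : φ 0 1 = 0 := by linear_combination a - h10
  have h11 : φ 1 1 = φ 0 0 := by linear_combination -b
  ext i j
  fin_cases i <;> fin_cases j <;> simp [h01, h10, h11]

theorem upU_mem_commutator {a : F} (ha : a ≠ 0) (ha1 : a * a ≠ 1) (y : F) :
    upU y ∈ commutator (SpecialLinearGroup (Fin 2) F) := by
  have h := commutator_mem_commutator (mem_top (hU a)) (mem_top (upU (y / (a * a - 1))))
  have hz : (hU a : Matrix (Fin 2) (Fin 2) F) 1 0 = 0 := by rw [hU_coe ha]; simp
  have h00 : (hU a : Matrix (Fin 2) (Fin 2) F) 0 0 = a := by rw [hU_coe ha]; simp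
  rw [commutatorElement_def, conj_upU_of_zero hz, upU_inv, ← upU_add, h00] at h
  have hd : a * a - 1 ≠ 0 := sub_ne_zero.2 ha1
  rwa [show a * a * (y / (a * a - 1)) + -(y / (a * a - 1)) = (a * a - 1) * (y / (a * a - 1)) by ring,
    mul_div_cancel₀ _ hd] at h

theorem loU_mem_commutator {a : F} (ha : a ≠ 0) (ha1 : a * a ≠ 1) (y : F) :
    loU y ∈ commutator (SpecialLinearGroup (Fin 2) F) := by
  have h := (inferInstance : (commutator (SpecialLinearGroup (Fin 2) F)).Normal).conj_mem _
    (upU_mem_commutator ha ha1 (-y)) (rI : SpecialLinearGroup (Fin 2) F)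
  convert h using 1
  apply Subtype.ext
  simp only [SpecialLinearGroup.coe_mul, SpecialLinearGroup.coe_inv, upU_coe, loU_coe, rI_coe, adjugate_fin_two]
  ext i j
  fin_cases i <;> fin_cases j <;> simp [Matrix.mul_apply, Fin.sum_univ_two]

theorem wU_mem_commutator {a : F} (ha : a ≠ 0) (ha1 : a * a ≠ 1) (y : F) :
    wU y ∈ commutator (SpecialLinearGroup (Fin 2) F) :=
  mul_mem (mul_mem (upU_mem_commutator ha ha1 y) (loU_mem_commutator ha ha1 _)) (upU_mem_commutator ha ha1 y)

theorem neg_one_mem_of_big (h3 : (3 : F) = 0) {a : F} (ha : a ≠ 0) (ha4 : a ^ 4 ≠ 1)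
    (H : Subgroup (SpecialLinearGroup (Fin 2) F))
    (hH : ∀ r ∈ commutator (SpecialLinearGroup (Fin 2) F), ∀ h ∈ H, r * h * r⁻¹ ∈ H)
    {h : SpecialLinearGroup (Fin 2) F} (hh : h ∈ H) (hne : h ≠ 1) : (-1 : SpecialLinearGroup (Fin 2) F) ∈ H := by
  have h2 := two_ne_zero_of_three h3
  have ha1 : a * a ≠ 1 := fun e => ha4 (by linear_combination (a * a + 1) * e)
  have hI := rI_mem (F := F) h3
  have hh0 : ∀ x : F, x ≠ 0 → hU x ∈ commutator (SpecialLinearGroup (Fin 2) F) := fun x _ =>
    mul_mem (wU_mem_commutator ha ha1 x) (inv_mem (wU_mem_commutator ha ha1 1))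
  -- all lower unitriangular elements lie in `H` as soon as one nontrivial one does
  have fromLo : ∀ y : F, y ≠ 0 → loU y ∈ H → (-1 : SpecialLinearGroup (Fin 2) F) ∈ H := by
    intro y hy hyH
    have hsq : ∀ x : F, x ≠ 0 → loU (x * x * y) ∈ H := fun x hx => by
      have h1 := hH _ (hh0 _ (inv_ne_zero hx)) _ hyH
      convert h1 using 1
      apply Subtype.ext
      simp only [SpecialLinearGroup.coe_mul, SpecialLinearGroup.coe_inv, hU_coe (inv_ne_zero hx), loU_coe,
        adjugate_fin_two]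
      ext i j
      fin_cases i <;> fin_cases j <;> simp [Matrix.mul_apply, Fin.sum_univ_two, hx] <;> ring
    have hlo0 : loU (0 : F) ∈ H := by
      convert H.one_mem
      apply Subtype.ext
      rw [loU_coe]; ext i j; fin_cases i <;> fin_cases j <;> simp
    have hsq0 : ∀ x : F, loU (x * x * y) ∈ H := fun x => by
      by_cases hx : x = 0
      · simpa [hx] using hlo0
      · exact hsq x hx
    have hall : ∀ s : F, loU s ∈ H := fun s => by
      have h1 := H.mul_mem (hsq0 ((s / y + 1) / 2)) (H.inv_mem (hsq0 ((s / y - 1) / 2)))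
      convert h1 using 1
      apply Subtype.ext
      simp only [SpecialLinearGroup.coe_mul, SpecialLinearGroup.coe_inv, loU_coe, adjugate_fin_two]
      ext i j
      fin_cases i <;> fin_cases j <;> simp [Matrix.mul_apply, Fin.sum_univ_two]
      field_simp
      ring
    have hup : ∀ s : F, upU s ∈ H := fun s => by
      have h1 := hH _ hI _ (hall (-s))
      convert h1 using 1
      apply Subtype.ext
      simp only [SpecialLinearGroup.coe_mul, SpecialLinearGroup.coe_inv, upU_coe, loU_coe, rI_coe, adjugate_fin_two]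
      ext i j
      fin_cases i <;> fin_cases j <;> simp [Matrix.mul_apply, Fin.sum_univ_two]
    have hw : wU (1 : F) ∈ H := H.mul_mem (H.mul_mem (hup 1) (hall _)) (hup 1)
    convert H.mul_mem hw hw using 1
    apply Subtype.ext
    simp only [SpecialLinearGroup.coe_mul, SpecialLinearGroup.coe_neg, SpecialLinearGroup.coe_one,
      wU_coe one_ne_zero]
    ext i j
    fin_cases i <;> fin_cases j <;> simp [Matrix.mul_apply, Fin.sum_univ_two]
  have fromTri : ∀ g : SpecialLinearGroup (Fin 2) F, g ∈ H → g 0 1 = 0 → g 0 0 * g 0 0 ≠ 1 →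
      (-1 : SpecialLinearGroup (Fin 2) F) ∈ H := by
    intro g hg h01 hsq
    have hdet := det_eq_one g
    rw [h01, zero_mul, sub_zero] at hdet
    have hm := H.mul_mem hg (H.inv_mem (hH _ (loU_mem_commutator ha ha1 (1 : F)) _ hg))
    refine fromLo (g 1 1 * g 1 1 - 1) (fun e => hsq (by linear_combination (g 0 0 * g 1 1 + 1) * hdet - g 0 0 * g 0 0 * e)) ?_
    convert hm using 1
    apply Subtype.ext
    simp only [SpecialLinearGroup.coe_mul, SpecialLinearGroup.coe_inv, _root_.mul_inv_rev, loU_coe, adjugate_fin_two]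
    ext i j
    fin_cases i <;> fin_cases j <;> simp [Matrix.mul_apply, Fin.sum_univ_two, h01] <;>
      first | ring1 | linear_combination hdet | linear_combination -hdet
  have fromCol : ∀ g : SpecialLinearGroup (Fin 2) F, g ∈ H → g 1 0 ≠ 0 →
      (-1 : SpecialLinearGroup (Fin 2) F) ∈ H := by
    intro g hg h10
    set x : F := -(g 0 0) / g 1 0 with hx
    set g' := upU x * g * (upU x)⁻¹ with hg'def
    have hg' : g' ∈ H := hH _ (upU_mem_commutator ha ha1 x) _ hg
    have h00 : g' 0 0 = 0 := by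
      simp [hg'def, SpecialLinearGroup.coe_mul, SpecialLinearGroup.coe_inv, upU_coe, adjugate_fin_two,
        Matrix.mul_apply, Fin.sum_univ_two, Matrix.vecMul, dotProduct, hx]
      field_simp
      ring
    have hdet := det_eq_one g'
    rw [h00, zero_mul, zero_sub] at hdet
    refine fromTri (hU a * g' * (hU a)⁻¹ * g'⁻¹) (H.mul_mem (hH _ (hh0 a ha) _ hg') (H.inv_mem hg')) ?_ ?_
    · simp [SpecialLinearGroup.coe_mul, SpecialLinearGroup.coe_inv, hU_coe ha, adjugate_fin_two,
        Matrix.mul_apply, Fin.sum_univ_two, Matrix.vecMul, dotProduct, h00]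
    · have e : (hU a * g' * (hU a)⁻¹ * g'⁻¹ : SpecialLinearGroup (Fin 2) F) 0 0 = a * a := by
        simp [SpecialLinearGroup.coe_mul, SpecialLinearGroup.coe_inv, hU_coe ha, adjugate_fin_two,
          Matrix.mul_apply, Fin.sum_univ_two, Matrix.vecMul, dotProduct, h00]
        linear_combination a * a * hdet
      rw [e]
      exact fun e' => ha4 (by linear_combination e')
  by_cases h10 : h 1 0 = 0
  swap
  · exact fromCol h hh h10
  by_cases h01 : h 0 1 = 0
  swap
  · refine fromCol (rI * h * rI⁻¹) (hH _ hI _ hh) ?_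
    simp [SpecialLinearGroup.coe_mul, SpecialLinearGroup.coe_inv, rI_coe, adjugate_fin_two, Matrix.mul_apply,
      Fin.sum_univ_two, Matrix.vecMul, dotProduct, h01]
  by_cases hsq : h 0 0 * h 0 0 = 1
  · have hdet := det_eq_one h
    rw [h01, h10, zero_mul, sub_zero] at hdet
    have h11 : h 1 1 = h 0 0 := by linear_combination h 0 0 * hdet - h 1 1 * hsq
    rcases mul_self_eq_one_iff.1 hsq with e | e
    · refine absurd (Subtype.ext ?_) hne
      rw [SpecialLinearGroup.coe_one]
      ext i j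
      fin_cases i <;> fin_cases j <;> simp [h01, h10, h11, e]
    · convert hh using 1
      apply Subtype.ext
      rw [SpecialLinearGroup.coe_neg, SpecialLinearGroup.coe_one]
      ext i j
      fin_cases i <;> fin_cases j <;> simp [h01, h10, h11, e]
  · exact fromTri h hh h01 hsq

theorem zmod3_case : ∀ a b c d : ZMod 3, a * d - b * c = 1 → !![a, b; c, d] ≠ (1 : Matrix (Fin 2) (Fin 2) (ZMod 3)) →
    let m : Matrix (Fin 2) (Fin 2) (ZMod 3) := !![a, b; c, d]
    let x : Matrix (Fin 2) (Fin 2) (ZMod 3) := m * (!![0, -1; 1, 0] * !![d, -b; -c, a] * !![0, 1; -1, 0])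
    m = -1 ∨ m * m = -1 ∨ m * m * m = -1 ∨ x = -1 ∨ x * x = -1 := by
  decide +kernel

/-- A nontrivial subgroup normalized by the derived group contains `-1`. -/
theorem neg_one_mem_of_normalized (h3 : (3 : F) = 0)
    (hF : (∃ a : F, a ≠ 0 ∧ a ^ 4 ≠ 1) ∨ ∀ s : F, s = 0 ∨ s = 1 ∨ s = -1)
    (H : Subgroup (SpecialLinearGroup (Fin 2) F))
    (hH : ∀ r ∈ commutator (SpecialLinearGroup (Fin 2) F), ∀ h ∈ H, r * h * r⁻¹ ∈ H)
    {h : SpecialLinearGroup (Fin 2) F} (hh : h ∈ H) (hne : h ≠ 1) : (-1 : SpecialLinearGroup (Fin 2) F) ∈ H := by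
  rcases hF with ⟨a, ha, ha4⟩ | hsmall
  · exact neg_one_mem_of_big h3 ha ha4 H hH hh hne
  haveI : CharP F 3 := (CharP.charP_iff_prime_eq_zero Nat.prime_three).2 (by exact_mod_cast h3)
  let f : ZMod 3 →+* F := ZMod.castHom (dvd_refl 3) F
  have hf : Function.Surjective f := fun s => by
    rcases hsmall s with rfl | rfl | rfl
    exacts [⟨0, map_zero f⟩, ⟨1, map_one f⟩, ⟨-1, by rw [map_neg, map_one]⟩]
  obtain ⟨a, ha⟩ := hf (h 0 0)
  obtain ⟨b, hb⟩ := hf (h 0 1)
  obtain ⟨c, hc⟩ := hf (h 1 0)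
  obtain ⟨d, hd⟩ := hf (h 1 1)
  have hm : f.mapMatrix !![a, b; c, d] = h.1 := by
    ext i j
    fin_cases i <;> fin_cases j <;> simp [ha, hb, hc, hd]
  have hdet : a * d - b * c = 1 := f.injective (by
    rw [map_sub, map_mul, map_mul, map_one, ha, hb, hc, hd]; exact det_eq_one h)
  have hne' : !![a, b; c, d] ≠ (1 : Matrix (Fin 2) (Fin 2) (ZMod 3)) := fun e => hne (Subtype.ext (by
    rw [← hm, e, map_one, SpecialLinearGroup.coe_one]))
  have hx : h * (rI * h⁻¹ * rI⁻¹) ∈ H := H.mul_mem hh (hH _ (rI_mem h3) _ (H.inv_mem hh))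
  have hxm : f.mapMatrix (!![a, b; c, d] * (!![0, -1; 1, 0] * !![d, -b; -c, a] * !![0, 1; -1, 0])) =
      (h * (rI * h⁻¹ * rI⁻¹) : SpecialLinearGroup (Fin 2) F).1 := by
    simp only [map_mul, hm, SpecialLinearGroup.coe_mul, SpecialLinearGroup.coe_inv, rI_coe, adjugate_fin_two]
    congr 1
    ext i j
    fin_cases i <;> fin_cases j <;> simp [Matrix.mul_apply, Fin.sum_univ_two, ha, hb, hc, hd]
  have fin : ∀ (g : SpecialLinearGroup (Fin 2) F) (m : Matrix (Fin 2) (Fin 2) (ZMod 3)),
      g ∈ H → f.mapMatrix m = g.1 → m = -1 → (-1 : SpecialLinearGroup (Fin 2) F) ∈ H := fun g m hg hgm e => by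
    convert hg using 1
    apply Subtype.ext
    rw [SpecialLinearGroup.coe_neg, SpecialLinearGroup.coe_one, ← hgm, e, map_neg, map_one]
  rcases zmod3_case a b c d hdet hne' with e | e | e | e | e
  · exact fin h _ hh hm e
  · exact fin (h * h) _ (H.mul_mem hh hh) (by rw [map_mul, hm, SpecialLinearGroup.coe_mul]) e
  · exact fin (h * h * h) _ (H.mul_mem (H.mul_mem hh hh) hh)
      (by simp only [map_mul, hm, SpecialLinearGroup.coe_mul]) e
  · exact fin _ _ hx hxm e
  · exact fin _ _ (H.mul_mem hx hx) (by rw [map_mul, hxm]; rfl) e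

theorem three_pow_dichotomy [Fintype F] {n : ℕ} (hcard : Fintype.card F = 3 ^ n) :
    (3 : F) = 0 ∧ ((∃ a : F, a ≠ 0 ∧ a ^ 4 ≠ 1) ∨ ∀ s : F, s = 0 ∨ s = 1 ∨ s = -1) := by
  classical
  have hn : n ≠ 0 := fun e => by
    rw [e, pow_zero] at hcard
    have := Fintype.one_lt_card (α := F); omega
  have h3 : (3 : F) = 0 := by
    have h := FiniteField.cast_card_eq_zero F
    rw [hcard, Nat.cast_pow] at h
    exact_mod_cast eq_zero_of_pow_eq_zero h
  refine ⟨h3, or_iff_not_imp_left.2 fun hall => ?_⟩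
  push Not at hall
  have hle : (Finset.univ.erase (0 : F)).card ≤ 4 := by
    refine (Finset.card_le_card (t := (Polynomial.nthRoots 4 (1 : F)).toFinset) fun x hx => ?_).trans
      ((Multiset.toFinset_card_le _).trans (Polynomial.card_nthRoots 4 1))
    rw [Multiset.mem_toFinset, Polynomial.mem_nthRoots (by norm_num)]
    exact hall x (Finset.ne_of_mem_erase hx)
  rw [Finset.card_erase_of_mem (Finset.mem_univ _), Finset.card_univ, hcard] at hle
  have hn1 : n = 1 := by
    by_contra h
    have : 3 ^ 2 ≤ 3 ^ n := Nat.pow_le_pow_right (by norm_num) (by omega)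
    omega
  have h2 := two_ne_zero_of_three h3
  intro s
  have huniv : ({0, 1, -1} : Finset F) = Finset.univ := by
    refine Finset.eq_univ_of_card _ ?_
    rw [Finset.card_insert_of_notMem, Finset.card_insert_of_notMem, Finset.card_singleton, hcard, hn1, pow_one]
    · rw [Finset.mem_singleton]; exact fun e => h2 (by linear_combination e)
    · simp
  have := Finset.mem_univ s
  rw [← huniv] at this
  simpa using this

end Cfsg.Agent.LAE62.BlockCent
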