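import Cfsg.Agent.LAE62.BlockCentralizer.Basic
import Cfsg.Agent.LAE62.BlockCentralizer.SL2Odd
import Cfsg.Agent.PGroup.Basic

/-!
Basic facts on an exceptional block whose core lies in the `p`-core of the normalizer of its commutator module.
-/

set_option autoImplicit false

open Subgroup Matrix
open scoped commutatorElement

namespace Cfsg.Agent.LAE62.BlockCent

open Baumann

variable {G : Type*} [Group G] [Finite G] [Fact (Nat.Prime 3)] {F : Type} [Field F] [Fintype F]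

theorem val_one {R : Type*} [CommRing R] : (1 : SpecialLinearGroup (Fin 2) R).1 = 1 := rfl

theorem val_neg {R : Type*} [CommRing R] (g : SpecialLinearGroup (Fin 2) R) : (-g).1 = -g.1 := rfl

theorem val_inv {R : Type*} [CommRing R] (g : SpecialLinearGroup (Fin 2) R) : g⁻¹.1 = g.1.adjugate := rfl

/-- The core of the block. -/
abbrev Qb (E : Subgroup G) : Subgroup G := Cfsg.pCoreOf 3 E

/-- The elements of order three in the centre of the core. -/
abbrev Wb (E : Subgroup G) : Subgroup G := Cfsg.omegaOneCenter 3 (Qb E)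

/-- The fixed points of the block. -/
abbrev Zb (E : Subgroup G) : Subgroup G := Wb E ⊓ centralizer (E : Set G)

/-- The central part of the `p`-core of the normalizer of the commutator module. -/
abbrev Vb (E : Subgroup G) : Subgroup G := Cfsg.omegaOneCenter 3 (PE 3 E)

/-- An exceptional block with the two natural sections. -/
structure Exc (T : Sylow 3 G) (E : Subgroup G) (F : Type) [Field F] [Fintype F] where
  setting : BlockSetting T E
  n : ℕ
  card : Fintype.card F = 3 ^ n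
  fW : G → Fin 2 → F
  fW_mul : ∀ a ∈ Wb E, ∀ b ∈ Wb E, fW (a * b) = fW a + fW b
  fW_zero : ∀ w ∈ Wb E, fW w = 0 ↔ w ∈ Zb E
  fW_surj : ∀ x, ∃ w ∈ Wb E, fW w = x
  rW : ↥E →* SpecialLinearGroup (Fin 2) F
  fW_conj : ∀ (e : E), ∀ w ∈ Wb E, fW (e * w * (e : G)⁻¹) = (rW e).1 *ᵥ fW w
  fQ : G → Fin 2 → F
  fQ_mul : ∀ a ∈ Qb E, ∀ b ∈ Qb E, fQ (a * b) = fQ a + fQ b
  fQ_zero : ∀ x ∈ Qb E, fQ x = 0 ↔ x ∈ Wb E
  fQ_surj : ∀ x, ∃ a ∈ Qb E, fQ a = x
  rQ : ↥E →* SpecialLinearGroup (Fin 2) F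
  fQ_conj : ∀ (e : E), ∀ a ∈ Qb E, fQ (e * a * (e : G)⁻¹) = (rQ e).1 *ᵥ fQ a
  rW_range : rW.range = commutator (SpecialLinearGroup (Fin 2) F)
  rQ_range : rQ.range = commutator (SpecialLinearGroup (Fin 2) F)
  quot : Nonempty (↥E ⧸ Cfsg.pCore 3 ↥E ≃* ↥(commutator (SpecialLinearGroup (Fin 2) F)))
  comm : ⁅Qb E, Qb E⁆ = Zb E
  cardZ : Nat.card ↥(Zb E) = 3 ^ n
  quad : ∀ b : G, b ∈ Cfsg.baumannSubgroupOf 3 (T : Subgroup G) → b ∉ centralizer (Wb E : Set G) →
    ¬ ⁅⁅Qb E, zpowers b⁆, zpowers b⁆ ≤ E ⊓ centralizer (E : Set G)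
  cent : E ⊓ centralizer (E : Set G) = Zb E
  Q_le : Qb E ≤ PE 3 E
  ea : ↥E
  eb : ↥E
  rQ_ea : rQ ea = rI
  rQ_eb : (rQ eb).1 = !![1, 1; 1, -1]

variable {T : Sylow 3 G} {E : Subgroup G} (D : Exc T E F)

theorem Q_le_E : Qb E ≤ E := Baumann.pCoreOf_le E

theorem W_le_Q : Wb E ≤ Qb E := omegaOneCenter_le _

theorem E_le_normalizer_Q : E ≤ normalizer (Qb E : Set G) := LocalP.le_normalizer_pCoreOf E

theorem E_le_normalizer_W : E ≤ normalizer (Wb E : Set G) := fun g hg => by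
  rw [mem_normalizer_iff_map_conj_eq]
  show (Cfsg.omegaOneCenter 3 (Qb E)).map (MulAut.conj g).toMonoidHom = _
  rw [Cfsg.omegaOneCenter, map_omegaOne (f := (MulAut.conj g).toMonoidHom) (MulAut.conj g).injective,
    Modules.map_inf_centralizer (f := (MulAut.conj g).toMonoidHom) (MulAut.conj g).injective,
    show (Qb E).map (MulAut.conj g).toMonoidHom = Qb E from mem_normalizer_iff_map_conj_eq.1 (E_le_normalizer_Q hg)]
  rfl

theorem WE_le_W : WE 3 E ≤ Wb E := commutator_le.2 fun w hw e he => by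
  rw [commutatorElement_def, show w * e * w⁻¹ * e⁻¹ = w * (e * w⁻¹ * e⁻¹) by group]
  exact mul_mem hw ((mem_normalizer_iff.1 (E_le_normalizer_W he) _).1 (inv_mem hw))

theorem W_comm_Q {w x : G} (hw : w ∈ Wb E) (hx : x ∈ Qb E) : x * w = w * x :=
  mem_centralizer_iff.1 (omegaOneCenter_le_centralizer _ hw) x hx

include D

theorem three_zero : (3 : F) = 0 := (three_pow_dichotomy D.card).1

theorem fQ_one : D.fQ 1 = 0 := (D.fQ_zero 1 (one_mem _)).2 (one_mem _)

theorem fQ_inv {a : G} (ha : a ∈ Qb E) : D.fQ a⁻¹ = -D.fQ a := by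
  have h := D.fQ_mul a ha a⁻¹ (inv_mem ha)
  rw [mul_inv_cancel, fQ_one D] at h
  exact eq_neg_of_add_eq_zero_right h.symm

theorem fW_one : D.fW 1 = 0 := (D.fW_zero 1 (one_mem _)).2 (one_mem _)

theorem fW_inv {a : G} (ha : a ∈ Wb E) : D.fW a⁻¹ = -D.fW a := by
  have h := D.fW_mul a ha a⁻¹ (inv_mem ha)
  rw [mul_inv_cancel, fW_one D] at h
  exact eq_neg_of_add_eq_zero_right h.symm

theorem rep_ker (r : ↥E →* SpecialLinearGroup (Fin 2) F)
    (hr : r.range = commutator (SpecialLinearGroup (Fin 2) F))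
    (hQ : ∀ e : E, (e : G) ∈ Qb E → r e = 1) (e : E) : r e = 1 ↔ (e : G) ∈ Qb E := by
  have hle : Cfsg.pCore 3 ↥E ≤ r.ker := fun x hx => hQ x ⟨x, hx, rfl⟩
  have heq : Cfsg.pCore 3 ↥E = r.ker := by
    refine eq_of_le_of_card_ge hle (le_of_eq ?_)
    obtain ⟨φ⟩ := D.quot
    have h1 := card_eq_card_quotient_mul_card_subgroup (Cfsg.pCore 3 ↥E)
    have h2 := card_eq_card_quotient_mul_card_subgroup r.ker
    rw [Nat.card_congr (QuotientGroup.quotientKerEquivRange r).toEquiv, hr] at h2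
    rw [Nat.card_congr φ.toEquiv, h2] at h1
    exact (mul_left_cancel₀ Nat.card_pos.ne' h1)
  constructor
  · exact fun h => ⟨e, heq.ge h, rfl⟩
  · exact hQ e

theorem eq_one_of_mulVec {g : SpecialLinearGroup (Fin 2) F} (h : ∀ x, g.1 *ᵥ x = x) : g = 1 :=
  Subtype.ext (Matrix.toLin'.injective (LinearMap.ext fun x => by
    rw [Matrix.toLin'_apply, Matrix.toLin'_apply, h, val_one, Matrix.one_mulVec]))

theorem rQ_ker (e : E) : D.rQ e = 1 ↔ (e : G) ∈ Qb E := by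
  refine rep_ker D D.rQ D.rQ_range (fun e he => eq_one_of_mulVec D fun x => ?_) e
  obtain ⟨a, ha, rfl⟩ := D.fQ_surj x
  rw [← D.fQ_conj e a ha, D.fQ_mul _ (mul_mem he ha) _ (inv_mem he), D.fQ_mul _ he _ ha, fQ_inv D he]
  abel

theorem rW_ker (e : E) : D.rW e = 1 ↔ (e : G) ∈ Qb E := by
  refine rep_ker D D.rW D.rW_range (fun e he => eq_one_of_mulVec D fun x => ?_) e
  obtain ⟨w, hw, rfl⟩ := D.fW_surj x
  rw [← D.fW_conj e w hw, W_comm_Q hw he, mul_inv_cancel_right]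

/-- The element inverting both sections. -/
def tE : ↥E := ⁅D.ea, D.eb⁆

theorem rQ_tE : D.rQ (tE D) = -1 := by
  have hb : D.rQ D.eb = rJ (three_zero D) := Subtype.ext D.rQ_eb
  rw [tE, map_commutatorElement, D.rQ_ea, hb, rI_rJ]

theorem sl2_neg_one_ne_one : (-1 : SpecialLinearGroup (Fin 2) F) ≠ 1 := fun h => by
  have h1 := congrArg (fun g : SpecialLinearGroup (Fin 2) F => g.1 0 0) h
  simp at h1
  exact two_ne_zero_of_three (three_zero D) (by linear_combination -h1)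

theorem rW_tE : D.rW (tE D) = -1 := by
  set g := D.rW (tE D) with hg
  have h2 : g * g = 1 := by
    rw [hg, ← map_mul, rW_ker D, ← rQ_ker D, map_mul, rQ_tE D, neg_mul_neg, one_mul]
  have hne : g ≠ 1 := fun h => sl2_neg_one_ne_one D (by
    rw [hg, rW_ker D, ← rQ_ker D, rQ_tE D] at h; exact h)
  have hinv : g⁻¹ = g := inv_eq_of_mul_eq_one_right h2
  have e : g.1.adjugate = g.1 := by rw [← val_inv, hinv]
  rw [Matrix.adjugate_fin_two] at e
  have e00 := congrFun (congrFun e 0) 0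
  have e01 := congrFun (congrFun e 0) 1
  have e10 := congrFun (congrFun e 1) 0
  simp at e00 e01 e10
  have hh2 := two_ne_zero_of_three (three_zero D)
  have h01 : g.1 0 1 = 0 := (mul_eq_zero.1 (show (2 : F) * g.1 0 1 = 0 by linear_combination -e01)).resolve_left hh2
  have h10 : g.1 1 0 = 0 := (mul_eq_zero.1 (show (2 : F) * g.1 1 0 = 0 by linear_combination -e10)).resolve_left hh2
  have hdet := det_eq_one g
  rw [e00, h01, h10, zero_mul, sub_zero] at hdet
  rcases mul_self_eq_one_iff.1 hdet with e | e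
  · refine absurd (Subtype.ext ?_) hne
    ext i j
    fin_cases i <;> fin_cases j <;> simp [h01, h10, e, e00]
  · apply Subtype.ext
    ext i j
    fin_cases i <;> fin_cases j <;> simp [h01, h10, e, e00]

theorem fQ_tE {a : G} (ha : a ∈ Qb E) : D.fQ ((tE D : G) * a * (tE D : G)⁻¹) = -D.fQ a := by
  rw [D.fQ_conj _ a ha, rQ_tE D, val_neg, val_one, Matrix.neg_mulVec,
    Matrix.one_mulVec]

theorem fW_tE {w : G} (hw : w ∈ Wb E) : D.fW ((tE D : G) * w * (tE D : G)⁻¹) = -D.fW w := by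
  rw [D.fW_conj _ w hw, rW_tE D, val_neg, val_one, Matrix.neg_mulVec,
    Matrix.one_mulVec]

theorem W_pow {w : G} (hw : w ∈ Wb E) : w ^ 3 = 1 := omegaOneCenter_pow hw

theorem not_Q_comm : ¬ ∀ x ∈ Qb E, ∀ y ∈ Qb E, x * y = y * x := fun hab => by
  have hbot : ⁅Qb E, Qb E⁆ = ⊥ :=
    commutator_eq_bot_iff_le_centralizer.2 fun x hx => mem_centralizer_iff.2 fun a ha => hab a ha x hx
  have h := D.cardZ
  rw [← D.comm, hbot, card_bot] at h
  have hc := D.card
  rw [← h] at hc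
  have := Fintype.one_lt_card (α := F)
  omega

theorem WE_not_le_Z : ¬ WE 3 E ≤ centralizer (E : Set G) := fun h => by
  have h2 := le_centralizer_of_commutator D.setting.block.1 (fun x hx => W_pow D (WE_le_W hx))
    (le_centralizer_iff.1 h)
  have he : D.rW D.ea = 1 := eq_one_of_mulVec D fun x => by
    obtain ⟨w, hw, rfl⟩ := D.fW_surj x
    rw [← D.fW_conj _ w hw, ← mem_centralizer_iff.1 (h2 D.ea.2) w hw, mul_inv_cancel_right]
  rw [rW_ker D, ← rQ_ker D, D.rQ_ea] at he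
  have h1 := congrArg (fun g : SpecialLinearGroup (Fin 2) F => g.1 0 0) he
  simp [rI_coe] at h1

theorem exists_WE_div {w : G} (hw : w ∈ Wb E) : ∃ y ∈ WE 3 E, y⁻¹ * w ∈ Zb E := by
  obtain ⟨-, -, -, -, hmod⟩ := D.setting.block
  rcases hmod with ⟨F', _, _, n, -, -, hact, -⟩ | ⟨hp, -⟩
  · exact BlockModules.sl2_section hact WE_le_W (normalizer_commutator_ge_right _ E)
      (fun h => WE_not_le_Z D (h.trans inf_le_right)) hw
  · norm_num at hp

theorem WE_inverted {w : G} (hw : w ∈ WE 3 E) : (tE D : G) * w * (tE D : G)⁻¹ = w⁻¹ := by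
  set t := (tE D : G) with ht
  unfold WE at hw
  rw [Subgroup.commutator_def] at hw
  have hgen : ∀ a ∈ Wb E, ∀ e ∈ E, t * ⁅a, e⁆ * t⁻¹ = ⁅a, e⁆⁻¹ := by
    intro a ha e he
    have hta : t * a * t⁻¹ ∈ Wb E := (mem_normalizer_iff.1 (E_le_normalizer_W (tE D).2) a).1 ha
    have htaz : t * a * t⁻¹ * a ∈ Zb E := (D.fW_zero _ (mul_mem hta ha)).1 (by
      rw [D.fW_mul _ hta _ ha, fW_tE D ha, neg_add_cancel])
    have htq : e⁻¹ * (t * e * t⁻¹) ∈ Qb E := by
      have h1 : D.rQ (⟨e, he⟩⁻¹ * (tE D * ⟨e, he⟩ * (tE D)⁻¹)) = 1 := by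
        have hneg : (-1 : SpecialLinearGroup (Fin 2) F)⁻¹ = -1 := inv_eq_of_mul_eq_one_right (by simp)
        rw [map_mul, map_mul, map_mul, map_inv, map_inv, rQ_tE D, hneg]
        simp
      exact (rQ_ker D _).1 h1
    set z := t * a * t⁻¹ * a with hz
    set q := e⁻¹ * (t * e * t⁻¹) with hq
    have hzc : ∀ y ∈ E, y * z = z * y := fun y hy => mem_centralizer_iff.1 htaz.2 y hy
    have hinvw : ⁅a, e⁆⁻¹ = ⁅a⁻¹, e⁆ := by
      rw [show ⁅a⁻¹, e⁆ = a⁻¹ * (⁅a, e⁆⁻¹ * a) by simp only [commutatorElement_def]; group]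
      have hc : ⁅a, e⁆⁻¹ * a = a * ⁅a, e⁆⁻¹ :=
        (W_comm_Q (inv_mem (WE_le_W (commutator_mem_commutator ha he))) (W_le_Q ha)).symm
      rw [hc, inv_mul_cancel_left]
    have hqa : q * a = a * q := W_comm_Q ha htq
    have hqz : q * z = z * q := hzc q (Q_le_E htq)
    have hez : e * z = z * e := hzc e he
    have h1 : t * a * t⁻¹ = z * a⁻¹ := by rw [hz, mul_inv_cancel_right]
    have h2 : t * e * t⁻¹ = e * q := by rw [hq, mul_inv_cancel_left]
    rw [hinvw, show t * ⁅a, e⁆ * t⁻¹ = ⁅t * a * t⁻¹, t * e * t⁻¹⁆ by simp only [commutatorElement_def]; group, h1, h2]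
    have hzW : z ∈ Wb E := htaz.1
    calc ⁅z * a⁻¹, e * q⁆ = z * a⁻¹ * e * (q * a * z⁻¹ * q⁻¹) * e⁻¹ := by
          simp only [commutatorElement_def]; group
      _ = z * a⁻¹ * e * (a * z⁻¹) * e⁻¹ := by
          rw [show q * a * z⁻¹ * q⁻¹ = q * a * (q * z)⁻¹ by group, hqz, hqa]; group
      _ = z * (a⁻¹ * e * a) * (e * z)⁻¹ := by group
      _ = z * (a⁻¹ * e * a * e⁻¹) * z⁻¹ := by rw [hez]; group
      _ = ⁅a⁻¹, e⁆ := by
          rw [show a⁻¹ * e * a * e⁻¹ = ⁅a⁻¹, e⁆ by simp only [commutatorElement_def]; group,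
            W_comm_Q (WE_le_W (commutator_mem_commutator (inv_mem ha) he)) (W_le_Q hzW), mul_inv_cancel_right]
  induction hw using Subgroup.closure_induction with
  | mem x hx =>
    obtain ⟨a, ha, e, he, rfl⟩ := hx
    exact hgen a ha e he
  | one => simp
  | mul x y hx hy h1 h2 =>
    have hxW : x ∈ Wb E := WE_le_W (show x ∈ WE 3 E from hx)
    have hyW : y ∈ Wb E := WE_le_W (show y ∈ WE 3 E from hy)
    rw [show t * (x * y) * t⁻¹ = t * x * t⁻¹ * (t * y * t⁻¹) by group, h1, h2, _root_.mul_inv_rev,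
      ← _root_.mul_inv_rev, ← _root_.mul_inv_rev, W_comm_Q hxW (W_le_Q hyW)]
  | inv x _ h1 => rw [show t * x⁻¹ * t⁻¹ = (t * x * t⁻¹)⁻¹ by group, h1]

theorem WE_inf_Z {w : G} (hw : w ∈ WE 3 E) (hz : w ∈ centralizer (E : Set G)) : w = 1 := by
  have h := WE_inverted D hw
  rw [mem_centralizer_iff.1 hz _ (tE D).2, mul_inv_cancel_right] at h
  have h2 : w * w = 1 := by conv_lhs => lhs; rw [h]
                            exact inv_mul_cancel w
  have h3 := W_pow D (WE_le_W hw)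
  rw [pow_succ, pow_two, h2, one_mul] at h3
  exact h3

theorem PE_centralizes_WE {a w : G} (ha : a ∈ PE 3 E) (hw : w ∈ WE 3 E) : a * w = w * a := by
  set P := PE 3 E with hP
  set C := WE 3 E ⊓ centralizer (P : Set G) with hC
  have hne : C ≠ ⊥ := by
    have hWne : WE 3 E ≠ ⊥ := fun h => WE_not_le_Z D (h ▸ bot_le)
    haveI : ((WE 3 E).subgroupOf P).Normal :=
      normal_subgroupOf_of_le_normalizer (LocalP.pCoreOf_le _)
    haveI : Nontrivial P :=
      (nontrivial_iff_ne_bot P).2 fun h => hWne (le_bot_iff.1 ((WE_le_PE D.setting).trans h.le))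
    have hne' : (WE 3 E).subgroupOf P ≠ ⊥ := fun h => hWne (by
      rw [← map_subgroupOf_eq_of_le (WE_le_PE D.setting), h, Subgroup.map_bot])
    obtain ⟨z, ⟨hz1, hz2⟩, hzne⟩ : ∃ z : P, (z ∈ (WE 3 E).subgroupOf P ∧ z ∈ center P) ∧ z ≠ 1 := by
      have h := PGroup.inf_center_ne_bot (p := 3) (LocalP.pCoreOf_isPGroup (normalizer (WE 3 E : Set G))) _ hne'
      obtain ⟨z, hz, hzne⟩ := (Subgroup.bot_or_exists_ne_one _).resolve_left h
      exact ⟨z, hz, hzne⟩
    intro h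
    have hzC : (z : G) ∈ C :=
      ⟨hz1, mem_centralizer_iff.2 fun y hy => congrArg Subtype.val (Subgroup.mem_center_iff.1 hz2 ⟨y, hy⟩)⟩
    rw [h, mem_bot] at hzC
    exact hzne (Subtype.ext hzC)
  have hEC : E ≤ normalizer (C : Set G) := fun e he => mem_normalizer_of_conj_mem fun c hc => by
    refine ⟨(mem_normalizer_iff.1 (E_le_L he) c).1 hc.1, mem_centralizer_iff.2 fun y hy => ?_⟩
    have h := mem_centralizer_iff.1 hc.2 _ ((mem_normalizer_iff''.1 (L_le_normalizer_PE (E_le_L he)) y).1 hy)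
    calc y * (e * c * e⁻¹) = e * (e⁻¹ * y * e * c) * e⁻¹ := by group
      _ = e * (c * (e⁻¹ * y * e)) * e⁻¹ := by rw [h]
      _ = e * c * e⁻¹ * y := by group
  obtain ⟨c, hc, hc1⟩ := (Subgroup.bot_or_exists_ne_one C).resolve_left hne
  obtain ⟨-, -, -, -, hmod⟩ := D.setting.block
  rcases hmod with ⟨F', _, _, n, -, -, hact, -⟩ | ⟨hp, -⟩
  · obtain ⟨y, hy, hyw⟩ := BlockModules.sl2_section hact (inf_le_left.trans WE_le_W) hEC
      (fun h => hc1 (WE_inf_Z D hc.1 (h hc).2)) (WE_le_W hw)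
    have : y⁻¹ * w = 1 := WE_inf_Z D (mul_mem (inv_mem hy.1) hw) hyw.2
    rw [inv_mul_eq_one] at this
    exact this ▸ (mem_centralizer_iff.1 hy.2 a ha)
  · norm_num at hp

set_option maxHeartbeats 1000000 in
theorem comm_Q_PE {x y : G} (hx : x ∈ Qb E) (hy : y ∈ PE 3 E) : ⁅x, y⁆ ∈ Wb E := by
  set P := PE 3 E with hP
  have hnQ : P ≤ normalizer (Qb E : Set G) :=
    (PE_le_normalizer D.setting).trans (LocalP.normalizer_le_normalizer_pCoreOf E)
  have hnW : P ≤ normalizer (Wb E : Set G) := fun g hg => by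
    rw [mem_normalizer_iff_map_conj_eq]
    show (Cfsg.omegaOneCenter 3 (Qb E)).map (MulAut.conj g).toMonoidHom = _
    rw [Cfsg.omegaOneCenter, map_omegaOne (f := (MulAut.conj g).toMonoidHom) (MulAut.conj g).injective,
      Modules.map_inf_centralizer (f := (MulAut.conj g).toMonoidHom) (MulAut.conj g).injective,
      show (Qb E).map (MulAut.conj g).toMonoidHom = Qb E from mem_normalizer_iff_map_conj_eq.1 (hnQ hg)]
    rfl
  have hWP : Wb E ≤ P := W_le_Q.trans D.Q_le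
  let C : Subgroup G :=
    { carrier := {x | x ∈ Qb E ∧ ∀ y ∈ P, ⁅x, y⁆ ∈ Wb E}
      one_mem' := ⟨one_mem _, fun y _ => by rw [commutatorElement_one_left]; exact one_mem _⟩
      mul_mem' := by
        rintro a b ⟨ha, ha'⟩ ⟨hb, hb'⟩
        refine ⟨mul_mem ha hb, fun y hy => ?_⟩
        rw [show ⁅a * b, y⁆ = a * ⁅b, y⁆ * a⁻¹ * ⁅a, y⁆ by simp only [commutatorElement_def]; group]
        exact mul_mem ((mem_normalizer_iff.1 (hnW (D.Q_le ha)) _).1 (hb' y hy)) (ha' y hy)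
      inv_mem' := by
        rintro a ⟨ha, ha'⟩
        refine ⟨inv_mem ha, fun y hy => ?_⟩
        rw [show ⁅a⁻¹, y⁆ = a⁻¹ * ⁅a, y⁆⁻¹ * a by simp only [commutatorElement_def]; group]
        exact (mem_normalizer_iff''.1 (hnW (D.Q_le ha)) _).1 (inv_mem (ha' y hy)) }
  have hEC : E ≤ normalizer (C : Set G) := fun e he => mem_normalizer_of_conj_mem fun a ha => by
    refine ⟨(mem_normalizer_iff.1 (E_le_normalizer_Q he) a).1 ha.1, fun y hy => ?_⟩
    rw [show ⁅e * a * e⁻¹, y⁆ = e * ⁅a, e⁻¹ * y * e⁆ * e⁻¹ by simp only [commutatorElement_def]; group]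
    exact (mem_normalizer_iff.1 (E_le_normalizer_W he) _).1
      (ha.2 _ ((mem_normalizer_iff''.1 (L_le_normalizer_PE (E_le_L he)) y).1 hy))
  -- some element of the core outside `W` is central modulo `W`
  haveI : ((Wb E).subgroupOf P).Normal := normal_subgroupOf_of_le_normalizer hnW
  haveI : ((Qb E).subgroupOf P).Normal := normal_subgroupOf_of_le_normalizer hnQ
  let π := QuotientGroup.mk' ((Wb E).subgroupOf P)
  have hN : (((Qb E).subgroupOf P).map π).Normal :=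
    Subgroup.Normal.map inferInstance π (QuotientGroup.mk'_surjective _)
  have hne : ((Qb E).subgroupOf P).map π ≠ ⊥ := fun h => not_Q_comm D fun a ha b hb => by
    have : (⟨a, D.Q_le ha⟩ : P) ∈ ((Qb E).subgroupOf P) := ha
    have h1 : π ⟨a, D.Q_le ha⟩ = 1 := by
      rw [← Subgroup.mem_bot, ← h]; exact ⟨_, this, rfl⟩
    have h2 : a ∈ Wb E := (QuotientGroup.eq_one_iff (N := (Wb E).subgroupOf P) (⟨a, D.Q_le ha⟩ : P)).1 h1
    exact (W_comm_Q h2 hb).symm
  haveI : Nontrivial (P ⧸ (Wb E).subgroupOf P) := by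
    obtain ⟨q, -, hq⟩ := (Subgroup.bot_or_exists_ne_one _).resolve_left hne
    exact ⟨⟨q, 1, hq⟩⟩
  have hPq : IsPGroup 3 (P ⧸ (Wb E).subgroupOf P) := (LocalP.pCoreOf_isPGroup _).to_quotient _
  have hz := PGroup.inf_center_ne_bot hPq (((Qb E).subgroupOf P).map π) hne
  obtain ⟨q, ⟨⟨q', hq', rfl⟩, hqc⟩, hq1⟩ := (Subgroup.bot_or_exists_ne_one _).resolve_left hz
  have hqC : (q' : G) ∈ C := ⟨hq', fun y hy => by
    have h1 : π ⁅q', ⟨y, hy⟩⁆ = 1 := by
      rw [map_commutatorElement, commutatorElement_eq_one_iff_mul_comm, Subgroup.mem_center_iff.1 hqc]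
    exact (QuotientGroup.eq_one_iff (N := (Wb E).subgroupOf P) ⁅q', (⟨y, hy⟩ : P)⁆).1 h1⟩
  have hCW : ¬ C ≤ Wb E := fun h => hq1 ((QuotientGroup.eq_one_iff (N := (Wb E).subgroupOf P) q').2 (h hqC))
  obtain ⟨-, -, -, -, hmod⟩ := D.setting.block
  rcases hmod with ⟨F', _, _, n, -, -, -, hQ | ⟨-, hact, -⟩⟩ | ⟨hp, -⟩
  · exact absurd (fun a ha b hb => W_comm_Q (hQ.le hb) ha) (not_Q_comm D)
  · obtain ⟨a, ha, haw⟩ := BlockModules.sl2_section hact (fun a (ha : a ∈ C) => ha.1) hEC hCW hx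
    rw [show x = a * (a⁻¹ * x) by group,
      show ⁅a * (a⁻¹ * x), y⁆ = a * ⁅a⁻¹ * x, y⁆ * a⁻¹ * ⁅a, y⁆ by simp only [commutatorElement_def]; group]
    refine mul_mem ((mem_normalizer_iff.1 (hnW (D.Q_le ha.1)) _).1 ?_) (ha.2 y hy)
    rw [commutatorElement_def, show a⁻¹ * x * y * (a⁻¹ * x)⁻¹ * y⁻¹ = a⁻¹ * x * (y * (a⁻¹ * x)⁻¹ * y⁻¹) by group]
    exact mul_mem haw ((mem_normalizer_iff.1 (hnW hy) _).1 (inv_mem haw))
  · norm_num at hp

theorem Z_central {y z : G} (hy : y ∈ PE 3 E) (hz : z ∈ Zb E) : y * z = z * y := by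
  rw [← D.comm, Subgroup.commutator_def] at hz
  have hle : closure {g : G | ∃ g₁ ∈ Qb E, ∃ g₂ ∈ Qb E, ⁅g₁, g₂⁆ = g} ≤ centralizer ({y} : Set G) := by
    refine (closure_le _).2 ?_
    rintro _ ⟨a, ha, b, hb, rfl⟩
    refine mem_centralizer_singleton_iff.2 ?_
    obtain ⟨u, hu, hua⟩ : ∃ u ∈ Wb E, y * a * y⁻¹ = u * a :=
      ⟨⁅a, y⁆⁻¹, inv_mem (comm_Q_PE D ha hy), by simp only [commutatorElement_def]; group⟩
    obtain ⟨v, hv, hvb⟩ : ∃ v ∈ Wb E, y * b * y⁻¹ = v * b :=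
      ⟨⁅b, y⁆⁻¹, inv_mem (comm_Q_PE D hb hy), by simp only [commutatorElement_def]; group⟩
    have hcomm : ∀ w ∈ Wb E, ∀ x ∈ Qb E, x * w = w * x := fun w hw x hx => W_comm_Q hw hx
    have h1 : y * ⁅a, b⁆ * y⁻¹ = ⁅u * a, v * b⁆ := by
      rw [← hua, ← hvb]; simp only [commutatorElement_def]; group
    have h2 : ⁅u * a, v * b⁆ = ⁅a, b⁆ := by
      calc ⁅u * a, v * b⁆ = u * (a * v) * b * a⁻¹ * u⁻¹ * b⁻¹ * v⁻¹ := by
            simp only [commutatorElement_def]; group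
        _ = u * v * (a * b * a⁻¹ * u⁻¹ * b⁻¹) * v⁻¹ := by rw [hcomm v hv a ha]; group
        _ = u * v * (a * b * a⁻¹ * (u⁻¹ * b⁻¹)) * v⁻¹ := by group
        _ = u * v * (⁅a, b⁆ * u⁻¹) * v⁻¹ := by
            rw [← hcomm u⁻¹ (inv_mem hu) b⁻¹ (inv_mem hb)]; simp only [commutatorElement_def]; group
        _ = ⁅a, b⁆ := by
            have hc : ⁅a, b⁆ ∈ Qb E := commutator_le_self _ (commutator_mem_commutator ha hb)
            rw [hcomm u⁻¹ (inv_mem hu) _ hc, show u * v * (u⁻¹ * ⁅a, b⁆) * v⁻¹ =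
              u * (v * u⁻¹) * (⁅a, b⁆ * v⁻¹) by group, hcomm u⁻¹ (inv_mem hu) v (W_le_Q hv), hcomm v⁻¹ (inv_mem hv) _ hc]
            group
    calc ⁅a, b⁆ * y = y * ⁅a, b⁆ * y⁻¹ * y := by rw [h1, h2]
      _ = y * ⁅a, b⁆ := by group
  exact (mem_centralizer_singleton_iff.1 (hle hz)).symm

theorem W_le_V : Wb E ≤ Vb E := fun w hw => by
  obtain ⟨y, hy, hz⟩ := exists_WE_div D hw
  refine subset_closure ⟨⟨W_le_Q.trans D.Q_le hw, mem_centralizer_iff.2 fun a ha => ?_⟩, W_pow D hw⟩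
  rw [show w = y * (y⁻¹ * w) by group, ← mul_assoc, PE_centralizes_WE D ha hy, mul_assoc, Z_central D ha hz,
    ← mul_assoc]

theorem V_le_PE : Vb E ≤ PE 3 E := omegaOneCenter_le _

theorem V_central {v a : G} (hv : v ∈ Vb E) (ha : a ∈ PE 3 E) : a * v = v * a :=
  mem_centralizer_iff.1 (omegaOneCenter_le_centralizer _ hv) a ha

theorem L_le_normalizer_V : normalizer (WE 3 E : Set G) ≤ normalizer (Vb E : Set G) := fun g hg => by
  rw [mem_normalizer_iff_map_conj_eq]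
  show (Cfsg.omegaOneCenter 3 (PE 3 E)).map (MulAut.conj g).toMonoidHom = _
  rw [Cfsg.omegaOneCenter, map_omegaOne (f := (MulAut.conj g).toMonoidHom) (MulAut.conj g).injective,
    Modules.map_inf_centralizer (f := (MulAut.conj g).toMonoidHom) (MulAut.conj g).injective,
    show (PE 3 E).map (MulAut.conj g).toMonoidHom = PE 3 E from mem_normalizer_iff_map_conj_eq.1 (L_le_normalizer_PE hg)]
  rfl

theorem comm_E_V {e v : G} (he : e ∈ E) (hv : v ∈ Vb E) : ⁅e, v⁆ ∈ WE 3 E := by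
  set Y := ⁅Vb E, E⁆ with hY
  have hYV : Y ≤ Vb E := commutator_le.2 fun a ha b hb => by
    rw [commutatorElement_def, show a * b * a⁻¹ * b⁻¹ = a * (b * a⁻¹ * b⁻¹) by group]
    exact mul_mem ha ((mem_normalizer_iff.1 (L_le_normalizer_V D (E_le_L hb)) _).1 (inv_mem ha))
  have hYQ : Y ≤ Qb E := commutator_le.2 fun a ha b hb => by
    rw [← commutatorElement_inv]
    exact inv_mem (commutator_PE_le D.setting b hb a (V_le_PE D ha))
  have hYW : Y ≤ Wb E := by
    by_contra hne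
    obtain ⟨-, -, -, -, hmod⟩ := D.setting.block
    rcases hmod with ⟨F', _, _, n, -, -, -, hQ | ⟨-, hact, -⟩⟩ | ⟨hp, -⟩
    · exact hne (hYQ.trans hQ.le)
    · exact not_Q_comm D fun x hx x' hx' =>
        mul_comm_of_div (fun w hw a ha => W_comm_Q hw ha) W_le_Q hYQ
          (fun a ha b hb => omegaOneCenter_comm (hYV ha) (hYV hb))
          (fun a ha => BlockModules.sl2_section hact hYQ (normalizer_commutator_ge_right _ E) hne ha) hx hx'
    · norm_num at hp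
  refine stable_le D.setting.block.1 E_le_L (W := Wb E) (fun e he w hw => ?_) (fun w hw => W_pow D hw)
    (A := (Vb E : Set G)) (fun e he a ha => ?_) he hv
  · rw [← commutatorElement_inv]
    exact inv_mem (commutator_mem_commutator hw he)
  · rw [← commutatorElement_inv]
    exact inv_mem (hYW (commutator_mem_commutator ha he))

end Cfsg.Agent.LAE62.BlockCent
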