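import Cfsg.Agent.LAE62.BlockCentralizer.SL2Odd

/-!
Isometries of a form containing a natural `SL(2, q)`-plane, in characteristic three: if none of them turns the
central involution into an element of order three, their commutators with the derived group have order dividing three.
-/

set_option autoImplicit false

open Subgroup Matrix

namespace Cfsg.Agent.LAE62.BlockCent

variable {F : Type*} [Field F] {X M : Type*} [AddCommGroup X] [AddCommGroup M]

/-- The automorphisms of an additive group, under composition. -/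
abbrev Aut (X : Type*) [AddCommGroup X] := X ≃ₗ[ℤ] X

namespace Aut

theorem comp_apply (a b : Aut X) (v : X) : (a * b) v = a (b v) := rfl

theorem inv_self (a : Aut X) (v : X) : a⁻¹ (a v) = v := a.symm_apply_apply v

theorem self_inv (a : Aut X) (v : X) : a (a⁻¹ v) = v := a.apply_symm_apply v

end Aut

/-- The alternating form on the plane. -/
def det2 (a b : Fin 2 → F) : F := a 0 * b 1 - a 1 * b 0

/-- A form with a natural plane. -/
structure PlaneForm (F X M : Type*) [Field F] [AddCommGroup X] [AddCommGroup M] where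
  ι : (Fin 2 → F) →+ X
  π : X →+ (Fin 2 → F)
  θ : F →+ M
  ω : X → X → M
  πι : ∀ a, π (ι a) = a
  θinj : Function.Injective θ
  ωι : ∀ a x, ω (ι a) x = θ (det2 a (π x))
  skew : ∀ x y, ω x y = -ω y x

variable (P : PlaneForm F X M)

/-- The underlying map of the action. -/
def actFun (r : SpecialLinearGroup (Fin 2) F) (v : X) : X :=
  v + P.ι ((r.1 - 1) *ᵥ P.π v)

theorem π_actFun (r : SpecialLinearGroup (Fin 2) F) (v : X) : P.π (actFun P r v) = r.1 *ᵥ P.π v := by
  rw [actFun, map_add, P.πι, Matrix.sub_mulVec, Matrix.one_mulVec]; abel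

theorem actFun_mul (r s : SpecialLinearGroup (Fin 2) F) (v : X) :
    actFun P r (actFun P s v) = actFun P (r * s) v := by
  rw [actFun, π_actFun, actFun, actFun, add_assoc, ← map_add, Matrix.mulVec_mulVec, ← Matrix.add_mulVec,
    SpecialLinearGroup.coe_mul, Matrix.sub_mul, Matrix.one_mul]
  congr 3; abel

theorem actFun_one (v : X) : actFun P 1 v = v := by
  rw [actFun, SpecialLinearGroup.coe_one, sub_self, Matrix.zero_mulVec, map_zero, add_zero]

/-- The action of `SL(2, F)`. -/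
def act : SpecialLinearGroup (Fin 2) F →* Aut X where
  toFun r := AddEquiv.toIntLinearEquiv
    { toFun := actFun P r
      invFun := actFun P r⁻¹
      left_inv := fun v => by rw [actFun_mul, inv_mul_cancel, actFun_one]
      right_inv := fun v => by rw [actFun_mul, mul_inv_cancel, actFun_one]
      map_add' := fun v w => by
        simp only [actFun, map_add, Matrix.mulVec_add]; abel }
  map_one' := LinearEquiv.ext (actFun_one P)
  map_mul' r s := LinearEquiv.ext fun v => (actFun_mul P r s v).symm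

theorem act_apply (r : SpecialLinearGroup (Fin 2) F) (v : X) : act P r v = v + P.ι ((r.1 - 1) *ᵥ P.π v) := rfl

theorem act_ι (r : SpecialLinearGroup (Fin 2) F) (x : Fin 2 → F) : act P r (P.ι x) = P.ι (r.1 *ᵥ x) := by
  rw [act_apply, P.πι, ← map_add, Matrix.sub_mulVec, Matrix.one_mulVec]; congr 1; abel

theorem act_fix {v : X} (hv : P.π v = 0) (r : SpecialLinearGroup (Fin 2) F) : act P r v = v := by
  rw [act_apply, hv, Matrix.mulVec_zero, map_zero, add_zero]

theorem π_act (r : SpecialLinearGroup (Fin 2) F) (v : X) : P.π (act P r v) = r.1 *ᵥ P.π v := π_actFun P r v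

/-- The setting of the main result. -/
structure IsometrySetting (K : Subgroup (Aut X)) : Prop where
  three : (3 : F) = 0
  dich : (∃ a : F, a ≠ 0 ∧ a ^ 4 ≠ 1) ∨ ∀ s : F, s = 0 ∨ s = 1 ∨ s = -1
  exp : ∀ v : X, v + v + v = 0
  isom : ∀ k ∈ K, ∀ x y, P.ω (k x) (k y) = P.ω x y
  norm : ∀ r ∈ commutator (SpecialLinearGroup (Fin 2) F), ∀ k ∈ K, act P r * k * (act P r)⁻¹ ∈ K
  noUnip : ∀ k ∈ K, (k * act P (-1)) ^ 3 ≠ 1

variable {P} {K : Subgroup (Aut X)}

theorem det2_mulVec (A : Matrix (Fin 2) (Fin 2) F) (a b : Fin 2 → F) :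
    det2 (A *ᵥ a) b = det2 a (A.adjugate *ᵥ b) := by
  simp [det2, Matrix.adjugate_fin_two, Matrix.mulVec, dotProduct, Fin.sum_univ_two]; ring

theorem det2_ext {a b : Fin 2 → F} (h : ∀ c, det2 c a = det2 c b) : a = b := by
  have h0 := h ![0, 1]
  have h1 := h ![1, 0]
  simp [det2] at h0 h1
  ext i; fin_cases i
  · simpa using h0
  · simpa using h1

/-- The projection of the image of the plane is linear, with adjugate the one of the inverse. -/
theorem exists_proj (hs : IsometrySetting P K) {k : Aut X} (hk : k ∈ K) :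
    ∃ A : Matrix (Fin 2) (Fin 2) F, (∀ x, P.π (k (P.ι x)) = A *ᵥ x) ∧
      ∀ x, P.π (k⁻¹ (P.ι x)) = A.adjugate *ᵥ x := by
  have key : ∀ a b, det2 a (P.π (k⁻¹ (P.ι b))) = det2 (P.π (k (P.ι a))) b := by
    intro a b
    apply P.θinj
    rw [← P.ωι, ← hs.isom k hk, Aut.self_inv, P.skew, P.ωι,
      show det2 (P.π (k (P.ι a))) b = -det2 b (P.π (k (P.ι a))) by simp [det2]; ring, map_neg]
  have hsmul : ∀ (c : F) a, P.π (k (P.ι (c • a))) = c • P.π (k (P.ι a)) := fun c a => by
    refine det2_ext fun b => ?_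
    have h1 := key (c • a) b
    have h2 := key a b
    simp [det2] at h1 h2 ⊢
    linear_combination h1 - c * h2
  set A : Matrix (Fin 2) (Fin 2) F := fun i j => P.π (k (P.ι (Pi.single j 1))) i with hA
  have hlin : ∀ x, P.π (k (P.ι x)) = A *ᵥ x := fun x => by
    conv_lhs => rw [show x = x 0 • Pi.single (0 : Fin 2) (1 : F) + x 1 • Pi.single (1 : Fin 2) (1 : F) by
      ext i; fin_cases i <;> simp]
    rw [map_add, map_add, map_add, hsmul, hsmul]
    ext i
    simp only [hA, Matrix.mulVec, dotProduct, Fin.sum_univ_two, Pi.add_apply, Pi.smul_apply, smul_eq_mul]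
    ring
  refine ⟨A, hlin, fun x => det2_ext fun c => ?_⟩
  rw [key, hlin, det2_mulVec]

theorem cube_eq_one (hexp : ∀ v : X, v + v + v = 0) {f : Aut X} {D R : AddSubgroup X}
    (hX : ∀ v, f v - v ∈ D) (hD : ∀ d ∈ D, f d - d ∈ R) (hR : ∀ r ∈ R, f r = r) : f ^ 3 = 1 := by
  ext v
  obtain ⟨d, hd, hfd⟩ : ∃ d ∈ D, f v = v + d := ⟨f v - v, hX v, by abel⟩
  obtain ⟨r, hr, hfr⟩ : ∃ r ∈ R, f d = d + r := ⟨f d - d, hD d hd, by abel⟩
  show (f ^ 3) v = v
  rw [pow_succ, pow_two, Aut.comp_apply, Aut.comp_apply]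
  simp only [map_add, hfd, hfr, hR r hr]
  calc v + d + (d + r) + (d + r + r) = v + (d + d + d) + (r + r + r) := by abel
    _ = v := by rw [hexp, hexp, add_zero, add_zero]

/-- A projection with determinant one is `±1`. -/
theorem proj_of_det_one (hs : IsometrySetting P K) {k : Aut X} (hk : k ∈ K) {A : Matrix (Fin 2) (Fin 2) F}
    (hA : ∀ x, P.π (k (P.ι x)) = A *ᵥ x) (hA' : ∀ x, P.π (k⁻¹ (P.ι x)) = A.adjugate *ᵥ x) (hdet : A.det = 1) :
    A = 1 ∨ A = -1 := by
  classical
  by_contra hne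
  set g : SpecialLinearGroup (Fin 2) F := ⟨A, hdet⟩ with hg
  let f : (Fin 2 → F) →+ X :=
    { toFun := fun x => k (P.ι x) - P.ι (A *ᵥ x)
      map_zero' := by simp
      map_add' := fun x y => by simp only [map_add, Matrix.mulVec_add]; abel }
  have hf : ∀ x, f x = k (P.ι x) - P.ι (A *ᵥ x) := fun x => rfl
  set R := f.range with hR
  have hπR : ∀ v ∈ R, P.π v = 0 := by
    rintro _ ⟨x, rfl⟩
    rw [hf, map_sub, hA, P.πι, sub_self]
  have hAA : A.adjugate * A = 1 := by rw [Matrix.adjugate_mul, hdet, one_smul]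
  have hAA' : A * A.adjugate = 1 := by rw [Matrix.mul_adjugate, hdet, one_smul]
  have hπkR : ∀ v ∈ R, P.π (k⁻¹ v) = 0 := by
    rintro _ ⟨x, rfl⟩
    rw [hf, map_sub, map_sub, Aut.inv_self, P.πι, hA', Matrix.mulVec_mulVec, hAA, Matrix.one_mulVec,
      sub_self]
  set D := P.ι.range ⊔ R with hD
  have hkι : ∀ x, k (P.ι x) - P.ι (A *ᵥ x) ∈ R := fun x => ⟨x, hf x⟩
  have hkιD : ∀ x, k (P.ι x) ∈ D := fun x => by
    have h := D.add_mem (AddSubgroup.mem_sup_left (⟨A *ᵥ x, rfl⟩ : P.ι (A *ᵥ x) ∈ P.ι.range))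
      (AddSubgroup.mem_sup_right (hkι x))
    rwa [add_sub_cancel] at h
  -- the matrices of the commutators
  let H : Subgroup (SpecialLinearGroup (Fin 2) F) :=
    { carrier := {h | ∃ a ∈ K, (∀ v ∈ R, a v = v) ∧ (∀ x, a (P.ι x) - P.ι (h.1 *ᵥ x) ∈ R) ∧ ∀ v, a v - v ∈ D}
      one_mem' := ⟨1, K.one_mem, fun _ _ => rfl, fun x => by simp [R.zero_mem], fun v => by simp [D.zero_mem]⟩
      mul_mem' := by
        rintro h h' ⟨a, ha, a1, a2, a3⟩ ⟨b, hb, b1, b2, b3⟩
        refine ⟨a * b, K.mul_mem ha hb, fun v hv => by rw [Aut.comp_apply, b1 v hv, a1 v hv], fun x => ?_, fun v => ?_⟩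
        · have e1 := a1 _ (b2 x)
          rw [map_sub] at e1
          rw [Aut.comp_apply, SpecialLinearGroup.coe_mul, ← Matrix.mulVec_mulVec]
          have h2 := R.add_mem (a2 (h'.1 *ᵥ x)) (b2 x)
          convert h2 using 1
          rw [← e1]; abel
        · have h2 := D.add_mem (a3 (b v)) (b3 v)
          convert h2 using 1
          rw [Aut.comp_apply]; abel
      inv_mem' := by
        rintro h ⟨a, ha, a1, a2, a3⟩
        have hfix : ∀ v ∈ R, a⁻¹ v = v := fun v hv => by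
          conv_lhs => rw [← a1 v hv]
          rw [Aut.inv_self]
        refine ⟨a⁻¹, K.inv_mem ha, hfix, fun x => ?_, fun v => ?_⟩
        · have h2 := hfix _ (a2 ((h⁻¹ : SpecialLinearGroup (Fin 2) F).1 *ᵥ x))
          rw [Matrix.mulVec_mulVec, ← SpecialLinearGroup.coe_mul, mul_inv_cancel, SpecialLinearGroup.coe_one,
            Matrix.one_mulVec, map_sub, Aut.inv_self] at h2
          have h3 := R.neg_mem (a2 ((h⁻¹ : SpecialLinearGroup (Fin 2) F).1 *ᵥ x))
          rw [Matrix.mulVec_mulVec, ← SpecialLinearGroup.coe_mul, mul_inv_cancel, SpecialLinearGroup.coe_one,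
            Matrix.one_mulVec, ← h2] at h3
          convert h3 using 1
          abel
        · have h2 := D.neg_mem (a3 (a⁻¹ v))
          rw [Aut.self_inv, neg_sub] at h2
          exact h2 }
  have hH : ∀ r ∈ commutator (SpecialLinearGroup (Fin 2) F), ∀ h ∈ H, r * h * r⁻¹ ∈ H := by
    rintro r hr h ⟨a, ha, a1, a2, a3⟩
    have hfix : ∀ (s : SpecialLinearGroup (Fin 2) F), ∀ v ∈ R, act P s v = v := fun s v hv => act_fix P (hπR v hv) s
    have hDr : ∀ v ∈ D, act P r v ∈ D := fun v hv => by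
      rw [act_apply]
      exact D.add_mem hv (AddSubgroup.mem_sup_left ⟨_, rfl⟩)
    refine ⟨_, hs.norm r hr a ha, fun v hv => ?_, fun x => ?_, fun v => ?_⟩
    · rw [← map_inv, Aut.comp_apply, Aut.comp_apply, hfix _ v hv, a1 v hv, hfix _ v hv]
    · rw [← map_inv, Aut.comp_apply, Aut.comp_apply, act_ι]
      have h2 := a2 ((r⁻¹ : SpecialLinearGroup (Fin 2) F).1 *ᵥ x)
      have h3 := hfix r _ h2
      rw [map_sub, act_ι] at h3
      rw [SpecialLinearGroup.coe_mul, SpecialLinearGroup.coe_mul, ← Matrix.mulVec_mulVec, ← Matrix.mulVec_mulVec, h3]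
      exact h2
    · have h2 := hDr _ (a3 ((act P r)⁻¹ v))
      rw [map_sub, Aut.self_inv] at h2
      rw [Aut.comp_apply, Aut.comp_apply]
      exact h2
  have hcomm : ∀ r ∈ commutator (SpecialLinearGroup (Fin 2) F), g * r * g⁻¹ * r⁻¹ ∈ H := by
    intro r hr
    have hh : ∀ v, (k * act P r * k⁻¹) v = v + k (P.ι ((r.1 - 1) *ᵥ P.π (k⁻¹ v))) := fun v => by
      rw [Aut.comp_apply, Aut.comp_apply, act_apply, map_add, Aut.self_inv]
    refine ⟨k * act P r * k⁻¹ * (act P r)⁻¹, ?_, fun v hv => ?_, fun x => ?_, fun v => ?_⟩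
    · rw [show k * act P r * k⁻¹ * (act P r)⁻¹ = k * (act P r * k⁻¹ * (act P r)⁻¹) by simp only [mul_assoc]]
      exact K.mul_mem hk (hs.norm r hr _ (K.inv_mem hk))
    · rw [← map_inv, Aut.comp_apply, act_fix P (hπR v hv), hh, hπkR v hv, Matrix.mulVec_zero, map_zero,
        map_zero, add_zero]
    · rw [← map_inv, Aut.comp_apply, act_ι, hh, hA']
      set y := (r⁻¹ : SpecialLinearGroup (Fin 2) F).1 *ᵥ x with hy
      have h2 := hkι ((r.1 - 1) *ᵥ (A.adjugate *ᵥ y))
      convert h2 using 1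
      have e : (g * r * g⁻¹ * r⁻¹ : SpecialLinearGroup (Fin 2) F).1 *ᵥ x =
          A *ᵥ ((r.1 - 1) *ᵥ (A.adjugate *ᵥ y)) + y := by
        simp only [hy, hg, SpecialLinearGroup.coe_mul, SpecialLinearGroup.coe_inv, Matrix.mulVec_mulVec,
          ← Matrix.add_mulVec]
        congr 1
        simp only [Matrix.sub_mul, Matrix.mul_sub, Matrix.one_mul, ← mul_assoc, hAA']
        abel
      rw [e, map_add]; abel
    · rw [← map_inv, Aut.comp_apply, hh, act_apply, add_assoc, add_sub_cancel_left]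
      exact D.add_mem (AddSubgroup.mem_sup_left ⟨_, rfl⟩) (hkιD _)
  -- some commutator is nontrivial
  have h3 := hs.three
  obtain ⟨r, hr, hne'⟩ : ∃ r ∈ commutator (SpecialLinearGroup (Fin 2) F), g * r * g⁻¹ * r⁻¹ ≠ 1 := by
    by_contra hall
    push Not at hall
    have hc : ∀ r ∈ commutator (SpecialLinearGroup (Fin 2) F), A * r.1 = r.1 * A := fun r hr => by
      have e := hall r hr
      rw [mul_inv_eq_one, mul_inv_eq_iff_eq_mul] at e
      exact congrArg Subtype.val e
    have hsc := eq_scalar_of_comm h3 A (hc _ (rI_mem h3)) (hc _ (rJ_mem h3))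
    have hd := hdet
    rw [hsc, Matrix.det_smul, Matrix.det_one, mul_one, Fintype.card_fin, pow_two] at hd
    rcases mul_self_eq_one_iff.1 hd with e | e
    · exact hne (.inl (by rw [hsc, e, one_smul]))
    · exact hne (.inr (by rw [hsc, e]; exact neg_one_smul F _))
  obtain ⟨a, ha, a1, a2, a3⟩ := neg_one_mem_of_normalized h3 hs.dich H hH (hcomm r hr) hne'
  refine hs.noUnip a ha (cube_eq_one hs.exp (D := D) (R := R) (fun v => ?_) (fun d hd => ?_) fun v hv => ?_)
  · rw [Aut.comp_apply, act_apply, map_add, add_sub_assoc]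
    have hι : ∀ y, a (P.ι y) ∈ D := fun y => by
      have h2 := D.add_mem (AddSubgroup.mem_sup_right (a2 y))
        (AddSubgroup.mem_sup_left (⟨_, rfl⟩ : P.ι ((-1 : SpecialLinearGroup (Fin 2) F).1 *ᵥ y) ∈ P.ι.range))
      rwa [sub_add_cancel] at h2
    convert D.add_mem (a3 v) (hι (((-1 : SpecialLinearGroup (Fin 2) F).1 - 1) *ᵥ P.π v)) using 1
    abel
  · obtain ⟨_, ⟨y, rfl⟩, w, hw, rfl⟩ := AddSubgroup.mem_sup.1 hd
    rw [Aut.comp_apply, map_add, map_add, act_fix P (hπR w hw), a1 w hw, act_ι, add_sub_add_right_eq_sub]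
    have h2 := a2 ((-1 : SpecialLinearGroup (Fin 2) F).1 *ᵥ y)
    rwa [Matrix.mulVec_mulVec, ← SpecialLinearGroup.coe_mul, neg_mul_neg, one_mul, SpecialLinearGroup.coe_one,
      Matrix.one_mulVec] at h2
  · rw [Aut.comp_apply, act_fix P (hπR v hv), a1 v hv]

theorem proj_conj (hs : IsometrySetting P K) {k : Aut X} (hk : k ∈ K) {A : Matrix (Fin 2) (Fin 2) F}
    (hA : ∀ x, P.π (k (P.ι x)) = A *ᵥ x) (hA' : ∀ x, P.π (k⁻¹ (P.ι x)) = A.adjugate *ᵥ x)
    {r : SpecialLinearGroup (Fin 2) F} (hr : r ∈ commutator (SpecialLinearGroup (Fin 2) F)) :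
    ∃ k' ∈ K, ∀ x, P.π (k' (P.ι x)) = ((1 + A * (r.1 - 1) * A.adjugate) * r.1.adjugate) *ᵥ x := by
  refine ⟨k * (act P r * k⁻¹ * (act P r)⁻¹), K.mul_mem hk (hs.norm r hr _ (K.inv_mem hk)), fun x => ?_⟩
  rw [← map_inv, Aut.comp_apply, Aut.comp_apply, Aut.comp_apply, act_ι, act_apply, map_add, map_add,
    Aut.self_inv, P.πι, hA', hA, SpecialLinearGroup.coe_inv]
  simp only [Matrix.mulVec_mulVec, ← Matrix.add_mulVec]
  congr 1
  simp only [Matrix.add_mul, Matrix.one_mul, mul_assoc]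

/-- Determinant one after conjugating. -/
theorem proj_conj_det_one (hs : IsometrySetting P K) {k : Aut X} (hk : k ∈ K) {A : Matrix (Fin 2) (Fin 2) F}
    (hA : ∀ x, P.π (k (P.ι x)) = A *ᵥ x) (hA' : ∀ x, P.π (k⁻¹ (P.ι x)) = A.adjugate *ᵥ x)
    {r : SpecialLinearGroup (Fin 2) F} (hr : r ∈ commutator (SpecialLinearGroup (Fin 2) F))
    (hd : A.det = 0 ∨ r.1.trace = 2) :
    1 + A * (r.1 - 1) * A.adjugate = r.1 ∨ 1 + A * (r.1 - 1) * A.adjugate = -r.1 := by
  obtain ⟨k', hk', hA''⟩ := proj_conj hs hk hA hA' hr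
  obtain ⟨B, hB, hB'⟩ := exists_proj hs hk'
  have hBeq : B = (1 + A * (r.1 - 1) * A.adjugate) * r.1.adjugate := by
    refine Matrix.toLin'.injective (LinearMap.ext fun x => ?_)
    rw [Matrix.toLin'_apply, Matrix.toLin'_apply, ← hB, hA'']
  have hdet : B.det = 1 := by
    rw [hBeq, Matrix.det_mul, Matrix.det_adjugate, r.2, one_pow, mul_one]
    have hr' := det_eq_one r
    rcases hd with hd | hd
    · simp only [Matrix.det_fin_two, Matrix.adjugate_fin_two, Matrix.mul_apply, Matrix.add_apply, Matrix.sub_apply,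
        Fin.sum_univ_two, Matrix.one_apply] at hd ⊢
      simp
      linear_combination ((r.1 0 0 + r.1 1 1 - 2) + (A 0 0 * A 1 1 - A 0 1 * A 1 0) *
        ((r.1 0 0 - 1) * (r.1 1 1 - 1) - r.1 0 1 * r.1 1 0)) * hd
    · simp only [Matrix.det_fin_two, Matrix.adjugate_fin_two, Matrix.mul_apply, Matrix.add_apply, Matrix.sub_apply,
        Matrix.trace_fin_two, Fin.sum_univ_two, Matrix.one_apply] at hd ⊢
      simp
      linear_combination ((A 0 0 * A 1 1 - A 0 1 * A 1 0) - (A 0 0 * A 1 1 - A 0 1 * A 1 0) ^ 2) * hd +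
        (A 0 0 * A 1 1 - A 0 1 * A 1 0) ^ 2 * hr'
  have hrr : r.1.adjugate * r.1 = 1 := by rw [Matrix.adjugate_mul, r.2, one_smul]
  rcases proj_of_det_one hs hk' hB hB' hdet with e | e <;> rw [hBeq] at e
  · left
    have := congrArg (· * r.1) e
    simpa [mul_assoc, hrr] using this
  · right
    have := congrArg (· * r.1) e
    simpa [mul_assoc, hrr] using this

theorem det_ne_zero (hs : IsometrySetting P K) {k : Aut X} (hk : k ∈ K) {A : Matrix (Fin 2) (Fin 2) F}
    (hA : ∀ x, P.π (k (P.ι x)) = A *ᵥ x) (hA' : ∀ x, P.π (k⁻¹ (P.ι x)) = A.adjugate *ᵥ x) : A.det ≠ 0 := by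
  intro hd
  have h3 := hs.three
  have key : ∀ B : Matrix (Fin 2) (Fin 2) F, (B = (rI : SpecialLinearGroup (Fin 2) F).1 ∨ B = -(rI : SpecialLinearGroup (Fin 2) F).1) →
      B.trace = 0 := by
    rintro B (rfl | rfl) <;> simp [rI_coe, Matrix.trace_fin_two]
  have h := key _ (proj_conj_det_one hs hk hA hA' (rI_mem h3) (.inl hd))
  rw [Matrix.trace_add, Matrix.trace_one, mul_assoc, Matrix.trace_mul_comm A, mul_assoc, Matrix.adjugate_mul, hd,
    zero_smul, Matrix.mul_zero, Matrix.trace_zero, add_zero] at h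
  simp at h
  exact two_ne_zero_of_three h3 h

/-- The projection is `±1`. -/
theorem proj_eq (hs : IsometrySetting P K) {k : Aut X} (hk : k ∈ K) :
    ∃ s : F, (s = 1 ∨ s = -1) ∧ (∀ x, P.π (k (P.ι x)) = s • x) ∧ ∀ x, P.π (k⁻¹ (P.ι x)) = s • x := by
  obtain ⟨A, hA, hA'⟩ := exists_proj hs hk
  suffices hd : A.det = 1 by
    rcases proj_of_det_one hs hk hA hA' hd with rfl | rfl
    · exact ⟨1, .inl rfl, fun x => by simp [hA], fun x => by rw [hA', Matrix.adjugate_one, Matrix.one_mulVec, one_smul]⟩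
    · refine ⟨-1, .inr rfl, fun x => by simp [hA, Matrix.neg_mulVec], fun x => ?_⟩
      rw [hA', show (-1 : Matrix (Fin 2) (Fin 2) F).adjugate = -1 by
        ext i j; fin_cases i <;> fin_cases j <;> simp [Matrix.adjugate_fin_two], Matrix.neg_mulVec,
        Matrix.one_mulVec, neg_one_smul]
  have h3 := hs.three
  have hd0 := det_ne_zero hs hk hA hA'
  have hd1 : A.det ≠ -1 := by
    intro hd
    obtain ⟨k', hk', hA''⟩ := proj_conj hs hk hA hA' (neg_one_mem h3)
    obtain ⟨B, hB, hB'⟩ := exists_proj hs hk'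
    refine det_ne_zero hs hk' hB hB' ?_
    have hB0 : B = 0 := by
      refine Matrix.toLin'.injective (LinearMap.ext fun x => ?_)
      rw [Matrix.toLin'_apply, Matrix.toLin'_apply, ← hB, hA'']
      congr 2
      rw [SpecialLinearGroup.coe_neg, SpecialLinearGroup.coe_one,
        show ((-1 : Matrix (Fin 2) (Fin 2) F) - 1) = (-2 : F) • (1 : Matrix (Fin 2) (Fin 2) F) by
          rw [neg_smul, two_smul]; abel]
      rw [Matrix.mul_smul, mul_one, Matrix.smul_mul, Matrix.mul_adjugate, hd, smul_smul]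
      have : (1 : Matrix (Fin 2) (Fin 2) F) + ((-2 : F) * -1) • 1 = 0 := by
        rw [show (1 : Matrix (Fin 2) (Fin 2) F) + ((-2 : F) * -1) • 1 = ((1 : F) + (-2) * -1) • 1 by
          rw [add_smul, one_smul], show (1 : F) + (-2) * -1 = 0 by linear_combination h3, zero_smul]
      rw [this, Matrix.zero_mul]
    rw [hB0, Matrix.det_zero]
  rcases hs.dich with ⟨a, ha, ha4⟩ | hsmall
  swap
  · exact ((hsmall _).resolve_left hd0).resolve_right hd1
  have ha1 : a * a ≠ 1 := fun e => ha4 (by linear_combination (a * a + 1) * e)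
  have key : ∀ r ∈ commutator (SpecialLinearGroup (Fin 2) F), r.1.trace = 2 →
      A * (r.1 - 1) * A.adjugate = r.1 - 1 := fun r hr ht => by
    rcases proj_conj_det_one hs hk hA hA' hr (.inr ht) with e | e
    · exact eq_sub_of_add_eq' e
    · exfalso
      have h := congrArg Matrix.trace e
      rw [Matrix.trace_add, Matrix.trace_one, mul_assoc, Matrix.trace_mul_comm A, mul_assoc, Matrix.adjugate_mul,
        Matrix.mul_smul, mul_one, Matrix.trace_smul, Matrix.trace_sub, ht, Matrix.trace_one, Matrix.trace_neg,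
        ht] at h
      simp at h
      exact one_ne_zero (show (1 : F) = 0 by linear_combination h - h3)
  have hu := key _ (upU_mem_commutator ha ha1 1) (by simp [upU_coe, Matrix.trace_fin_two]; norm_num)
  have hl := key _ (loU_mem_commutator ha ha1 1) (by simp [loU_coe, Matrix.trace_fin_two]; norm_num)
  have hsum : A * ((upU (1 : F)).1 - 1 + ((loU (1 : F)).1 - 1)) * A.adjugate =
      (upU (1 : F)).1 - 1 + ((loU (1 : F)).1 - 1) := by
    rw [Matrix.mul_add, Matrix.add_mul, hu, hl]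
  have h := congrArg Matrix.det hsum
  rw [Matrix.det_mul, Matrix.det_mul, Matrix.det_adjugate, Fintype.card_fin] at h
  simp [upU_coe, loU_coe, Matrix.det_fin_two] at h
  exact (mul_self_eq_one_iff.1 (show A.det * A.det = 1 by rw [Matrix.det_fin_two]; linear_combination -h)).resolve_right hd1

/-- The commutators with the derived group lie in a subgroup of exponent three normalized by `K`. -/
theorem exists_stabilizer (hs : IsometrySetting P K) :
    ∃ S : Subgroup (Aut X), (∀ f ∈ S, f ^ 3 = 1) ∧ (∀ k ∈ K, ∀ f ∈ S, k * f * k⁻¹ ∈ S) ∧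
      ∀ k ∈ K, ∀ r ∈ commutator (SpecialLinearGroup (Fin 2) F), k * act P r * k⁻¹ * (act P r)⁻¹ ∈ S := by
  classical
  have h3 := hs.three
  have hs' : ∀ k : K, ∃ s : F, (s = 1 ∨ s = -1) ∧ (∀ x, P.π (k.1 (P.ι x)) = s • x) ∧
      ∀ x, P.π (k.1⁻¹ (P.ι x)) = s • x := fun k => proj_eq hs k.2
  choose sg hsg hsgι hsgi using hs'
  have hstep : ∀ k l : K, sg (k⁻¹ * l) = sg k * sg l := by
    intro k l
    by_contra hne
    have hneg : sg (k⁻¹ * l) = -(sg k * sg l) := by
      rcases hsg (k⁻¹ * l) with e | e <;> rcases hsg k with e' | e' <;> rcases hsg l with e'' | e'' <;>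
        simp [e, e', e''] at hne ⊢
    set t := act P (-1 : SpecialLinearGroup (Fin 2) F) with ht
    have hm : k.1 * (t * k.1⁻¹ * t⁻¹) * (t * l.1 * t⁻¹) ∈ K :=
      K.mul_mem (K.mul_mem k.2 (hs.norm _ (neg_one_mem h3) _ (K.inv_mem k.2))) (hs.norm _ (neg_one_mem h3) _ l.2)
    have hx : ∀ x, P.π ((k.1 * (t * k.1⁻¹ * t⁻¹) * (t * l.1 * t⁻¹)) (P.ι x)) = 0 := by
      intro x
      rw [show k.1 * (t * k.1⁻¹ * t⁻¹) * (t * l.1 * t⁻¹) = k.1 * t * (k.1⁻¹ * l.1) * t⁻¹ by group, ht, ← map_inv]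
      simp only [Aut.comp_apply]
      rw [act_ι, act_apply, map_add, map_add, hsgι k, Aut.self_inv, hsgι l,
        show k.1⁻¹ (l.1 (P.ι ((-1 : SpecialLinearGroup (Fin 2) F)⁻¹.1 *ᵥ x))) =
          (k⁻¹ * l : K).1 (P.ι ((-1 : SpecialLinearGroup (Fin 2) F)⁻¹.1 *ᵥ x)) from rfl, hsgι, hneg]
      simp only [inv_neg, inv_one, SpecialLinearGroup.coe_neg, SpecialLinearGroup.coe_one, Matrix.neg_mulVec,
        Matrix.one_mulVec, Matrix.sub_mulVec]
      ext i
      simp only [Pi.add_apply, Pi.sub_apply, Pi.smul_apply, Pi.neg_apply, smul_eq_mul, Pi.zero_apply]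
      rcases hsg k with e' | e' <;> rw [e'] <;> ring_nf <;> linear_combination (0 : F) * h3 + (-(x i) * sg l) * h3
    obtain ⟨B, hB, hB'⟩ := exists_proj hs hm
    refine det_ne_zero hs hm hB hB' ?_
    have hB0 : B = 0 := Matrix.toLin'.injective (LinearMap.ext fun x => by
      rw [Matrix.toLin'_apply, Matrix.toLin'_apply, ← hB, hx, Matrix.zero_mulVec])
    rw [hB0, Matrix.det_zero]
  have hinv : ∀ k : K, sg k⁻¹ = sg k := fun k => by
    have h1 := hsgi k ![1, 0]
    have h2 := hsgι k⁻¹ ![1, 0]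
    rw [show (k⁻¹ : K).1 = k.1⁻¹ from rfl] at h2
    simpa using congrFun (h2.symm.trans h1) 0
  have hmul : ∀ k l : K, sg (k * l) = sg k * sg l := fun k l => by
    simpa [hinv] using hstep k⁻¹ l
  -- the orbit of the plane modulo the kernel of the projection
  let R : AddSubgroup X := AddSubgroup.closure (Set.range fun p : K × (Fin 2 → F) => p.1.1 (P.ι p.2) - P.ι (sg p.1 • p.2))
  set D := P.ι.range ⊔ R with hD
  have hπR : ∀ v ∈ R, P.π v = 0 := fun v hv => by
    induction hv using AddSubgroup.closure_induction with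
    | mem v hv =>
      obtain ⟨⟨l, x⟩, rfl⟩ := hv
      rw [map_sub, hsgι, P.πι, sub_self]
    | zero => exact map_zero _
    | add v w _ _ h1 h2 => rw [map_add, h1, h2, add_zero]
    | neg v _ h1 => rw [map_neg, h1, neg_zero]
  have hgen : ∀ (l : K) x, l.1 (P.ι x) - P.ι (sg l • x) ∈ R := fun l x => AddSubgroup.subset_closure ⟨(l, x), rfl⟩
  have hRinv : ∀ (l : K), ∀ v ∈ R, l.1 v ∈ R := fun l v hv => by
    induction hv using AddSubgroup.closure_induction with
    | mem v hv =>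
      obtain ⟨⟨m, x⟩, rfl⟩ := hv
      have h1 := R.sub_mem (hgen (l * m) x) (hgen l (sg m • x))
      rw [hmul, smul_smul] at h1
      convert h1 using 1
      rw [map_sub, show (l * m : K).1 = l.1 * m.1 from rfl, Aut.comp_apply]
      abel
    | zero => rw [map_zero]; exact R.zero_mem
    | add v w _ _ h1 h2 => rw [map_add]; exact R.add_mem h1 h2
    | neg v _ h1 => rw [map_neg]; exact R.neg_mem h1
  have hkι : ∀ (l : K) x, l.1 (P.ι x) ∈ D := fun l x => by
    have h := D.add_mem (AddSubgroup.mem_sup_left (⟨sg l • x, rfl⟩ : P.ι (sg l • x) ∈ P.ι.range))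
      (AddSubgroup.mem_sup_right (hgen l x))
    rwa [add_sub_cancel] at h
  have hDinv : ∀ (l : K), ∀ v ∈ D, l.1 v ∈ D := fun l v hv => by
    obtain ⟨_, ⟨y, rfl⟩, w, hw, rfl⟩ := AddSubgroup.mem_sup.1 hv
    rw [map_add]
    exact D.add_mem (hkι l y) (AddSubgroup.mem_sup_right (hRinv l w hw))
  let S : Subgroup (Aut X) :=
    { carrier := {f | (∀ v, f v - v ∈ D) ∧ (∀ d ∈ D, f d - d ∈ R) ∧ ∀ v ∈ R, f v = v}
      one_mem' := ⟨fun v => by rw [show (1 : Aut X) v = v from rfl, sub_self]; exact zero_mem _,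
        fun v _ => by rw [show (1 : Aut X) v = v from rfl, sub_self]; exact zero_mem _, fun v _ => rfl⟩
      mul_mem' := by
        rintro f g ⟨f1, f2, f3⟩ ⟨g1, g2, g3⟩
        refine ⟨fun v => ?_, fun d hd => ?_, fun v hv => by rw [Aut.comp_apply, g3 v hv, f3 v hv]⟩
        · convert D.add_mem (f1 (g v)) (g1 v) using 1
          rw [Aut.comp_apply]; abel
        · have hgd : g d ∈ D := by
            have h := D.add_mem hd (AddSubgroup.mem_sup_right (g2 d hd))
            rwa [add_sub_cancel] at h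
          convert R.add_mem (f2 (g d) hgd) (g2 d hd) using 1
          rw [Aut.comp_apply]; abel
      inv_mem' := by
        rintro f ⟨f1, f2, f3⟩
        have hR : ∀ v ∈ R, f⁻¹ v = v := fun v hv => by
          conv_lhs => rw [← f3 v hv]
          rw [Aut.inv_self]
        refine ⟨fun v => ?_, fun d hd => ?_, hR⟩
        · have h := D.neg_mem (f1 (f⁻¹ v))
          rwa [Aut.self_inv, neg_sub] at h
        · have h1 := f2 d hd
          have h2 := hR _ h1
          rw [map_sub, Aut.inv_self] at h2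
          have h3 := R.neg_mem h1
          rw [← h2, neg_sub] at h3
          exact h3 }
  refine ⟨S, fun f hf => cube_eq_one hs.exp hf.1 hf.2.1 hf.2.2, fun k hk f hf => ?_, fun k hk r hr => ?_⟩
  · have e : ∀ v, (k * f * k⁻¹) v = k (f (k⁻¹ v)) := fun v => rfl
    refine ⟨fun v => ?_, fun d hd => ?_, fun v hv => ?_⟩
    · have h : k (f (k⁻¹ v) - k⁻¹ v) ∈ D := hDinv ⟨k, hk⟩ _ (hf.1 (k⁻¹ v))
      rw [map_sub, Aut.self_inv] at h
      exact h
    · have hd' : k⁻¹ d ∈ D := hDinv (⟨k, hk⟩⁻¹ : K) d hd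
      have h : k (f (k⁻¹ d) - k⁻¹ d) ∈ R := hRinv ⟨k, hk⟩ _ (hf.2.1 _ hd')
      rw [map_sub, Aut.self_inv] at h
      exact h
    · have hv' : k⁻¹ v ∈ R := hRinv (⟨k, hk⟩⁻¹ : K) v hv
      rw [e, hf.2.2 _ hv']
      exact Aut.self_inv k v
  set k₀ : K := ⟨k, hk⟩
  have hk' : ∀ v, k⁻¹ v = (k₀⁻¹ : K).1 v := fun v => rfl
  have hh : ∀ v, (k * act P r * k⁻¹) v = v + k (P.ι ((r.1 - 1) *ᵥ P.π (k⁻¹ v))) := fun v => by
    rw [Aut.comp_apply, Aut.comp_apply, act_apply, map_add, Aut.self_inv]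
  refine ⟨fun v => ?_, fun d hd => ?_, fun v hv => ?_⟩
  · rw [← map_inv, Aut.comp_apply, hh, act_apply, add_assoc, add_sub_cancel_left]
    exact D.add_mem (AddSubgroup.mem_sup_left ⟨_, rfl⟩) (hkι k₀ _)
  · obtain ⟨_, ⟨y, rfl⟩, w, hw, rfl⟩ := AddSubgroup.mem_sup.1 hd
    rw [← map_inv, Aut.comp_apply, map_add, act_fix P (hπR w hw), map_add, act_ι, hh, hh, hk' w,
      hπR _ (hRinv _ w hw), Matrix.mulVec_zero, map_zero, map_zero, add_zero, add_sub_add_right_eq_sub, hsgi k₀]
    set z := (r⁻¹ : SpecialLinearGroup (Fin 2) F).1 *ᵥ y with hz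
    have h2 := hgen k₀ ((r.1 - 1) *ᵥ (sg k₀ • z))
    convert h2 using 1
    have hsq : sg k₀ * sg k₀ = 1 := by rcases hsg k₀ with e | e <;> rw [e] <;> ring
    rw [Matrix.mulVec_smul, smul_smul, hsq, one_smul, Matrix.sub_mulVec, Matrix.one_mulVec,
      show r.1 *ᵥ z = y by rw [hz, Matrix.mulVec_mulVec, ← SpecialLinearGroup.coe_mul, mul_inv_cancel,
        SpecialLinearGroup.coe_one, Matrix.one_mulVec], map_sub]
    abel
  · rw [← map_inv, Aut.comp_apply, act_fix P (hπR v hv), hh, hk' v, hπR _ (hRinv _ v hv), Matrix.mulVec_zero,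
      map_zero, map_zero, add_zero]

end Cfsg.Agent.LAE62.BlockCent
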