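import Cfsg.Agent.LAE62.BlockCentralizer.ExcData
import Cfsg.Agent.LAE62.BlockCentralizer.Isometry

/-!
The abelian section of the `p`-core on which an exceptional block acts through a natural plane.
-/

set_option autoImplicit false

open Subgroup Matrix
open scoped commutatorElement

namespace Cfsg.Agent.LAE62.BlockCent

open Baumann

variable {G : Type*} [Group G] [Finite G] [Fact (Nat.Prime 3)] {F : Type} [Field F] [Fintype F]
variable {T : Sylow 3 G} {E : Subgroup G} (D : Exc T E F)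

theorem commutator_mul_left {N : Subgroup G} {a b y : G} (ha : ⁅a, y⁆ ∈ N) (hb : ⁅b, y⁆ ∈ N)
    (han : a ∈ normalizer (N : Set G)) : ⁅a * b, y⁆ ∈ N := by
  rw [show ⁅a * b, y⁆ = a * ⁅b, y⁆ * a⁻¹ * ⁅a, y⁆ by simp only [commutatorElement_def]; group]
  exact mul_mem ((mem_normalizer_iff.1 han _).1 hb) ha

theorem commutator_inv_left {N : Subgroup G} {a y : G} (ha : ⁅a, y⁆ ∈ N)
    (han : a ∈ normalizer (N : Set G)) : ⁅a⁻¹, y⁆ ∈ N := by
  rw [show ⁅a⁻¹, y⁆ = a⁻¹ * ⁅a, y⁆⁻¹ * a by simp only [commutatorElement_def]; group]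
  exact (mem_normalizer_iff''.1 han _).1 (inv_mem ha)

theorem PE_le_L (h : normalizer (WE 3 E : Set G) = normalizer (WE 3 E : Set G) := rfl) :
    PE 3 E ≤ normalizer (WE 3 E : Set G) := LocalP.pCoreOf_le _

/-- The elements central modulo `V` and of exponent three modulo `V`. -/
def Xb : Subgroup G where
  carrier := {a | a ∈ PE 3 E ∧ a ^ 3 ∈ Vb E ∧ ∀ y ∈ PE 3 E, ⁅a, y⁆ ∈ Vb E}
  one_mem' := ⟨one_mem _, by rw [one_pow]; exact one_mem _, fun y _ => by
    rw [commutatorElement_one_left]; exact one_mem _⟩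
  mul_mem' := by
    rintro a b ⟨ha, ha3, ha'⟩ ⟨hb, hb3, hb'⟩
    refine ⟨mul_mem ha hb, ?_, fun y hy =>
      commutator_mul_left (ha' y hy) (hb' y hy) (L_le_normalizer_V D (PE_le_L rfl ha))⟩
    obtain ⟨c, hc, hba⟩ : ∃ c ∈ Vb E, b * a = c * (a * b) :=
      ⟨⁅b, a⁆, hb' a ha, by simp only [commutatorElement_def]; group⟩
    have hcc : ∀ x ∈ PE 3 E, x * c = c * x := fun x hx => V_central D hc hx
    have e : (a * b) ^ 3 = c ^ 3 * (a ^ 3 * b ^ 3) := by
      calc (a * b) ^ 3 = a * (b * a) * (b * a) * b := by rw [pow_succ, pow_two]; group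
        _ = a * c * (a * b) * (c * (a * b)) * b := by rw [hba]; group
        _ = c * (a * (a * b)) * (c * (a * b)) * b := by rw [hcc a ha]; group
        _ = c * ((a * (a * b)) * c) * (a * b) * b := by group
        _ = c * (c * (a * (a * b))) * (a * b) * b := by rw [hcc _ (mul_mem ha (mul_mem ha hb))]
        _ = c * c * (a * a * (b * a) * (b * b)) := by group
        _ = c * c * (a * a * (c * (a * b)) * (b * b)) := by rw [hba]
        _ = c * c * (a * a * c * (a * b * (b * b))) := by group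
        _ = c * c * (c * (a * a) * (a * b * (b * b))) := by rw [hcc _ (mul_mem ha ha)]
        _ = c ^ 3 * (a ^ 3 * b ^ 3) := by simp only [pow_succ, pow_zero, one_mul]; group
    rw [e]
    exact mul_mem (pow_mem hc 3) (mul_mem ha3 hb3)
  inv_mem' := by
    rintro a ⟨ha, ha3, ha'⟩
    exact ⟨inv_mem ha, by rw [inv_pow]; exact inv_mem ha3, fun y hy =>
      commutator_inv_left (ha' y hy) (L_le_normalizer_V D (PE_le_L rfl ha))⟩

theorem Xb_le : Xb D ≤ PE 3 E := fun _ h => h.1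

theorem V_le_X : Vb E ≤ Xb D := fun v hv => ⟨V_le_PE D hv, pow_mem hv 3, fun y hy => by
  rw [commutatorElement_eq_one_iff_mul_comm.2 (V_central D hv hy).symm]; exact one_mem _⟩

theorem Q_le_X : Qb E ≤ Xb D := fun x hx => ⟨D.Q_le hx, W_le_V D ((D.fQ_zero _ (pow_mem hx 3)).1 (by
    rw [pow_succ, pow_two, D.fQ_mul _ (mul_mem hx hx) _ hx, D.fQ_mul _ hx _ hx]
    ext i
    simp only [Pi.add_apply, Pi.zero_apply]
    linear_combination (D.fQ x i) * three_zero D)), fun y hy => W_le_V D (comm_Q_PE D hx hy)⟩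

theorem L_le_normalizer_X : normalizer (WE 3 E : Set G) ≤ normalizer (Xb D : Set G) := fun g hg =>
  mem_normalizer_of_conj_mem fun a ha => by
    refine ⟨(mem_normalizer_iff.1 (L_le_normalizer_PE hg) a).1 ha.1, ?_, fun y hy => ?_⟩
    · rw [conj_pow]
      exact (mem_normalizer_iff.1 (L_le_normalizer_V D hg) _).1 ha.2.1
    · rw [show ⁅g * a * g⁻¹, y⁆ = g * ⁅a, g⁻¹ * y * g⁆ * g⁻¹ by simp only [commutatorElement_def]; group]
      exact (mem_normalizer_iff.1 (L_le_normalizer_V D hg) _).1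
        (ha.2.2 _ ((mem_normalizer_iff''.1 (L_le_normalizer_PE hg) y).1 hy))

instance vX_normal : ((Vb E).subgroupOf (Xb D)).Normal :=
  normal_subgroupOf_of_le_normalizer (((Xb_le D).trans (PE_le_L rfl)).trans (L_le_normalizer_V D))

instance wV_normal : ((WE 3 E).subgroupOf (Vb E)).Normal :=
  normal_subgroupOf_of_le_normalizer ((omegaOneCenter_le _).trans (PE_le_L rfl))

instance xqCommGroup : CommGroup (↥(Xb D) ⧸ (Vb E).subgroupOf (Xb D)) :=
  { (inferInstance : Group (↥(Xb D) ⧸ (Vb E).subgroupOf (Xb D))) with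
    mul_comm := by
      rintro ⟨a⟩ ⟨b⟩
      refine (QuotientGroup.eq).2 ?_
      show ((a : G) * b)⁻¹ * ((b : G) * a) ∈ Vb E
      rw [show ((a : G) * b)⁻¹ * ((b : G) * a) = ⁅(b : G)⁻¹, (a : G)⁻¹⁆ by
        simp only [commutatorElement_def]; group]
      exact ((Xb D).inv_mem b.2).2.2 _ (inv_mem a.2.1) }

instance mmCommGroup : CommGroup (↥(Vb E) ⧸ (WE 3 E).subgroupOf (Vb E)) :=
  { (inferInstance : Group (↥(Vb E) ⧸ (WE 3 E).subgroupOf (Vb E))) with
    mul_comm := by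
      rintro ⟨a⟩ ⟨b⟩
      refine (QuotientGroup.eq).2 ?_
      show ((a : G) * b)⁻¹ * ((b : G) * a) ∈ WE 3 E
      rw [omegaOneCenter_comm (p := 3) (X := PE 3 E) b.2 a.2, inv_mul_cancel]
      exact one_mem _ }

/-- The section. -/
abbrev XA := Additive (↥(Xb D) ⧸ (Vb E).subgroupOf (Xb D))

/-- The values of the form. -/
abbrev MA (E : Subgroup G) := Additive (↥(Vb E) ⧸ (WE 3 E).subgroupOf (Vb E))

open Classical in
/-- The class of an element in the section. -/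
noncomputable def mkX (a : G) : XA D :=
  if h : a ∈ Xb D then Additive.ofMul (QuotientGroup.mk ⟨a, h⟩) else 0

open Classical in
/-- The class of an element among the values. -/
noncomputable def mkM (E : Subgroup G) (a : G) : MA E :=
  if h : a ∈ Vb E then Additive.ofMul (QuotientGroup.mk ⟨a, h⟩) else 0

theorem mkX_mul {a b : G} (ha : a ∈ Xb D) (hb : b ∈ Xb D) : mkX D (a * b) = mkX D a + mkX D b := by
  rw [mkX, mkX, mkX, dif_pos (mul_mem ha hb), dif_pos ha, dif_pos hb]; rfl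

theorem mkX_zero {a : G} (ha : a ∈ Xb D) : mkX D a = 0 ↔ a ∈ Vb E := by
  rw [mkX, dif_pos ha]
  exact (QuotientGroup.eq_one_iff (N := (Vb E).subgroupOf (Xb D)) (⟨a, ha⟩ : Xb D))

theorem mkX_surj (x : XA D) : ∃ a ∈ Xb D, mkX D a = x := by
  obtain ⟨⟨a, ha⟩, h⟩ := QuotientGroup.mk'_surjective ((Vb E).subgroupOf (Xb D)) x.toMul
  refine ⟨a, ha, ?_⟩
  rw [mkX, dif_pos ha]
  exact congrArg Additive.ofMul h

theorem mkX_eq_iff {a b : G} (ha : a ∈ Xb D) (hb : b ∈ Xb D) : mkX D a = mkX D b ↔ a⁻¹ * b ∈ Vb E := by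
  rw [mkX, mkX, dif_pos ha, dif_pos hb]
  exact (Additive.ofMul.injective.eq_iff).trans (QuotientGroup.eq (s := (Vb E).subgroupOf (Xb D)))

theorem mkX_inv {a : G} (ha : a ∈ Xb D) : mkX D a⁻¹ = -mkX D a := by
  refine eq_neg_of_add_eq_zero_left ?_
  rw [← mkX_mul D (inv_mem ha) ha, inv_mul_cancel, mkX_zero D (one_mem _)]
  exact one_mem _

theorem mkM_mul {a b : G} (ha : a ∈ Vb E) (hb : b ∈ Vb E) : mkM E (a * b) = mkM E a + mkM E b := by
  rw [mkM, mkM, mkM, dif_pos (mul_mem ha hb), dif_pos ha, dif_pos hb]; rfl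

theorem mkM_zero {a : G} (ha : a ∈ Vb E) : mkM E a = 0 ↔ a ∈ WE 3 E := by
  rw [mkM, dif_pos ha]
  exact (QuotientGroup.eq_one_iff (N := (WE 3 E).subgroupOf (Vb E)) (⟨a, ha⟩ : Vb E))

theorem mkM_inv {a : G} (ha : a ∈ Vb E) : mkM E a⁻¹ = -mkM E a := by
  refine eq_neg_of_add_eq_zero_left ?_
  rw [← mkM_mul (inv_mem ha) ha, inv_mul_cancel, mkM_zero (one_mem _)]
  exact one_mem _

theorem mkM_congr {a b : G} (ha : a ∈ Vb E) (hb : b ∈ Vb E) (h : a * b⁻¹ ∈ WE 3 E) : mkM E a = mkM E b := by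
  have h1 := (mkM_zero (mul_mem ha (inv_mem hb))).2 h
  rw [mkM_mul ha (inv_mem hb), mkM_inv hb] at h1
  exact eq_of_add_neg_eq_zero h1

/-- The form on representatives. -/
theorem comm_mem_V {a b : G} (ha : a ∈ Xb D) (hb : b ∈ PE 3 E) : ⁅a, b⁆ ∈ Vb E := ha.2.2 b hb

theorem comm_mul_right {a b c : G} (ha : a ∈ Xb D) (hb : b ∈ PE 3 E) (hc : c ∈ PE 3 E) :
    ⁅a, b * c⁆ = ⁅a, b⁆ * ⁅a, c⁆ := by
  rw [show ⁅a, b * c⁆ = ⁅a, b⁆ * (b * ⁅a, c⁆ * b⁻¹) by simp only [commutatorElement_def]; group,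
    V_central D (comm_mem_V D ha hc) hb, mul_inv_cancel_right]

theorem comm_mul_left' {a b c : G} (ha : a ∈ Xb D) (hb : b ∈ Xb D) (hc : c ∈ PE 3 E) :
    ⁅a * b, c⁆ = ⁅a, c⁆ * ⁅b, c⁆ := by
  rw [show ⁅a * b, c⁆ = a * ⁅b, c⁆ * a⁻¹ * ⁅a, c⁆ by simp only [commutatorElement_def]; group,
    V_central D (comm_mem_V D hb hc) ha.1, mul_inv_cancel_right,
    omegaOneCenter_comm (comm_mem_V D hb hc) (comm_mem_V D ha hc)]

include D in
theorem comm_V_right {a v : G} (ha : a ∈ PE 3 E) (hv : v ∈ Vb E) : ⁅a, v⁆ = 1 :=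
  commutatorElement_eq_one_iff_mul_comm.2 (V_central D hv ha)

theorem comm_congr {a a' b b' : G} (ha : a ∈ Xb D) (ha' : a' ∈ Xb D) (hb : b ∈ Xb D) (hb' : b' ∈ Xb D)
    (h1 : a'⁻¹ * a ∈ Vb E) (h2 : b'⁻¹ * b ∈ Vb E) : ⁅a, b⁆ = ⁅a', b'⁆ := by
  have e1 : a = a' * (a'⁻¹ * a) := by group
  have e2 : b = b' * (b'⁻¹ * b) := by group
  rw [e1, comm_mul_left' D ha' (V_le_X D h1) hb.1,
    commutatorElement_eq_one_iff_mul_comm.2 (V_central D h1 hb.1).symm, mul_one, e2,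
    comm_mul_right D ha' hb'.1 (V_le_PE D h2), comm_V_right D ha'.1 h2, mul_one]

/-- The form. -/
noncomputable def ωX (x y : XA D) : MA E := mkM E ⁅(mkX_surj D x).choose, (mkX_surj D y).choose⁆

theorem ωX_mk {a b : G} (ha : a ∈ Xb D) (hb : b ∈ Xb D) : ωX D (mkX D a) (mkX D b) = mkM E ⁅a, b⁆ := by
  obtain ⟨ha', hea⟩ := (mkX_surj D (mkX D a)).choose_spec
  obtain ⟨hb', heb⟩ := (mkX_surj D (mkX D b)).choose_spec
  unfold ωX
  rw [comm_congr D ha' ha hb' hb ((mkX_eq_iff D ha ha').1 hea.symm) ((mkX_eq_iff D hb hb').1 heb.symm)]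

theorem comm_t_mem {a : G} (ha : a ∈ Xb D) : ⁅a, (tE D : G)⁆ ∈ Qb E := by
  rw [← commutatorElement_inv]
  exact inv_mem (commutator_PE_le D.setting _ (tE D).2 a ha.1)

theorem fQ_conj_PE {y q : G} (hy : y ∈ PE 3 E) (hq : q ∈ Qb E) : D.fQ (y * q * y⁻¹) = D.fQ q := by
  have h1 : ⁅q, y⁆⁻¹ ∈ Wb E := inv_mem (comm_Q_PE D hq hy)
  rw [show y * q * y⁻¹ = ⁅q, y⁆⁻¹ * q by simp only [commutatorElement_def]; group,
    D.fQ_mul _ (W_le_Q h1) _ hq, (D.fQ_zero _ (W_le_Q h1)).2 h1, zero_add]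

theorem fQ_comm_t_mul {a b : G} (ha : a ∈ Xb D) (hb : b ∈ Xb D) :
    D.fQ ⁅a * b, (tE D : G)⁆ = D.fQ ⁅a, (tE D : G)⁆ + D.fQ ⁅b, (tE D : G)⁆ := by
  have hq : a * ⁅b, (tE D : G)⁆ * a⁻¹ ∈ Qb E :=
    (mem_normalizer_iff.1 ((PE_le_normalizer D.setting).trans (LocalP.normalizer_le_normalizer_pCoreOf E) ha.1) _).1
      (comm_t_mem D hb)
  rw [show ⁅a * b, (tE D : G)⁆ = a * ⁅b, (tE D : G)⁆ * a⁻¹ * ⁅a, (tE D : G)⁆ by
    simp only [commutatorElement_def]; group, D.fQ_mul _ hq _ (comm_t_mem D ha),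
    fQ_conj_PE D ha.1 (comm_t_mem D hb), add_comm]

theorem fQ_comm_t_V {v : G} (hv : v ∈ Vb E) : D.fQ ⁅v, (tE D : G)⁆ = 0 := by
  have h : ⁅v, (tE D : G)⁆ ∈ Wb E := by
    rw [← commutatorElement_inv]; exact inv_mem (WE_le_W (comm_E_V D (tE D).2 hv))
  exact (D.fQ_zero _ (W_le_Q h)).2 h

/-- The projection. -/
noncomputable def πX : XA D →+ (Fin 2 → F) :=
  AddMonoidHom.mk' (fun x => -D.fQ ⁅(mkX_surj D x).choose, (tE D : G)⁆) fun x y => by
    obtain ⟨ha, hea⟩ := (mkX_surj D x).choose_spec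
    obtain ⟨hb, heb⟩ := (mkX_surj D y).choose_spec
    obtain ⟨hc, hec⟩ := (mkX_surj D (x + y)).choose_spec
    set a := (mkX_surj D x).choose
    set b := (mkX_surj D y).choose
    set c := (mkX_surj D (x + y)).choose
    have hv : (a * b)⁻¹ * c ∈ Vb E := (mkX_eq_iff D (mul_mem ha hb) hc).1 (by rw [mkX_mul D ha hb, hea, heb, hec])
    rw [← neg_add, ← fQ_comm_t_mul D ha hb, neg_inj]
    conv_lhs => rw [show c = a * b * ((a * b)⁻¹ * c) by group]
    rw [fQ_comm_t_mul D (mul_mem ha hb) (V_le_X D hv), fQ_comm_t_V D hv, add_zero]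

theorem πX_mk {a : G} (ha : a ∈ Xb D) : πX D (mkX D a) = -D.fQ ⁅a, (tE D : G)⁆ := by
  obtain ⟨hc, hec⟩ := (mkX_surj D (mkX D a)).choose_spec
  show -D.fQ _ = _
  set c := (mkX_surj D (mkX D a)).choose
  have hv : a⁻¹ * c ∈ Vb E := (mkX_eq_iff D ha hc).1 hec.symm
  rw [show c = a * (a⁻¹ * c) by group, fQ_comm_t_mul D ha (V_le_X D hv), fQ_comm_t_V D hv, add_zero]

theorem πX_Q {q : G} (hq : q ∈ Qb E) : πX D (mkX D q) = D.fQ q := by
  have htq : (tE D : G) * q⁻¹ * (tE D : G)⁻¹ ∈ Qb E :=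
    (mem_normalizer_iff.1 (E_le_normalizer_Q (tE D).2) _).1 (inv_mem hq)
  rw [πX_mk D (Q_le_X D hq), show ⁅q, (tE D : G)⁆ = q * ((tE D : G) * q⁻¹ * (tE D : G)⁻¹) by
    simp only [commutatorElement_def]; group, D.fQ_mul _ hq _ htq, fQ_tE D (inv_mem hq), fQ_inv D hq, neg_neg]
  ext i
  simp only [Pi.neg_apply, Pi.add_apply]
  linear_combination -(D.fQ q i) * three_zero D

/-- The plane. -/
noncomputable def ιX : (Fin 2 → F) →+ XA D :=
  AddMonoidHom.mk' (fun x => mkX D (D.fQ_surj x).choose) fun x y => by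
    obtain ⟨ha, hea⟩ := (D.fQ_surj x).choose_spec
    obtain ⟨hb, heb⟩ := (D.fQ_surj y).choose_spec
    obtain ⟨hc, hec⟩ := (D.fQ_surj (x + y)).choose_spec
    rw [← mkX_mul D (Q_le_X D ha) (Q_le_X D hb), mkX_eq_iff D (Q_le_X D hc) (Q_le_X D (mul_mem ha hb))]
    refine W_le_V D ((D.fQ_zero _ (mul_mem (inv_mem hc) (mul_mem ha hb))).1 ?_)
    rw [D.fQ_mul _ (inv_mem hc) _ (mul_mem ha hb), D.fQ_mul _ ha _ hb, fQ_inv D hc, hea, heb, hec, neg_add_cancel]

theorem ιX_fQ {q : G} (hq : q ∈ Qb E) : ιX D (D.fQ q) = mkX D q := by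
  obtain ⟨hc, hec⟩ := (D.fQ_surj (D.fQ q)).choose_spec
  show mkX D (D.fQ_surj (D.fQ q)).choose = _
  rw [mkX_eq_iff D (Q_le_X D hc) (Q_le_X D hq)]
  refine W_le_V D ((D.fQ_zero _ (mul_mem (inv_mem hc) hq)).1 ?_)
  rw [D.fQ_mul _ (inv_mem hc) _ hq, fQ_inv D hc, hec, neg_add_cancel]

/-- The commutator pairing of the plane. -/
noncomputable def βQ (x y : Fin 2 → F) : MA E := ωX D (ιX D x) (ιX D y)

theorem βQ_fQ {a b : G} (ha : a ∈ Qb E) (hb : b ∈ Qb E) : βQ D (D.fQ a) (D.fQ b) = mkM E ⁅a, b⁆ := by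
  rw [βQ, ιX_fQ D ha, ιX_fQ D hb, ωX_mk D (Q_le_X D ha) (Q_le_X D hb)]

theorem βQ_add_left (x y z : Fin 2 → F) : βQ D (x + y) z = βQ D x z + βQ D y z := by
  obtain ⟨a, ha, rfl⟩ := D.fQ_surj x
  obtain ⟨b, hb, rfl⟩ := D.fQ_surj y
  obtain ⟨c, hc, rfl⟩ := D.fQ_surj z
  rw [← D.fQ_mul a ha b hb, βQ_fQ D (mul_mem ha hb) hc, βQ_fQ D ha hc, βQ_fQ D hb hc,
    comm_mul_left' D (Q_le_X D ha) (Q_le_X D hb) (D.Q_le hc),
    mkM_mul (comm_mem_V D (Q_le_X D ha) (D.Q_le hc)) (comm_mem_V D (Q_le_X D hb) (D.Q_le hc))]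

theorem βQ_skew (x y : Fin 2 → F) : βQ D x y = -βQ D y x := by
  obtain ⟨a, ha, rfl⟩ := D.fQ_surj x
  obtain ⟨b, hb, rfl⟩ := D.fQ_surj y
  rw [βQ_fQ D ha hb, βQ_fQ D hb ha, ← mkM_inv (comm_mem_V D (Q_le_X D hb) (D.Q_le ha)), commutatorElement_inv]

theorem βQ_add_right (x y z : Fin 2 → F) : βQ D x (y + z) = βQ D x y + βQ D x z := by
  rw [βQ_skew D, βQ_add_left, neg_add, ← βQ_skew D, ← βQ_skew D]

theorem βQ_self (x : Fin 2 → F) : βQ D x x = 0 := by
  obtain ⟨a, ha, rfl⟩ := D.fQ_surj x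
  rw [βQ_fQ D ha ha, commutatorElement_self, mkM_zero (one_mem _)]
  exact one_mem _

theorem βQ_invariant {r : SpecialLinearGroup (Fin 2) F} (hr : r ∈ commutator (SpecialLinearGroup (Fin 2) F))
    (x y : Fin 2 → F) : βQ D (r.1 *ᵥ x) (r.1 *ᵥ y) = βQ D x y := by
  rw [← D.rQ_range] at hr
  obtain ⟨e, rfl⟩ := hr
  obtain ⟨a, ha, rfl⟩ := D.fQ_surj x
  obtain ⟨b, hb, rfl⟩ := D.fQ_surj y
  have hn := E_le_normalizer_Q e.2
  rw [← D.fQ_conj e a ha, ← D.fQ_conj e b hb, βQ_fQ D ((mem_normalizer_iff.1 hn a).1 ha) ((mem_normalizer_iff.1 hn b).1 hb),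
    βQ_fQ D ha hb, show ⁅(e : G) * a * (e : G)⁻¹, (e : G) * b * (e : G)⁻¹⁆ = e * ⁅a, b⁆ * (e : G)⁻¹ by
      simp only [commutatorElement_def]; group]
  have hz : ⁅a, b⁆ ∈ Zb E := D.comm ▸ commutator_mem_commutator ha hb
  rw [mem_centralizer_iff.1 hz.2 _ e.2, mul_inv_cancel_right]

theorem βQ_det : ∃ θ : F →+ MA E, ∀ x y, βQ D x y = θ (det2 x y) := by
  have h3 := three_zero D
  have hneg : ∀ x y, βQ D (-x) y = -βQ D x y := fun x y => by
    refine eq_neg_of_add_eq_zero_left ?_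
    rw [← βQ_add_left, neg_add_cancel]
    have h := βQ_add_left D 0 0 y
    rw [add_zero] at h
    exact left_eq_add.1 h
  have hzl : ∀ y, βQ D 0 y = 0 := fun y => by
    have h := βQ_add_left D 0 0 y
    rw [add_zero] at h
    exact left_eq_add.1 h
  have hzr : ∀ x, βQ D x 0 = 0 := fun x => by rw [βQ_skew D, hzl, neg_zero]
  -- the two axes are isotropic and the mixed products are balanced
  have key : (∀ r s : F, βQ D ![r, 0] ![s, 0] = 0) ∧ (∀ r s : F, βQ D ![0, r] ![0, s] = 0) ∧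
      ∀ r s : F, βQ D ![r, 0] ![0, s] = βQ D ![r * s, 0] ![0, 1] := by
    rcases (three_pow_dichotomy D.card).2 with ⟨a, ha, ha4⟩ | hsmall
    · have ha1 : a * a ≠ 1 := fun e => ha4 (by linear_combination (a * a + 1) * e)
      have hu : ∀ x r s : F, (upU x).1 *ᵥ ![r, s] = ![r + x * s, s] := fun x r s => by
        ext i; fin_cases i <;> simp [upU_coe, Matrix.mulVec, dotProduct, Fin.sum_univ_two]
      have hl : ∀ x r s : F, (loU x).1 *ᵥ ![r, s] = ![r, x * r + s] := fun x r s => by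
        ext i; fin_cases i <;> simp [loU_coe, Matrix.mulVec, dotProduct, Fin.sum_univ_two]
      have hsplit : ∀ r s : F, (![r, s] : Fin 2 → F) = ![r, 0] + ![0, s] := fun r s => by simp
      have k1 : ∀ r s : F, βQ D ![r, 0] ![s, 0] = 0 := fun r s => by
        have h := βQ_invariant D (upU_mem_commutator ha ha1 r) ![0, 1] ![s, 0]
        rw [hu, hu, mul_zero, add_zero, mul_one, zero_add, hsplit r 1, βQ_add_left] at h
        exact add_eq_right.1 h
      have k2 : ∀ r s : F, βQ D ![0, r] ![0, s] = 0 := fun r s => by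
        have h := βQ_invariant D (loU_mem_commutator ha ha1 r) ![1, 0] ![0, s]
        rw [hl, hl, mul_zero, zero_add, mul_one, add_zero, hsplit 1 r, βQ_add_left] at h
        exact add_eq_left.1 h
      refine ⟨k1, k2, fun r s => ?_⟩
      have h := βQ_invariant D (upU_mem_commutator ha ha1 r) ![0, 1] ![0, s]
      rw [hu, hu, zero_add, mul_one, zero_add, hsplit r 1, hsplit (r * s) s, βQ_add_left, βQ_add_right, βQ_add_right,
        k1, zero_add, k2, add_zero] at h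
      rw [βQ_skew D ![0, 1]] at h
      exact eq_of_add_neg_eq_zero h
    · have h00 : (![0, 0] : Fin 2 → F) = 0 := by ext i; fin_cases i <;> rfl
      have hn1 : (![-1, 0] : Fin 2 → F) = -![1, 0] := by ext i; fin_cases i <;> simp
      have hn2 : (![0, -1] : Fin 2 → F) = -![0, 1] := by ext i; fin_cases i <;> simp
      have hnr : ∀ x y, βQ D x (-y) = -βQ D x y := fun x y => by rw [βQ_skew D, hneg, ← βQ_skew D]
      refine ⟨fun r s => ?_, fun r s => ?_, fun r s => ?_⟩ <;>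
        rcases hsmall r with rfl | rfl | rfl <;> rcases hsmall s with rfl | rfl | rfl <;>
        simp only [h00, hn1, hn2, mul_zero, zero_mul, mul_one, one_mul, mul_neg, neg_mul, neg_neg, neg_zero,
          hneg, hnr, hzl, hzr, βQ_self]
  obtain ⟨k1, k2, k3⟩ := key
  let θ : F →+ MA E := AddMonoidHom.mk' (fun s => βQ D ![s, 0] ![0, 1]) fun r s => by
    rw [← βQ_add_left]; congr 1; ext i; fin_cases i <;> simp
  refine ⟨θ, fun x y => ?_⟩
  have hx : x = ![x 0, 0] + ![0, x 1] := by ext i; fin_cases i <;> simp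
  have hy : y = ![y 0, 0] + ![0, y 1] := by ext i; fin_cases i <;> simp
  conv_lhs => rw [hx, hy]
  rw [βQ_add_left, βQ_add_right, βQ_add_right, k1, k2, k3 (x 0) (y 1), βQ_skew D ![0, x 1],
    k3 (y 0) (x 1), zero_add, add_zero]
  show βQ D ![x 0 * y 1, 0] ![0, 1] + -βQ D ![y 0 * x 1, 0] ![0, 1] = θ (det2 x y)
  rw [det2, map_sub, sub_eq_add_neg, mul_comm (y 0)]
  rfl

theorem θ_injective {θ : F →+ MA E} (h : ∀ x y, βQ D x y = θ (det2 x y)) : Function.Injective θ := by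
  have hrange : ∀ z ∈ Zb E, ∃ s, θ s = mkM E z := by
    intro z hz
    rw [← D.comm, Subgroup.commutator_def] at hz
    induction hz using Subgroup.closure_induction with
    | mem x hx =>
      obtain ⟨a, ha, b, hb, rfl⟩ := hx
      exact ⟨_, (h _ _).symm.trans (βQ_fQ D ha hb)⟩
    | one => exact ⟨0, by rw [map_zero, eq_comm, mkM_zero (one_mem _)]; exact one_mem _⟩
    | mul x y hx hy h1 h2 =>
      obtain ⟨r, hr⟩ := h1
      obtain ⟨s, hs⟩ := h2
      have hV : ∀ x ∈ closure {g : G | ∃ g₁ ∈ Qb E, ∃ g₂ ∈ Qb E, ⁅g₁, g₂⁆ = g}, x ∈ Vb E := fun x hx => by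
        rw [← Subgroup.commutator_def, D.comm] at hx
        exact W_le_V D hx.1
      exact ⟨r + s, by rw [map_add, hr, hs, mkM_mul (hV x hx) (hV y hy)]⟩
    | inv x hx h1 =>
      obtain ⟨r, hr⟩ := h1
      have hV : x ∈ Vb E := by
        rw [← Subgroup.commutator_def, D.comm] at hx
        exact W_le_V D hx.1
      exact ⟨-r, by rw [map_neg, hr, mkM_inv hV]⟩
  choose g hg using fun z : Zb E => hrange z z.2
  have hginj : Function.Injective g := fun z z' e => by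
    have e' : mkM E (z : G) = mkM E (z' : G) := by rw [← hg z, ← hg z', e]
    have h1 : (z : G) * (z' : G)⁻¹ ∈ WE 3 E := by
      rw [← mkM_zero (mul_mem (W_le_V D z.2.1) (inv_mem (W_le_V D z'.2.1))),
        mkM_mul (W_le_V D z.2.1) (inv_mem (W_le_V D z'.2.1)), mkM_inv (W_le_V D z'.2.1), e', add_neg_cancel]
    have h2 := WE_inf_Z D h1 (mul_mem z.2.2 (inv_mem z'.2.2))
    exact Subtype.ext (mul_inv_eq_one.1 h2)
  have hbij : Function.Bijective g := by
    rw [Nat.bijective_iff_injective_and_card]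
    exact ⟨hginj, by rw [D.cardZ, Nat.card_eq_fintype_card, D.card]⟩
  intro r s e
  obtain ⟨z, rfl⟩ := hbij.2 r
  obtain ⟨z', rfl⟩ := hbij.2 s
  have e' : mkM E (z : G) = mkM E (z' : G) := by rw [← hg z, ← hg z', e]
  congr 1
  have h1 : (z : G) * (z' : G)⁻¹ ∈ WE 3 E := by
    rw [← mkM_zero (mul_mem (W_le_V D z.2.1) (inv_mem (W_le_V D z'.2.1))),
      mkM_mul (W_le_V D z.2.1) (inv_mem (W_le_V D z'.2.1)), mkM_inv (W_le_V D z'.2.1), e', add_neg_cancel]
  exact Subtype.ext (mul_inv_eq_one.1 (WE_inf_Z D h1 (mul_mem z.2.2 (inv_mem z'.2.2))))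

theorem ιX_πX_orth (x : Fin 2 → F) {a : G} (ha : a ∈ Xb D) (h0 : πX D (mkX D a) = 0) :
    ωX D (ιX D x) (mkX D a) = 0 := by
  obtain ⟨q, hq, rfl⟩ := D.fQ_surj x
  rw [ιX_fQ D hq, ωX_mk D (Q_le_X D hq) ha]
  set t := (tE D : G) with ht
  set c := ⁅q, a⁆ with hc
  have hcV : c ∈ Vb E := comm_mem_V D (Q_le_X D hq) ha.1
  rw [mkM_zero hcV]
  have hta : ⁅t, a⁆ ∈ Wb E := by
    rw [← commutatorElement_inv]
    refine inv_mem ((D.fQ_zero _ (comm_t_mem D ha)).1 ?_)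
    rw [πX_mk D ha, neg_eq_zero] at h0
    exact h0
  have htq : t * q * t⁻¹ ∈ Qb E := (mem_normalizer_iff.1 (E_le_normalizer_Q (tE D).2) q).1 hq
  have hw : q * (t * q * t⁻¹) ∈ Wb E := (D.fQ_zero _ (mul_mem hq htq)).1 (by
    rw [D.fQ_mul _ hq _ htq, fQ_tE D hq, add_neg_cancel])
  have hL : t ∈ normalizer (WE 3 E : Set G) := E_le_L (tE D).2
  have e1 : t * c * t⁻¹ = c⁻¹ := by
    have hta' : t * a * t⁻¹ ∈ Xb D := (mem_normalizer_iff.1 (L_le_normalizer_X D hL) a).1 ha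
    rw [hc, show t * ⁅q, a⁆ * t⁻¹ = ⁅t * q * t⁻¹, t * a * t⁻¹⁆ by simp only [commutatorElement_def]; group,
      comm_congr D (Q_le_X D htq) (inv_mem (Q_le_X D hq)) hta' ha
        (by rw [inv_inv]; exact W_le_V D hw)
        (by
          rw [show a⁻¹ * (t * a * t⁻¹) = a⁻¹ * ⁅t, a⁆ * a by simp only [commutatorElement_def]; group,
            show a⁻¹ * ⁅t, a⁆ = ⁅t, a⁆ * a⁻¹ from V_central D (W_le_V D hta) (inv_mem ha.1), inv_mul_cancel_right]
          exact W_le_V D hta)]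
    exact eq_inv_of_mul_eq_one_left (by
      rw [← comm_mul_left' D (inv_mem (Q_le_X D hq)) (Q_le_X D hq) ha.1, inv_mul_cancel,
        commutatorElement_one_left])
  have h2 := comm_E_V D (tE D).2 hcV
  rw [commutatorElement_def, ← ht, e1] at h2
  have h3 : c ^ 3 = 1 := omegaOneCenter_pow hcV
  rw [show c = c⁻¹ * c⁻¹ from (mul_eq_one_iff_eq_inv.1 (show c * (c * c) = 1 by rw [← h3, pow_succ, pow_two, mul_assoc])).trans
    (_root_.mul_inv_rev c c)]
  exact h2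

/-- The plane form of the section. -/
noncomputable def planeForm : PlaneForm F (XA D) (MA E) where
  ι := ιX D
  π := πX D
  θ := (βQ_det D).choose
  ω := ωX D
  πι a := by
    obtain ⟨q, hq, rfl⟩ := D.fQ_surj a
    rw [ιX_fQ D hq, πX_Q D hq]
  θinj := θ_injective D (βQ_det D).choose_spec
  ωι a x := by
    obtain ⟨c, hc, rfl⟩ := mkX_surj D x
    obtain ⟨q, hq, hqe⟩ := D.fQ_surj (πX D (mkX D c))
    have hc' : c * q⁻¹ ∈ Xb D := mul_mem hc (inv_mem (Q_le_X D hq))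
    have h0 : πX D (mkX D (c * q⁻¹)) = 0 := by
      rw [mkX_mul D hc (inv_mem (Q_le_X D hq)), map_add, πX_Q D (inv_mem hq), fQ_inv D hq, hqe, add_neg_cancel]
    have h1 := ιX_πX_orth D a hc' h0
    rw [← hqe, ← (βQ_det D).choose_spec, βQ, ιX_fQ D hq]
    obtain ⟨q', hq', rfl⟩ := D.fQ_surj a
    rw [ιX_fQ D hq', ωX_mk D (Q_le_X D hq') hc, ωX_mk D (Q_le_X D hq') (Q_le_X D hq)]
    rw [ιX_fQ D hq', ωX_mk D (Q_le_X D hq') hc'] at h1
    have e := comm_mul_right D (Q_le_X D hq') hc'.1 (D.Q_le hq)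
    rw [inv_mul_cancel_right] at e
    rw [e, mkM_mul (comm_mem_V D (Q_le_X D hq') hc'.1) (comm_mem_V D (Q_le_X D hq') (D.Q_le hq)), h1, zero_add]
  skew x y := by
    obtain ⟨a, ha, rfl⟩ := mkX_surj D x
    obtain ⟨b, hb, rfl⟩ := mkX_surj D y
    rw [ωX_mk D ha hb, ωX_mk D hb ha, ← mkM_inv (comm_mem_V D hb ha.1), commutatorElement_inv]

theorem XA_exp (x : XA D) : x + x + x = 0 := by
  obtain ⟨a, ha, rfl⟩ := mkX_surj D x
  rw [← mkX_mul D ha ha, ← mkX_mul D (mul_mem ha ha) ha, mkX_zero D (mul_mem (mul_mem ha ha) ha)]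
  have h := ha.2.1
  rwa [pow_succ, pow_two] at h

/-- Conjugation on the section. -/
noncomputable def conjX (g : ↥(normalizer (WE 3 E : Set G))) (x : XA D) : XA D :=
  mkX D ((g : G) * (mkX_surj D x).choose * (g : G)⁻¹)

theorem conjX_mem (g : ↥(normalizer (WE 3 E : Set G))) {a : G} (ha : a ∈ Xb D) :
    (g : G) * a * (g : G)⁻¹ ∈ Xb D := (mem_normalizer_iff.1 (L_le_normalizer_X D g.2) a).1 ha

theorem conjX_mk (g : ↥(normalizer (WE 3 E : Set G))) {a : G} (ha : a ∈ Xb D) :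
    conjX D g (mkX D a) = mkX D ((g : G) * a * (g : G)⁻¹) := by
  obtain ⟨hc, hec⟩ := (mkX_surj D (mkX D a)).choose_spec
  unfold conjX
  rw [mkX_eq_iff D (conjX_mem D g hc) (conjX_mem D g ha)]
  have h := (mem_normalizer_iff.1 (L_le_normalizer_V D g.2) _).1 ((mkX_eq_iff D hc ha).1 hec)
  convert h using 1
  group

theorem conjX_mul (g h : ↥(normalizer (WE 3 E : Set G))) (x : XA D) :
    conjX D (g * h) x = conjX D g (conjX D h x) := by
  obtain ⟨a, ha, rfl⟩ := mkX_surj D x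
  rw [conjX_mk D _ ha, conjX_mk D _ ha, conjX_mk D _ (conjX_mem D h ha)]
  congr 1
  show (g : G) * h * a * ((g : G) * h)⁻¹ = _
  group

theorem conjX_one (x : XA D) : conjX D 1 x = x := by
  obtain ⟨a, ha, rfl⟩ := mkX_surj D x
  rw [conjX_mk D _ ha]
  congr 1
  show (1 : G) * a * (1 : G)⁻¹ = a
  group

theorem conjX_add (g : ↥(normalizer (WE 3 E : Set G))) (x y : XA D) :
    conjX D g (x + y) = conjX D g x + conjX D g y := by
  obtain ⟨a, ha, rfl⟩ := mkX_surj D x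
  obtain ⟨b, hb, rfl⟩ := mkX_surj D y
  rw [← mkX_mul D ha hb, conjX_mk D _ (mul_mem ha hb), conjX_mk D _ ha, conjX_mk D _ hb,
    ← mkX_mul D (conjX_mem D g ha) (conjX_mem D g hb)]
  congr 1
  group

/-- The action on the section. -/
noncomputable def actX : ↥(normalizer (WE 3 E : Set G)) →* Aut (XA D) where
  toFun g := AddEquiv.toIntLinearEquiv
    { toFun := conjX D g
      invFun := conjX D g⁻¹
      left_inv := fun x => by rw [← conjX_mul, inv_mul_cancel, conjX_one]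
      right_inv := fun x => by rw [← conjX_mul, mul_inv_cancel, conjX_one]
      map_add' := conjX_add D g }
  map_one' := LinearEquiv.ext (conjX_one D)
  map_mul' g h := LinearEquiv.ext (conjX_mul D g h)

theorem actX_mk (g : ↥(normalizer (WE 3 E : Set G))) {a : G} (ha : a ∈ Xb D) :
    actX D g (mkX D a) = mkX D ((g : G) * a * (g : G)⁻¹) := conjX_mk D g ha

theorem actX_E (e : E) : actX D ⟨e, E_le_L e.2⟩ = act (planeForm D) (D.rQ e) := by
  refine LinearEquiv.ext fun x => ?_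
  obtain ⟨c, hc, rfl⟩ := mkX_surj D x
  set g : ↥(normalizer (WE 3 E : Set G)) := ⟨e, E_le_L e.2⟩ with hg
  rw [actX_mk D g hc, act_apply]
  show _ = mkX D c + ιX D (((D.rQ e).1 - 1) *ᵥ πX D (mkX D c))
  have hπ : πX D (mkX D ((e : G) * c * (e : G)⁻¹)) = (D.rQ e).1 *ᵥ πX D (mkX D c) := by
    rw [πX_mk D (conjX_mem D g hc), πX_mk D hc, Matrix.mulVec_neg, neg_inj]
    set t := (tE D : G)
    set q₀ := t⁻¹ * ((e : G)⁻¹ * t * e) with hq₀
    have hq : q₀ ∈ Qb E := by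
      have h1 : D.rQ ((tE D)⁻¹ * (e⁻¹ * tE D * e)) = 1 := by
        have hneg : (-1 : SpecialLinearGroup (Fin 2) F)⁻¹ = -1 := inv_eq_of_mul_eq_one_right (by simp)
        rw [map_mul, map_mul, map_mul, map_inv, map_inv, rQ_tE D, hneg]
        simp
      exact (rQ_ker D _).1 h1
    rw [show ⁅(e : G) * c * (e : G)⁻¹, t⁆ = e * ⁅c, t * q₀⁆ * (e : G)⁻¹ by
      simp only [hq₀, commutatorElement_def]; group]
    have hcq : t * ⁅c, q₀⁆ * t⁻¹ ∈ Wb E := by
      refine (mem_normalizer_iff.1 (E_le_normalizer_W (tE D).2) _).1 ?_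
      rw [← commutatorElement_inv]
      exact inv_mem (comm_Q_PE D hq hc.1)
    have e2 : ⁅c, t * q₀⁆ = ⁅c, t⁆ * (t * ⁅c, q₀⁆ * t⁻¹) := by simp only [commutatorElement_def]; group
    rw [e2, D.fQ_conj e _ (mul_mem (comm_t_mem D hc) (W_le_Q hcq)), D.fQ_mul _ (comm_t_mem D hc) _ (W_le_Q hcq),
      (D.fQ_zero _ (W_le_Q hcq)).2 hcq, add_zero]
  have hd : ⁅(e : G), c⁆ ∈ Qb E := commutator_PE_le D.setting _ e.2 c hc.1
  have hmk : mkX D ((e : G) * c * (e : G)⁻¹) = mkX D c + ιX D (D.fQ ⁅(e : G), c⁆) := by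
    rw [ιX_fQ D hd, add_comm, ← mkX_mul D (Q_le_X D hd) hc]
    congr 1
    simp only [commutatorElement_def]; group
  rw [hmk]
  congr 2
  have h := hπ
  rw [hmk, map_add, show πX D (ιX D (D.fQ ⁅(e : G), c⁆)) = D.fQ ⁅(e : G), c⁆ from (planeForm D).πι _] at h
  rw [Matrix.sub_mulVec, Matrix.one_mulVec]
  exact eq_sub_of_add_eq' h

/-- The elements acting trivially on the top and bottom sections. -/
def Stab0 : Subgroup G where
  carrier := {g | g ∈ (normalizer (WE 3 E : Set G) : Subgroup G) ∧ (∀ v ∈ Vb E, ⁅g, v⁆ ∈ WE 3 E) ∧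
    ∀ y ∈ PE 3 E, ⁅g, y⁆ ∈ Xb D}
  one_mem' := ⟨one_mem _, fun v _ => by rw [commutatorElement_one_left]; exact one_mem _,
    fun v _ => by rw [commutatorElement_one_left]; exact one_mem _⟩
  mul_mem' := by
    rintro a b ⟨ha, ha1, ha2⟩ ⟨hb, hb1, hb2⟩
    exact ⟨mul_mem ha hb, fun v hv => commutator_mul_left (ha1 v hv) (hb1 v hv) ha,
      fun v hv => commutator_mul_left (ha2 v hv) (hb2 v hv) (L_le_normalizer_X D ha)⟩
  inv_mem' := by
    rintro a ⟨ha, ha1, ha2⟩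
    exact ⟨inv_mem ha, fun v hv => commutator_inv_left (ha1 v hv) ha,
      fun v hv => commutator_inv_left (ha2 v hv) (L_le_normalizer_X D ha)⟩

theorem L_le_normalizer_Stab0 : normalizer (WE 3 E : Set G) ≤ normalizer (Stab0 D : Set G) := fun g hg =>
  mem_normalizer_of_conj_mem fun a ha => by
    refine ⟨mul_mem (mul_mem hg ha.1) (inv_mem hg), fun v hv => ?_, fun v hv => ?_⟩
    · rw [show ⁅g * a * g⁻¹, v⁆ = g * ⁅a, g⁻¹ * v * g⁆ * g⁻¹ by simp only [commutatorElement_def]; group]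
      exact (mem_normalizer_iff.1 hg _).1 (ha.2.1 _ ((mem_normalizer_iff''.1 (L_le_normalizer_V D hg) v).1 hv))
    · rw [show ⁅g * a * g⁻¹, v⁆ = g * ⁅a, g⁻¹ * v * g⁆ * g⁻¹ by simp only [commutatorElement_def]; group]
      exact (mem_normalizer_iff.1 (L_le_normalizer_X D hg) _).1
        (ha.2.2 _ ((mem_normalizer_iff''.1 (L_le_normalizer_PE hg) v).1 hv))

theorem E_le_Stab0 : E ≤ Stab0 D := fun e he =>
  ⟨E_le_L he, fun v hv => comm_E_V D he hv, fun y hy => Q_le_X D (commutator_PE_le D.setting e he y hy)⟩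

/-- The centralizing part. -/
def K1 : Subgroup G := Stab0 D ⊓ centralizer (WE 3 E : Set G)

theorem actX_isom {g : ↥(normalizer (WE 3 E : Set G))} (hg : (g : G) ∈ Stab0 D) (x y : XA D) :
    (planeForm D).ω (actX D g x) (actX D g y) = (planeForm D).ω x y := by
  obtain ⟨a, ha, rfl⟩ := mkX_surj D x
  obtain ⟨b, hb, rfl⟩ := mkX_surj D y
  show ωX D _ _ = ωX D _ _
  rw [actX_mk D g ha, actX_mk D g hb, ωX_mk D (conjX_mem D g ha) (conjX_mem D g hb), ωX_mk D ha hb,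
    show ⁅(g : G) * a * (g : G)⁻¹, (g : G) * b * (g : G)⁻¹⁆ = g * ⁅a, b⁆ * (g : G)⁻¹ by
      simp only [commutatorElement_def]; group]
  exact mkM_congr ((mem_normalizer_iff.1 (L_le_normalizer_V D g.2) _).1 (comm_mem_V D ha hb.1))
    (comm_mem_V D ha hb.1) (hg.2.1 _ (comm_mem_V D ha hb.1))

end Cfsg.Agent.LAE62.BlockCent
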