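import Cfsg.Agent.LAE62.BlockCentralizer.ExcData
import Mathlib.GroupTheory.NoncommCoprod
import Mathlib.FieldTheory.Fixed
import Mathlib.FieldTheory.Finite.Basic

/-!
An offender in the Baumann subgroup acts linearly, hence quadratically, on both sections of an exceptional block.
-/

set_option autoImplicit false

open Subgroup Matrix
open scoped commutatorElement

namespace Cfsg.Agent.LAE62.BlockCent

open Baumann

variable {G : Type*} [Group G] [Finite G] [Fact (Nat.Prime 3)] {F : Type} [Field F] [Fintype F]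
variable {T : Sylow 3 G} {E : Subgroup G} (D : Exc T E F)

theorem sq_lt_three_pow : ∀ n : ℕ, n ^ 2 < 3 ^ n
  | 0 => by norm_num
  | 1 => by norm_num
  | n + 2 => by
    have h := sq_lt_three_pow (n + 1)
    have h1 : 3 ^ (n + 2) = 3 * 3 ^ (n + 1) := pow_succ' 3 (n + 1)
    nlinarith

/-- An additive map commuting with the derived group is a scalar. -/
theorem scalar_of_commute {n : ℕ} (hcard : Fintype.card F = 3 ^ n) (f : (Fin 2 → F) →+ (Fin 2 → F))
    (hf : ∀ r ∈ commutator (SpecialLinearGroup (Fin 2) F), ∀ x, f (r.1 *ᵥ x) = r.1 *ᵥ f x) :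
    ∃ c : F, ∀ x, f x = c • x := by
  obtain ⟨h3, hd⟩ := three_pow_dichotomy hcard
  have h2 := two_ne_zero_of_three h3
  have hsum : ∀ x : Fin 2 → F, x = ![x 0, 0] + ![0, x 1] := fun x => by ext i; fin_cases i <;> simp
  rcases hd with ⟨a, ha, ha4⟩ | hsmall
  · have ha1 : a * a ≠ 1 := fun e => ha4 (by linear_combination (a * a + 1) * e)
    have hu := hf _ (upU_mem_commutator ha ha1 1)
    have hl := hf _ (loU_mem_commutator ha ha1 1)
    have h10 : ∀ s, f ![s, 0] 1 = 0 := fun s => by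
      have h := hu ![s, 0]
      rw [show (upU (1 : F)).1 *ᵥ ![s, 0] = ![s, 0] by
        ext i; fin_cases i <;> simp [upU_coe, Matrix.mulVec, dotProduct, Fin.sum_univ_two]] at h
      have h0 := congrFun h 0
      simp [upU_coe, Matrix.mulVec, dotProduct, Fin.sum_univ_two] at h0
      linear_combination h0
    have h01 : ∀ s, f ![0, s] 0 = 0 := fun s => by
      have h := hl ![0, s]
      rw [show (loU (1 : F)).1 *ᵥ ![0, s] = ![0, s] by
        ext i; fin_cases i <;> simp [loU_coe, Matrix.mulVec, dotProduct, Fin.sum_univ_two]] at h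
      have h0 := congrFun h 1
      simp [loU_coe, Matrix.mulVec, dotProduct, Fin.sum_univ_two] at h0
      linear_combination h0
    have key : ∀ x s, f ![x * s, 0] 0 = x * f ![0, s] 1 := fun x s => by
      have h := congrFun (hf _ (upU_mem_commutator ha ha1 x) ![0, s]) 0
      rw [show (upU x).1 *ᵥ ![0, s] = ![x * s, 0] + ![0, s] by
        ext i; fin_cases i <;> simp [upU_coe, Matrix.mulVec, dotProduct, Fin.sum_univ_two], map_add,
        Pi.add_apply, h01 s, add_zero] at h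
      rw [h]
      simp [upU_coe, Matrix.mulVec, dotProduct, Fin.sum_univ_two, h01 s]
    refine ⟨f ![0, 1] 1, fun x => ?_⟩
    have hA : ∀ s, f ![s, 0] 0 = s * f ![0, 1] 1 := fun s => by simpa using key s 1
    have hD : ∀ s, f ![0, s] 1 = s * f ![0, 1] 1 := fun s => by
      have h := key 1 s
      rw [one_mul, one_mul, hA] at h
      exact h.symm
    conv_lhs => rw [hsum x, map_add]
    ext i
    fin_cases i <;> simp only [Pi.add_apply, Pi.smul_apply, smul_eq_mul, Fin.zero_eta, Fin.mk_one, Fin.isValue]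
    · rw [hA, h01, add_zero, mul_comm]
    · rw [h10, hD, zero_add, mul_comm]
  · have hhom : ∀ (c : F) x, f (c • x) = c • f x := fun c x => by
      rcases hsmall c with rfl | rfl | rfl <;> simp
    set A : Matrix (Fin 2) (Fin 2) F := fun i j => f (Pi.single j 1) i with hAdef
    have hA : ∀ x, f x = A *ᵥ x := fun x => by
      conv_lhs => rw [show x = x 0 • Pi.single (0 : Fin 2) (1 : F) + x 1 • Pi.single (1 : Fin 2) (1 : F) by
        ext i; fin_cases i <;> simp, map_add, hhom, hhom]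
      ext i
      simp only [hAdef, Matrix.mulVec, dotProduct, Fin.sum_univ_two, Pi.add_apply, Pi.smul_apply, smul_eq_mul]
      ring
    have hc : ∀ r ∈ commutator (SpecialLinearGroup (Fin 2) F), A * r.1 = r.1 * A := fun r hr => by
      refine Matrix.toLin'.injective (LinearMap.ext fun x => ?_)
      simp only [Matrix.toLin'_apply, ← Matrix.mulVec_mulVec, ← hA]
      exact hf r hr x
    have hsc := eq_scalar_of_comm h3 A (hc _ (rI_mem h3)) (hc _ (rJ_mem h3))
    exact ⟨A 0 0, fun x => by rw [hA]; conv_lhs => rw [hsc, Matrix.smul_mulVec, Matrix.one_mulVec]⟩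

theorem normalizer_E_le_W : normalizer (E : Set G) ≤ normalizer (Wb E : Set G) := fun g hg => by
  rw [mem_normalizer_iff_map_conj_eq]
  show (Cfsg.omegaOneCenter 3 (Qb E)).map (MulAut.conj g).toMonoidHom = _
  rw [Cfsg.omegaOneCenter, map_omegaOne (f := (MulAut.conj g).toMonoidHom) (MulAut.conj g).injective,
    Modules.map_inf_centralizer (f := (MulAut.conj g).toMonoidHom) (MulAut.conj g).injective,
    show (Qb E).map (MulAut.conj g).toMonoidHom = Qb E from
      mem_normalizer_iff_map_conj_eq.1 (LocalP.normalizer_le_normalizer_pCoreOf E hg)]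
  rfl

include D in
theorem mem_WZ {g : G} (hg : g ∈ normalizer (E : Set G)) {z : G} (hz : z ∈ Zb E) : g * z * g⁻¹ ∈ Zb E := by
  refine ⟨(mem_normalizer_iff.1 (normalizer_E_le_W hg) z).1 hz.1, mem_centralizer_iff.2 fun e he => ?_⟩
  have h := mem_centralizer_iff.1 hz.2 _ ((mem_normalizer_iff''.1 hg e).1 he)
  calc e * (g * z * g⁻¹) = g * (g⁻¹ * e * g * z) * g⁻¹ := by group
    _ = g * (z * (g⁻¹ * e * g)) * g⁻¹ := by rw [h]
    _ = g * z * g⁻¹ * e := by group

/-- The action of an element of the normalizer of the block on the lower section. -/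
noncomputable def mW (g : ↥(normalizer (E : Set G))) : (Fin 2 → F) →+ (Fin 2 → F) :=
  AddMonoidHom.mk' (fun x => D.fW ((g : G) * (D.fW_surj x).choose * (g : G)⁻¹)) fun x y => by
    obtain ⟨ha, hea⟩ := (D.fW_surj x).choose_spec
    obtain ⟨hb, heb⟩ := (D.fW_surj y).choose_spec
    obtain ⟨hc, hec⟩ := (D.fW_surj (x + y)).choose_spec
    set a := (D.fW_surj x).choose
    set b := (D.fW_surj y).choose
    set c := (D.fW_surj (x + y)).choose
    have hn := mem_normalizer_iff.1 (normalizer_E_le_W g.2)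
    have hz : (a * b)⁻¹ * c ∈ Zb E := (D.fW_zero _ (mul_mem (inv_mem (mul_mem ha hb)) hc)).1 (by
      rw [D.fW_mul _ (inv_mem (mul_mem ha hb)) _ hc, fW_inv D (mul_mem ha hb), D.fW_mul _ ha _ hb, hea, heb, hec,
        neg_add_cancel])
    have hz' := mem_WZ D g.2 hz
    rw [show (g : G) * c * (g : G)⁻¹ = ((g : G) * a * (g : G)⁻¹) * ((g : G) * b * (g : G)⁻¹) *
      ((g : G) * ((a * b)⁻¹ * c) * (g : G)⁻¹) by group,
      D.fW_mul _ (mul_mem ((hn a).1 ha) ((hn b).1 hb)) _ hz'.1, D.fW_mul _ ((hn a).1 ha) _ ((hn b).1 hb),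
      (D.fW_zero _ hz'.1).2 hz', add_zero]

theorem mW_fW (g : ↥(normalizer (E : Set G))) {w : G} (hw : w ∈ Wb E) :
    mW D g (D.fW w) = D.fW ((g : G) * w * (g : G)⁻¹) := by
  obtain ⟨hc, hec⟩ := (D.fW_surj (D.fW w)).choose_spec
  show D.fW ((g : G) * _ * (g : G)⁻¹) = _
  set c := (D.fW_surj (D.fW w)).choose
  have hn := mem_normalizer_iff.1 (normalizer_E_le_W g.2)
  have hz : w⁻¹ * c ∈ Zb E := (D.fW_zero _ (mul_mem (inv_mem hw) hc)).1 (by
    rw [D.fW_mul _ (inv_mem hw) _ hc, fW_inv D hw, hec, neg_add_cancel])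
  have hz' := mem_WZ D g.2 hz
  rw [show (g : G) * c * (g : G)⁻¹ = ((g : G) * w * (g : G)⁻¹) * ((g : G) * (w⁻¹ * c) * (g : G)⁻¹) by group,
    D.fW_mul _ ((hn w).1 hw) _ hz'.1, (D.fW_zero _ hz'.1).2 hz', add_zero]

theorem mW_mul (g h : ↥(normalizer (E : Set G))) (x : Fin 2 → F) : mW D (g * h) x = mW D g (mW D h x) := by
  obtain ⟨w, hw, rfl⟩ := D.fW_surj x
  rw [mW_fW D _ hw, mW_fW D _ hw, mW_fW D _ ((mem_normalizer_iff.1 (normalizer_E_le_W h.2) w).1 hw)]
  congr 1
  show (g : G) * h * w * ((g : G) * h)⁻¹ = _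
  group

theorem mW_one (x : Fin 2 → F) : mW D 1 x = x := by
  obtain ⟨w, hw, rfl⟩ := D.fW_surj x
  rw [mW_fW D _ hw]
  congr 1
  show (1 : G) * w * (1 : G)⁻¹ = w
  group

theorem mW_E (e : E) (x : Fin 2 → F) :
    mW D ⟨e, le_normalizer e.2⟩ x = (D.rW e).1 *ᵥ x := by
  obtain ⟨w, hw, rfl⟩ := D.fW_surj x
  rw [mW_fW D _ hw]
  exact D.fW_conj e w hw

/-- The conjugate of an element of the block. -/
def conjE (g : ↥(normalizer (E : Set G))) (e : E) : E :=
  ⟨(g : G) * e * (g : G)⁻¹, (mem_normalizer_iff.1 g.2 e).1 e.2⟩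

theorem mW_rW (g : ↥(normalizer (E : Set G))) (e : E) (x : Fin 2 → F) :
    mW D g ((D.rW e).1 *ᵥ x) = (D.rW (conjE g e)).1 *ᵥ mW D g x := by
  rw [← mW_E, ← mW_E, ← mW_mul, ← mW_mul]
  congr 2
  apply Subtype.ext
  show (g : G) * e = (g : G) * e * (g : G)⁻¹ * g
  group

theorem mW_scalar (g : ↥(normalizer (E : Set G))) :
    ∃ σ : F →+* F, ∀ (c : F) x, mW D g (c • x) = σ c • mW D g x := by
  have hinv : ∀ x, mW D g (mW D g⁻¹ x) = x := fun x => by rw [← mW_mul, mul_inv_cancel, mW_one]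
  have hinv' : ∀ x, mW D g⁻¹ (mW D g x) = x := fun x => by rw [← mW_mul, inv_mul_cancel, mW_one]
  have h : ∀ c : F, ∃ d : F, ∀ x, mW D g (c • x) = d • mW D g x := by
    intro c
    let f : (Fin 2 → F) →+ (Fin 2 → F) := AddMonoidHom.mk' (fun x => mW D g (c • mW D g⁻¹ x)) fun x y => by
      rw [map_add, smul_add, map_add]
    obtain ⟨d, hd⟩ := scalar_of_commute D.card f fun r hr x => by
      rw [← D.rW_range] at hr
      obtain ⟨e, rfl⟩ := hr
      show mW D g (c • mW D g⁻¹ ((D.rW e).1 *ᵥ x)) = (D.rW e).1 *ᵥ mW D g (c • mW D g⁻¹ x)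
      rw [mW_rW, ← Matrix.mulVec_smul, mW_rW]
      congr 3
      apply Subtype.ext
      show (g : G) * ((g⁻¹ : ↥(normalizer (E : Set G))) * (e : G) * (g⁻¹ : ↥(normalizer (E : Set G))).1⁻¹) *
        (g : G)⁻¹ = e
      simp only [InvMemClass.coe_inv]
      group
    exact ⟨d, fun x => by rw [← hd (mW D g x)]; show _ = mW D g (c • mW D g⁻¹ (mW D g x)); rw [hinv']⟩
  choose σ hσ using h
  set u := mW D g ![1, 0] with hu
  have hune : u ≠ 0 := fun e => by
    have := hinv' ![1, 0]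
    rw [← hu, e, map_zero] at this
    simpa using congrFun this 0
  have inj : ∀ a b : F, a • u = b • u → a = b := fun a b e => smul_left_injective F hune e
  refine ⟨{ toFun := σ, map_one' := ?_, map_mul' := ?_, map_zero' := ?_, map_add' := ?_ }, hσ⟩
  · exact inj _ _ (by rw [hu, ← hσ, one_smul, one_smul])
  · intro a b; exact inj _ _ (by rw [hu, ← hσ, mul_smul, hσ, hσ, mul_smul])
  · exact inj _ _ (by rw [hu, ← hσ, zero_smul, zero_smul, map_zero])
  · intro a b; exact inj _ _ (by rw [hu, ← hσ, add_smul, map_add, hσ, hσ, add_smul])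

theorem WE_eq_of_fW {w w' : G} (hw : w ∈ WE 3 E) (hw' : w' ∈ WE 3 E) (h : D.fW w = D.fW w') : w = w' := by
  have hW := WE_le_W hw
  have hW' := WE_le_W hw'
  have hz : w⁻¹ * w' ∈ Zb E := (D.fW_zero _ (mul_mem (inv_mem hW) hW')).1 (by
    rw [D.fW_mul _ (inv_mem hW) _ hW', fW_inv D hW, h, neg_add_cancel])
  exact inv_mul_eq_one.1 (WE_inf_Z D (mul_mem (inv_mem hw) hw') hz.2)

include D in
theorem card_WE : Nat.card ↥(WE 3 E) = Fintype.card F ^ 2 := by
  have hbij : Function.Bijective fun w : ↥(WE 3 E) => D.fW w := by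
    refine ⟨fun a b h => Subtype.ext (WE_eq_of_fW D a.2 b.2 h), fun x => ?_⟩
    obtain ⟨w, hw, rfl⟩ := D.fW_surj x
    obtain ⟨y, hy, hz⟩ := exists_WE_div D hw
    refine ⟨⟨y, hy⟩, ?_⟩
    have e := D.fW_mul _ (WE_le_W hy) _ hz.1
    rw [mul_inv_cancel_left, (D.fW_zero _ hz.1).2 hz, add_zero] at e
    exact e.symm
  rw [Nat.card_eq_of_bijective _ hbij, Nat.card_eq_fintype_card, Fintype.card_fun, Fintype.card_fin]

/-- Some offender acts linearly. -/
theorem exists_linear_offender (D : Exc T E F) : ∃ (a : G) (ha : a ∈ normalizer (E : Set G)),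
    a ∈ Cfsg.baumannSubgroupOf 3 (T : Subgroup G) ∧ a ∉ centralizer (WE 3 E : Set G) ∧ a ^ 3 = 1 ∧
      ∀ (c : F) x, mW D ⟨a, ha⟩ (c • x) = c • mW D ⟨a, ha⟩ x := by
  classical
  have hJ := (commutator_module D.setting.char T D.setting.block).2.2
  obtain ⟨A, hA, hAC⟩ : ∃ A, A ∈ Modules.maxElemAbIn 3 (T : Subgroup G) ∧ ¬ A ≤ centralizer (WE 3 E : Set G) := by
    by_contra hall
    push Not at hall
    refine hJ (commutator_eq_bot_iff_le_centralizer.2 (le_centralizer_iff.1 ?_))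
    rw [Modules.thompsonSubgroupOf_eq_sSup]
    exact sSup_le hall
  have hAB : A ≤ Cfsg.baumannSubgroupOf 3 (T : Subgroup G) :=
    (Modules.le_thompsonSubgroupOf hA).trans (thompson_le_baumann _)
  have hAN : A ≤ normalizer (E : Set G) := hAB.trans (B_le_normalizer D.setting)
  obtain ⟨a₀, ha₀, ha₀C⟩ := SetLike.not_le_iff_exists.1 hAC
  by_contra hnone
  push Not at hnone
  let m : A → ↥(normalizer (E : Set G)) := fun a => ⟨a, hAN a.2⟩
  choose σ hσ using fun a : A => mW_scalar D (m a)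
  haveI : CharP F 3 := (CharP.charP_iff_prime_eq_zero Nat.prime_three).2 (by exact_mod_cast three_zero D)
  letI : Algebra (ZMod 3) F := ZMod.algebra F 3
  let τ : A → F ≃ₐ[ZMod 3] F := fun a => AlgEquiv.ofBijective
    { σ a with commutes' := fun r => DFunLike.congr_fun (RingHom.ext_zmod ((σ a).comp (algebraMap (ZMod 3) F))
        (algebraMap (ZMod 3) F)) r }
    (Finite.injective_iff_bijective.1 (σ a).injective)
  set A₀ := (centralizer (WE 3 E : Set G)).subgroupOf A with hA₀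
  have hτ : ∀ a b : A, τ a = τ b → a⁻¹ * b ∈ A₀ := by
    intro a b e
    by_contra hn
    obtain ⟨c, x, hcx⟩ := hnone _ (hAN (a⁻¹ * b).2) (hAB (a⁻¹ * b).2) hn (hA.2.1.2 _ (a⁻¹ * b).2)
    apply hcx
    show mW D (m (a⁻¹ * b)) (c • x) = c • mW D (m (a⁻¹ * b)) x
    have hmm : m (a⁻¹ * b) = (m a)⁻¹ * m b := rfl
    have hinva : ∀ y, mW D (m a)⁻¹ (mW D (m a) y) = y := fun y => by rw [← mW_mul, inv_mul_cancel, mW_one]
    have hσe : σ a c = σ b c := DFunLike.congr_fun e c
    rw [hmm, mW_mul, mW_mul, hσ b, ← hσe]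
    conv_rhs => rw [← hinva (c • mW D (m a)⁻¹ (mW D (m b) x))]
    rw [hσ a, ← mW_mul, ← mW_mul, mul_inv_cancel, one_mul]
  have hindex : A₀.index ≤ D.n := by
    have hfin : Module.finrank (ZMod 3) F = D.n := by
      have h := Module.card_eq_pow_finrank (K := ZMod 3) (V := F)
      rw [D.card, ZMod.card] at h
      exact (Nat.pow_right_injective (by norm_num) h).symm
    have hinj : Function.Injective fun q : A ⧸ A₀ => τ q.out := fun q q' e => by
      rw [← q.out_eq', ← q'.out_eq']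
      exact QuotientGroup.eq.2 (hτ _ _ e)
    calc A₀.index = Nat.card (A ⧸ A₀) := rfl
      _ ≤ Nat.card (F ≃ₐ[ZMod 3] F) := Nat.card_le_card_of_injective _ hinj
      _ ≤ D.n := by rw [Nat.card_eq_fintype_card, ← hfin]; exact AlgEquiv.card_le
  -- the fixed points of a fixed element outside
  set f := mW D (m ⟨a₀, ha₀⟩) with hf
  obtain ⟨c₀, hc₀⟩ : ∃ c₀ : F, σ ⟨a₀, ha₀⟩ c₀ ≠ c₀ := by
    by_contra hall
    push Not at hall
    obtain ⟨c, x, hcx⟩ := hnone a₀ (hAN ha₀) (hAB ha₀) ha₀C (hA.2.1.2 _ ha₀)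
    exact hcx (by
      show f (c • x) = c • f x
      rw [hf, hσ, hall])
  let C : AddSubgroup (Fin 2 → F) := (f - AddMonoidHom.id _).ker
  have hC : ∀ x, x ∈ C ↔ f x = x := fun x => by
    show f x - x = 0 ↔ _
    exact sub_eq_zero
  let K : AddSubgroup F := ((σ ⟨a₀, ha₀⟩).toAddMonoidHom - AddMonoidHom.id F).ker
  have hK : ∀ x, x ∈ K ↔ σ ⟨a₀, ha₀⟩ x = x := fun x => by
    show σ ⟨a₀, ha₀⟩ x - x = 0 ↔ _
    exact sub_eq_zero
  have hKsq : Nat.card K * Nat.card K ≤ Fintype.card F := by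
    rw [← Nat.card_prod, ← Nat.card_eq_fintype_card]
    refine Nat.card_le_card_of_injective (fun p : K × K => (p.1 : F) + p.2 * c₀) fun p q e => ?_
    have e' := congrArg (σ ⟨a₀, ha₀⟩) e
    simp only [map_add, map_mul, (hK _).1 p.1.2, (hK _).1 p.2.2, (hK _).1 q.1.2, (hK _).1 q.2.2] at e e'
    have h2 : ((p.2 : F) - q.2) * (σ ⟨a₀, ha₀⟩ c₀ - c₀) = 0 := by linear_combination e' - e
    have h3 : (p.2 : F) = q.2 := sub_eq_zero.1 ((mul_eq_zero.1 h2).resolve_right (sub_ne_zero.2 hc₀))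
    refine Prod.ext (Subtype.ext ?_) (Subtype.ext h3)
    rw [h3] at e
    exact add_right_cancel e
  set q := Fintype.card F with hq
  -- the module is almost contained in the offender
  have hWT : WE 3 E ≤ (T : Subgroup G) := (WE_le_pCore D.setting).trans (Cores.pCore_le_sylow T)
  have hqm : q ^ 2 ≤ A₀.index * Nat.card C := by
    set A' := A ⊓ centralizer (WE 3 E : Set G) with hA'
    have hcomm : ∀ (x : A') (y : ↥(WE 3 E)), Commute (A'.subtype x) ((WE 3 E).subtype y) := fun x y =>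
      (mem_centralizer_iff.1 x.2.2 y y.2).symm
    let φ := MonoidHom.noncommCoprod A'.subtype (WE 3 E).subtype hcomm
    have hAS : IsElementaryAbelian 3 (A' ⊔ WE 3 E) :=
      Modules.elemAb_sup (Modules.elemAb_mono inf_le_left hA.2.1)
        ⟨le_centralizer_iff_isMulCommutative.1 fun x hx => mem_centralizer_iff.2 fun y hy =>
          W_comm_Q (WE_le_W hx) (W_le_Q (WE_le_W hy)), fun x hx => W_pow D (WE_le_W hx)⟩
        (le_centralizer_iff.1 inf_le_right)
    have hrange : φ.range ≤ A' ⊔ WE 3 E := by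
      rintro _ ⟨⟨x, y⟩, rfl⟩
      exact mul_mem (mem_sup_left x.2) (mem_sup_right y.2)
    have h1 : Nat.card φ.range ≤ Nat.card A :=
      (card_le_of_le hrange).trans (hA.2.2 _ (sup_le (inf_le_left.trans hA.1) hWT) hAS)
    have h2 : Nat.card φ.ker ≤ Nat.card C := by
      have hmem : ∀ k : φ.ker, (k.1.1 : G) ∈ WE 3 E := fun k => by
        have h : (k.1.1 : G) * (k.1.2 : G) = 1 := k.2
        rw [mul_eq_one_iff_eq_inv] at h
        rw [h]; exact inv_mem k.1.2.2
      refine Nat.card_le_card_of_injective (fun k => (⟨D.fW (k.1.1 : G), (hC _).2 ?_⟩ : C)) fun k k' e => ?_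
      · rw [hf, mW_fW D _ (WE_le_W (hmem k))]
        congr 1
        show a₀ * (k.1.1 : G) * a₀⁻¹ = k.1.1
        haveI := hA.2.1.1
        rw [show a₀ * (k.1.1 : G) = (k.1.1 : G) * a₀ from
          congrArg Subtype.val (mul_comm' (⟨a₀, ha₀⟩ : A) ⟨k.1.1, k.1.1.2.1⟩), mul_inv_cancel_right]
      · have e1 := WE_eq_of_fW D (hmem k) (hmem k') (congrArg Subtype.val e)
        have h : (k.1.1 : G) * (k.1.2 : G) = 1 := k.2
        have h' : (k'.1.1 : G) * (k'.1.2 : G) = 1 := k'.2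
        refine Subtype.ext (Prod.ext (Subtype.ext e1) (Subtype.ext ?_))
        rw [← e1] at h'
        exact mul_left_cancel (h.trans h'.symm)
    have h3 : Nat.card A' * q ^ 2 = Nat.card φ.range * Nat.card φ.ker := by
      rw [← card_WE D, ← Nat.card_prod, ← Subgroup.index_ker φ, Subgroup.index_mul_card]
    have h4 : Nat.card A = Nat.card A' * A₀.index := by
      rw [← Subgroup.card_mul_index A₀]
      congr 1
      have e : A₀ = A'.subgroupOf A := by
        ext x; exact ⟨fun h => ⟨x.2, h⟩, fun h => h.2⟩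
      rw [e]
      exact Nat.card_congr (subgroupOfEquivOfLe inf_le_left).toEquiv
    have h5 : Nat.card A' * q ^ 2 ≤ Nat.card A' * (A₀.index * Nat.card C) := by
      rw [h3, ← mul_assoc, ← h4]
      exact Nat.mul_le_mul h1 h2
    exact Nat.le_of_mul_le_mul_left h5 Nat.card_pos
  have hq1 : q = 3 ^ D.n := D.card
  have hnlt := sq_lt_three_pow D.n
  by_cases hbot : C = ⊥
  · rw [hbot, AddSubgroup.card_bot, mul_one] at hqm
    have hn : D.n ≤ D.n ^ 2 := Nat.le_self_pow two_ne_zero _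
    have : q ≤ q ^ 2 := Nat.le_self_pow two_ne_zero _
    omega
  obtain ⟨w, hw, hw0⟩ := (AddSubgroup.bot_or_exists_ne_zero C).resolve_left hbot
  let ψ : F × C →+ (Fin 2 → F) := AddMonoidHom.mk' (fun p => p.1 • w + (p.2 : Fin 2 → F)) fun p p' => by
    simp only [Prod.fst_add, Prod.snd_add, add_smul, AddSubgroup.coe_add]; abel
  have hψ : q * Nat.card C ≤ q ^ 2 * Nat.card K := by
    have h1 : Nat.card ψ.ker ≤ Nat.card K := by
      refine Nat.card_le_card_of_injective (fun p => (⟨p.1.1, (hK _).2 ?_⟩ : K)) fun p p' e => ?_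
      · have hp : p.1.1 • w + (p.1.2 : Fin 2 → F) = 0 := p.2
        have hm : p.1.1 • w ∈ C := by
          rw [eq_neg_of_add_eq_zero_left hp]; exact neg_mem p.1.2.2
        rw [hC, hf, hσ, ← hf, (hC w).1 hw] at hm
        exact smul_left_injective F hw0 hm
      · have e1 : p.1.1 = p'.1.1 := congrArg Subtype.val e
        refine Subtype.ext (Prod.ext e1 (Subtype.ext ?_))
        have h : p.1.1 • w + (p.1.2 : Fin 2 → F) = 0 := p.2
        have h' : p'.1.1 • w + (p'.1.2 : Fin 2 → F) = 0 := p'.2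
        rw [← e1] at h'
        exact add_left_cancel (h.trans h'.symm)
    have h2 : Nat.card ψ.range ≤ q ^ 2 := by
      refine (Nat.card_le_card_of_injective _ Subtype.val_injective).trans ?_
      rw [Nat.card_eq_fintype_card, Fintype.card_fun, Fintype.card_fin]
    calc q * Nat.card C = Nat.card (F × C) := by rw [Nat.card_prod, Nat.card_eq_fintype_card (α := F)]
      _ = Nat.card ψ.range * Nat.card ψ.ker := by rw [← AddSubgroup.index_ker, AddSubgroup.index_mul_card]
      _ ≤ q ^ 2 * Nat.card K := Nat.mul_le_mul h2 h1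
  have hqpos : 0 < q := Fintype.card_pos
  have hle1 : q ≤ A₀.index * Nat.card K := by
    refine Nat.le_of_mul_le_mul_left ?_ (show 0 < q ^ 2 from pow_pos hqpos 2)
    calc q ^ 2 * q = q * q ^ 2 := mul_comm _ _
      _ ≤ q * (A₀.index * Nat.card C) := Nat.mul_le_mul_left _ hqm
      _ = A₀.index * (q * Nat.card C) := by ring
      _ ≤ A₀.index * (q ^ 2 * Nat.card K) := Nat.mul_le_mul_left _ hψ
      _ = q ^ 2 * (A₀.index * Nat.card K) := by ring
  have hle2 : q ≤ D.n * D.n := by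
    refine Nat.le_of_mul_le_mul_left (a := q) ?_ hqpos
    calc q * q ≤ (D.n * Nat.card K) * (D.n * Nat.card K) :=
          Nat.mul_le_mul (hle1.trans (Nat.mul_le_mul_right _ hindex)) (hle1.trans (Nat.mul_le_mul_right _ hindex))
      _ = D.n * D.n * (Nat.card K * Nat.card K) := by ring
      _ ≤ D.n * D.n * q := Nat.mul_le_mul_left _ hKsq
      _ = q * (D.n * D.n) := by ring
  rw [pow_two] at hnlt
  omega

theorem matrix_sq_zero (h3 : (3 : F) = 0) {M : Matrix (Fin 2) (Fin 2) F} (hM : M ^ 3 = 1) :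
    (M - 1) * (M - 1) = 0 ∧ M.det = 1 := by
  have hdet : M.det = 1 := by
    have h := congrArg Matrix.det hM
    rw [Matrix.det_pow, Matrix.det_one] at h
    refine sub_eq_zero.1 (eq_zero_of_pow_eq_zero (n := 3) ?_)
    linear_combination h + (M.det - M.det ^ 2) * h3
  refine ⟨?_, hdet⟩
  set N := M - 1 with hN
  have hY : ∀ Y : Matrix (Fin 2) (Fin 2) F, Y + Y + Y = 0 := fun Y => by
    ext i j; simp only [Matrix.add_apply, Matrix.zero_apply]; linear_combination Y i j * h3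
  have hN3 : N * N * N = 0 := by
    calc N * N * N = M * M * M - (M * M + M * M + M * M) + (M + M + M) - 1 := by
          rw [hN]; simp only [Matrix.sub_mul, Matrix.mul_sub, Matrix.one_mul, Matrix.mul_one]; abel
      _ = 0 := by rw [hY, hY, show M * M * M = M ^ 3 by rw [pow_succ, pow_two], hM, sub_zero, add_zero, sub_self]
  have hd : N.det = 0 := by
    have h := congrArg Matrix.det hN3
    rw [Matrix.det_mul, Matrix.det_mul, Matrix.det_zero] at h
    exact eq_zero_of_pow_eq_zero (n := 3) (by rw [pow_succ, pow_two]; exact h)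
  have hch : N * N = N.trace • N := by
    rw [Matrix.det_fin_two] at hd
    ext i j
    fin_cases i <;> fin_cases j <;> simp [Matrix.mul_apply, Fin.sum_univ_two, Matrix.trace_fin_two] <;>
      first | linear_combination hd | linear_combination -hd | ring
  rw [hch] at hN3 ⊢
  rw [Matrix.smul_mul, hch, smul_smul, smul_eq_zero] at hN3
  rcases hN3 with e | e
  · rw [(mul_self_eq_zero.1 e), zero_smul]
  · rw [e, smul_zero]

/-- Powers of a quadratic element act quadratically. -/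
theorem quad_comm {U : Subgroup G} {f : G → Fin 2 → F} (hmul : ∀ a ∈ U, ∀ b ∈ U, f (a * b) = f a + f b)
    {b : G} (hb : b ∈ normalizer (U : Set G)) {M : Matrix (Fin 2) (Fin 2) F}
    (hconj : ∀ u ∈ U, f (b * u * b⁻¹) = M *ᵥ f u) (hM : (M - 1) * (M - 1) = 0) {b₁ b₂ : G}
    (h₁ : b₁ ∈ zpowers b) (h₂ : b₂ ∈ zpowers b) {u : G} (hu : u ∈ U) :
    ⁅⁅u, b₁⁆, b₂⁆ ∈ U ∧ f ⁅⁅u, b₁⁆, b₂⁆ = 0 := by
  have hpow : ∀ k : ℕ, M ^ k = 1 + (k : F) • (M - 1) := fun k => by
    induction k with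
    | zero => simp
    | succ k ih =>
      rw [pow_succ, ih, Nat.cast_succ, add_smul, one_smul]
      have : (M - 1) * M = M - 1 := by
        rw [← sub_eq_zero, ← hM]; simp only [Matrix.mul_sub, Matrix.mul_one]
      rw [Matrix.add_mul, Matrix.one_mul, Matrix.smul_mul, this]
      abel
  have hact : ∀ k : ℕ, ∀ u ∈ U, f (b ^ k * u * (b ^ k)⁻¹) = (M ^ k) *ᵥ f u := fun k => by
    induction k with
    | zero => intro u hu; simp
    | succ k ih =>
      intro u hu
      rw [show b ^ (k + 1) * u * (b ^ (k + 1))⁻¹ = b * (b ^ k * u * (b ^ k)⁻¹) * b⁻¹ by rw [pow_succ']; group,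
        hconj _ ((mem_normalizer_iff.1 (pow_mem hb k) u).1 hu), ih u hu, Matrix.mulVec_mulVec, ← pow_succ']
  have hone : f 1 = 0 := by
    have h := hmul 1 U.one_mem 1 U.one_mem
    rw [mul_one] at h
    exact left_eq_add.1 h
  have hinv : ∀ a ∈ U, f a⁻¹ = -f a := fun a ha => by
    have h := hmul a ha a⁻¹ (inv_mem ha)
    rw [mul_inv_cancel, hone] at h
    exact eq_neg_of_add_eq_zero_right h.symm
  have hcomm : ∀ k : ℕ, ∀ u ∈ U, ⁅u, b ^ k⁆ ∈ U ∧ f ⁅u, b ^ k⁆ = -((k : F) • ((M - 1) *ᵥ f u)) := by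
    intro k u hu
    have h1 : b ^ k * u⁻¹ * (b ^ k)⁻¹ ∈ U := (mem_normalizer_iff.1 (pow_mem hb k) _).1 (inv_mem hu)
    rw [show ⁅u, b ^ k⁆ = u * (b ^ k * u⁻¹ * (b ^ k)⁻¹) by simp only [commutatorElement_def]; group]
    refine ⟨mul_mem hu h1, ?_⟩
    rw [hmul _ hu _ h1, hact k _ (inv_mem hu), hinv _ hu, hpow, Matrix.add_mulVec, Matrix.one_mulVec,
      Matrix.mulVec_neg, Matrix.smul_mulVec]
    abel
  obtain ⟨i, rfl⟩ := (isOfFinOrder_of_finite b).mem_powers_iff_mem_zpowers.2 h₁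
  obtain ⟨j, rfl⟩ := (isOfFinOrder_of_finite b).mem_powers_iff_mem_zpowers.2 h₂
  obtain ⟨h1, h1'⟩ := hcomm i u hu
  obtain ⟨h2, h2'⟩ := hcomm j _ h1
  refine ⟨h2, ?_⟩
  rw [h2', h1', Matrix.mulVec_neg, Matrix.mulVec_smul, Matrix.mulVec_mulVec, hM, Matrix.zero_mulVec, smul_zero,
    neg_zero, smul_zero, neg_zero]

/-- Some element of the Baumann subgroup acts quadratically on both sections. -/
theorem exists_quadratic (D : Exc T E F) : ∃ b ∈ Cfsg.baumannSubgroupOf 3 (T : Subgroup G),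
    b ∉ centralizer (WE 3 E : Set G) ∧ ∀ b₁ ∈ zpowers b, ∀ b₂ ∈ zpowers b,
      (∀ w ∈ WE 3 E, ⁅⁅w, b₁⁆, b₂⁆ = 1) ∧ ∀ x ∈ Qb E, ⁅⁅x, b₁⁆, b₂⁆ ∈ Wb E := by
  obtain ⟨a, ha, haB, haC, ha3, hlin⟩ := exists_linear_offender D
  refine ⟨a, haB, haC, ?_⟩
  have h3 := three_zero D
  set g : ↥(normalizer (E : Set G)) := ⟨a, ha⟩ with hg
  have hmat : ∀ (f : (Fin 2 → F) →+ (Fin 2 → F)), (∀ (c : F) x, f (c • x) = c • f x) →
      ∃ M : Matrix (Fin 2) (Fin 2) F, ∀ x, f x = M *ᵥ x := fun f hf =>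
    ⟨LinearMap.toMatrix' { toFun := f, map_add' := map_add f, map_smul' := hf }, fun x => by
      rw [LinearMap.toMatrix'_mulVec]; rfl⟩
  obtain ⟨M, hM⟩ := hmat _ hlin
  have hcube : ∀ (f : (Fin 2 → F) →+ (Fin 2 → F)) (A : Matrix (Fin 2) (Fin 2) F), (∀ x, f x = A *ᵥ x) →
      (∀ x, f (f (f x)) = x) → A ^ 3 = 1 := fun f A hA h => by
    refine Matrix.toLin'.injective (LinearMap.ext fun x => ?_)
    rw [Matrix.toLin'_apply, Matrix.toLin'_apply, Matrix.one_mulVec, pow_succ, pow_two, ← Matrix.mulVec_mulVec,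
      ← Matrix.mulVec_mulVec, ← hA, ← hA, ← hA, h]
  have hg3 : g * (g * g) = 1 := Subtype.ext (by
    show a * (a * a) = 1
    rw [← ha3, pow_succ, pow_two, mul_assoc])
  have hM3 : M ^ 3 = 1 := hcube _ M hM fun x => by rw [← mW_mul, ← mW_mul, mul_assoc, hg3, mW_one]
  obtain ⟨hMsq, hMdet⟩ := matrix_sq_zero h3 hM3
  -- linearity on the upper section
  have hnQ : a ∈ normalizer (Qb E : Set G) := LocalP.normalizer_le_normalizer_pCoreOf E ha
  have hN : ∀ (h : ↥(normalizer (E : Set G))), ∃ f : (Fin 2 → F) →+ (Fin 2 → F),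
      ∀ x ∈ Qb E, f (D.fQ x) = D.fQ ((h : G) * x * (h : G)⁻¹) := by
    intro h
    have hn := mem_normalizer_iff.1 (LocalP.normalizer_le_normalizer_pCoreOf (p := 3) E h.2)
    have hwd : ∀ x ∈ Qb E, ∀ y ∈ Qb E, D.fQ x = D.fQ y →
        D.fQ ((h : G) * x * (h : G)⁻¹) = D.fQ ((h : G) * y * (h : G)⁻¹) := fun x hx y hy e => by
      have hz : x⁻¹ * y ∈ Wb E := (D.fQ_zero _ (mul_mem (inv_mem hx) hy)).1 (by
        rw [D.fQ_mul _ (inv_mem hx) _ hy, fQ_inv D hx, e, neg_add_cancel])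
      have hz' := (mem_normalizer_iff.1 (normalizer_E_le_W h.2) _).1 hz
      conv_rhs => rw [show (h : G) * y * (h : G)⁻¹ = (h : G) * x * (h : G)⁻¹ * ((h : G) * (x⁻¹ * y) * (h : G)⁻¹) by group]
      rw [D.fQ_mul _ ((hn x).1 hx) _ (W_le_Q hz'), (D.fQ_zero _ (W_le_Q hz')).2 hz', add_zero]
    refine ⟨AddMonoidHom.mk' (fun v => D.fQ ((h : G) * (D.fQ_surj v).choose * (h : G)⁻¹)) fun u v => ?_,
      fun x hx => hwd _ (D.fQ_surj (D.fQ x)).choose_spec.1 x hx (D.fQ_surj (D.fQ x)).choose_spec.2⟩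
    obtain ⟨hu, hue⟩ := (D.fQ_surj u).choose_spec
    obtain ⟨hv, hve⟩ := (D.fQ_surj v).choose_spec
    obtain ⟨hw, hwe⟩ := (D.fQ_surj (u + v)).choose_spec
    rw [← D.fQ_mul _ ((hn _).1 hu) _ ((hn _).1 hv), hwd _ hw _ (mul_mem hu hv) (by rw [D.fQ_mul _ hu _ hv, hue, hve, hwe])]
    congr 1
    group
  choose mq hmq using hN
  have hmq_mul : ∀ g h x, mq (g * h) x = mq g (mq h x) := fun g h x => by
    obtain ⟨y, hy, rfl⟩ := D.fQ_surj x
    rw [hmq _ y hy, hmq _ y hy,
      hmq _ _ ((mem_normalizer_iff.1 (LocalP.normalizer_le_normalizer_pCoreOf (p := 3) E h.2) y).1 hy)]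
    congr 1
    show (g : G) * h * y * ((g : G) * h)⁻¹ = _
    group
  have hmq_one : ∀ x, mq 1 x = x := fun x => by
    obtain ⟨y, hy, rfl⟩ := D.fQ_surj x
    rw [hmq _ y hy]; congr 1
    show (1 : G) * y * (1 : G)⁻¹ = y
    group
  have hmq_E : ∀ (e : E) x, mq ⟨e, le_normalizer e.2⟩ x = (D.rQ e).1 *ᵥ x := fun e x => by
    obtain ⟨y, hy, rfl⟩ := D.fQ_surj x
    rw [hmq _ y hy]; exact D.fQ_conj e y hy
  have hlinQ : ∀ (c : F) x, mq g (c • x) = c • mq g x := by
    rcases (three_pow_dichotomy D.card).2 with ⟨r, hr, hr4⟩ | hsmall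
    swap
    · intro c x; rcases hsmall c with rfl | rfl | rfl <;> simp
    have hr1 : r * r ≠ 1 := fun e => hr4 (by linear_combination (r * r + 1) * e)
    -- the whole special linear group is the derived group
    have hall : ∀ u : SpecialLinearGroup (Fin 2) F, u ∈ commutator (SpecialLinearGroup (Fin 2) F) := by
      have h1 : ∀ u : SpecialLinearGroup (Fin 2) F, u.1 1 0 ≠ 0 →
          u ∈ commutator (SpecialLinearGroup (Fin 2) F) := fun u hu => by
        have hd := det_eq_one u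
        have e : u = upU ((u.1 0 0 - 1) / u.1 1 0) * loU (u.1 1 0) * upU ((u.1 1 1 - 1) / u.1 1 0) := by
          apply Subtype.ext
          change u.1 = !![1, (u.1 0 0 - 1) / u.1 1 0; 0, 1] * !![1, 0; u.1 1 0, 1] *
            !![1, (u.1 1 1 - 1) / u.1 1 0; 0, 1]
          ext i j
          fin_cases i <;> fin_cases j <;> simp [Matrix.mul_apply, Fin.sum_univ_two] <;> field_simp <;>
            first | ring1 | linear_combination hd | linear_combination -hd
        rw [e]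
        exact mul_mem (mul_mem (upU_mem_commutator hr hr1 _) (loU_mem_commutator hr hr1 _))
          (upU_mem_commutator hr hr1 _)
      intro u
      by_cases hu : u.1 1 0 = 0
      · have h2 : (loU (1 : F) * u).1 1 0 ≠ 0 := by
          simp [SpecialLinearGroup.coe_mul, loU_coe, Matrix.mul_apply, Fin.sum_univ_two, hu]
          intro e
          have hd := det_eq_one u
          rw [e, hu, zero_mul, mul_zero, sub_zero] at hd
          exact zero_ne_one hd
        have h3 := mul_mem (inv_mem (loU_mem_commutator hr hr1 (1 : F))) (h1 _ h2)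
        rwa [inv_mul_cancel_left] at h3
      · exact h1 u hu
    obtain ⟨e, he⟩ : (⟨M, hMdet⟩ : SpecialLinearGroup (Fin 2) F) ∈ D.rW.range := by
      rw [D.rW_range]; exact hall _
    set e' : ↥(normalizer (E : Set G)) := ⟨e, le_normalizer e.2⟩ with he'
    set d := e'⁻¹ * g with hd
    have hdW : ∀ x, mW D d x = x := fun x => by
      have h1 : mW D e' (mW D d x) = mW D e' x := by
        rw [← mW_mul, hd, mul_inv_cancel_left, hM, mW_E, he]
      have h2 := congrArg (mW D e'⁻¹) h1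
      rwa [← mW_mul, ← mW_mul, ← mW_mul, inv_mul_cancel, one_mul, mW_one] at h2
    have hdR : ∀ f : E, D.rQ (conjE d f) = D.rQ f := fun f => by
      have h1 : D.rW (conjE d f) = D.rW f := Subtype.ext (Matrix.toLin'.injective (LinearMap.ext fun x => by
        rw [Matrix.toLin'_apply, Matrix.toLin'_apply]
        have := mW_rW D d f x
        rw [hdW, hdW] at this
        exact this.symm))
      rw [← mul_inv_eq_one, ← map_inv, ← map_mul, rQ_ker D, ← rW_ker D, map_mul, map_inv, h1, mul_inv_cancel]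
    obtain ⟨s, hs⟩ := scalar_of_commute D.card (mq d) fun r hr x => by
      rw [← D.rQ_range] at hr
      obtain ⟨f, rfl⟩ := hr
      conv_rhs => rw [← hdR f]
      rw [← hmq_E, ← hmq_E, ← hmq_mul, ← hmq_mul]
      congr 2
      apply Subtype.ext
      show (d : G) * f = (d : G) * f * (d : G)⁻¹ * d
      group
    intro c x
    have key : ∀ y, mq g y = mq e' (mq d y) := fun y => by rw [← hmq_mul, hd, mul_inv_cancel_left]
    rw [key, key, hs, hs, he', hmq_E, hmq_E, smul_comm, Matrix.mulVec_smul]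
  obtain ⟨N, hN⟩ := hmat _ hlinQ
  have hN3 : N ^ 3 = 1 := hcube _ N hN fun x => by rw [← hmq_mul, ← hmq_mul, mul_assoc, hg3, hmq_one]
  obtain ⟨hNsq, -⟩ := matrix_sq_zero h3 hN3
  intro b₁ h₁ b₂ h₂
  refine ⟨fun w hw => ?_, fun x hx => ?_⟩
  · obtain ⟨hm, h0⟩ := quad_comm D.fW_mul (normalizer_E_le_W ha)
      (fun u hu => by rw [← hM, mW_fW D g hu]) hMsq h₁ h₂ (WE_le_W hw)
    have hz := (D.fW_zero _ hm).1 h0
    have haL : a ∈ normalizer (WE 3 E : Set G) := normalizer_le_normalizer_module 3 E ha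
    have hWE' : ∀ b ∈ zpowers a, ∀ w ∈ WE 3 E, ⁅w, b⁆ ∈ WE 3 E := fun b hb w hw => by
      rw [show ⁅w, b⁆ = w * (b * w⁻¹ * b⁻¹) by simp only [commutatorElement_def]; group]
      exact mul_mem hw ((mem_normalizer_iff.1 (zpowers_le.2 haL hb) _).1 (inv_mem hw))
    exact WE_inf_Z D (hWE' _ h₂ _ (hWE' _ h₁ w hw)) hz.2
  · obtain ⟨hm, h0⟩ := quad_comm D.fQ_mul hnQ (fun u hu => by rw [← hN, hmq g u hu]) hNsq h₁ h₂ hx
    exact (D.fQ_zero _ hm).1 h0

end Cfsg.Agent.LAE62.BlockCent
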