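import Cfsg.Agent.LAE62.BlockCentralizer.ExcForm
import Cfsg.Agent.LAE62.BlockCentralizer.ExcQuad

/-!
An exceptional block is normalized by the centralizer of its commutator module.
-/

set_option autoImplicit false

open Subgroup Matrix
open scoped commutatorElement

namespace Cfsg.Agent.LAE62.BlockCent

open Baumann

variable {G : Type*} [Group G] [Finite G] [Fact (Nat.Prime 3)] {F : Type} [Field F] [Fintype F]
variable {T : Sylow 3 G} {E : Subgroup G} (D : Exc T E F)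

/-- The elements of `K1` acting trivially on the middle section. -/
noncomputable def S0 : Subgroup G := K1 D ⊓ (actX D).ker.map (normalizer (WE 3 E : Set G)).subtype

theorem K1_le_L : K1 D ≤ normalizer (WE 3 E : Set G) := fun _ h => h.1.1

theorem L_le_normalizer_K1 : normalizer (WE 3 E : Set G) ≤ normalizer (K1 D : Set G) := fun g hg =>
  mem_normalizer_of_conj_mem fun a ha =>
    ⟨(mem_normalizer_iff.1 (L_le_normalizer_Stab0 D hg) a).1 ha.1,
      (mem_normalizer_iff.1 (L_le_normalizer_centralizer hg) a).1 ha.2⟩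

theorem L_le_normalizer_S0 : normalizer (WE 3 E : Set G) ≤ normalizer (S0 D : Set G) := fun g hg =>
  mem_normalizer_of_conj_mem fun a ha => by
    refine ⟨(mem_normalizer_iff.1 (L_le_normalizer_K1 D hg) a).1 ha.1, ?_⟩
    obtain ⟨a', ha', rfl⟩ := ha.2
    have hk : actX D a' = 1 := ha'
    refine ⟨⟨g, hg⟩ * a' * ⟨g, hg⟩⁻¹, ?_, rfl⟩
    show actX D (⟨g, hg⟩ * a' * ⟨g, hg⟩⁻¹) = 1
    rw [map_mul, map_mul, hk, mul_one, ← map_mul, mul_inv_cancel, map_one]

theorem actX_comm {g : ↥(normalizer (WE 3 E : Set G))} (hg : actX D g = 1) {a : G} (ha : a ∈ Xb D) :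
    ⁅(g : G), a⁆ ∈ Vb E := by
  have h := actX_mk D g ha
  rw [hg] at h
  have h1 := (mkX_eq_iff D ha (conjX_mem D g ha)).1 h
  have h2 := (mem_normalizer_iff.1 (L_le_normalizer_V D (PE_le_L rfl ha.1)) _).1 h1
  rwa [show a * (a⁻¹ * ((g : G) * a * (g : G)⁻¹)) * a⁻¹ = ⁅(g : G), a⁆ by
    simp only [commutatorElement_def]; group] at h2

theorem V_exp {v : G} (hv : v ∈ Vb E) : v ^ 3 = 1 := omegaOneCenter_pow hv

theorem pow_fix {g a : G} {k : ℕ} (hc : Commute g ⁅g, a⁆) (h : ⁅g, a⁆ ^ k = 1) : Commute (g ^ k) a := by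
  have hk := LocalP.conj_pow_eq_of_commute (x := g) (r := a) (c := ⁅g, a⁆)
    (by simp only [commutatorElement_def]; group) hc k
  rw [h, one_mul, mul_inv_eq_iff_eq_mul] at hk
  exact hk

theorem S0_le_PE : S0 D ≤ PE 3 E := by
  refine le_PE_of_stab D.setting (K := S0 D) le_rfl le_normalizer (inf_le_left.trans (K1_le_L D))
    (L_le_normalizer_S0 D) fun g hg => ⟨4, mem_centralizer_iff.2 fun y hy => ?_⟩
  obtain ⟨⟨hg0, hgW⟩, g', hg', hgg⟩ := hg
  have hV : ∀ v ∈ Vb E, Commute (g ^ 3) v := fun v hv =>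
    pow_fix ((mem_centralizer_iff.1 hgW _ (hg0.2.1 v hv)).symm) (omegaOneCenter_pow (W_le_V D (WE_le_W (hg0.2.1 v hv))))
  have hX : ∀ a ∈ Xb D, Commute ((g ^ 3) ^ 3) a := fun a ha => by
    have h1 : ⁅g ^ 3, a⁆ ∈ Vb E := by
      have h := actX_comm D (g := g' ^ 3) (by rw [map_pow, MonoidHom.mem_ker.1 hg', one_pow]) ha
      rwa [SubgroupClass.coe_pow, show (g' : G) = g from hgg] at h
    exact pow_fix (hV _ h1) (V_exp h1)
  have hy' : Commute (((g ^ 3) ^ 3) ^ 9) y := by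
    have h1 : ⁅(g ^ 3) ^ 3, y⁆ ∈ Xb D := (pow_mem (pow_mem hg0 3) 3 : (g ^ 3) ^ 3 ∈ Stab0 D).2.2 y hy
    refine pow_fix (hX _ h1) ?_
    rw [show (9 : ℕ) = 3 * 3 from rfl, pow_mul]
    exact V_exp h1.2.1
  rw [show g ^ 3 ^ 4 = ((g ^ 3) ^ 3) ^ 9 by rw [← pow_mul, ← pow_mul]; norm_num]
  exact hy'.symm

include D in
theorem W_fixed {g w : G} (hinv : ∀ w ∈ WE 3 E, g * w * g⁻¹ = w⁻¹) (hZ : ∀ z ∈ Zb E, g * z * g⁻¹ = z)
    (hw : w ∈ Wb E) (h : ⁅g, w⁆ ∈ Zb E) : w ∈ Zb E := by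
  obtain ⟨y, hy, hz⟩ := exists_WE_div D hw
  have e : ⁅g, w⁆ = y⁻¹ * y⁻¹ := by
    conv_lhs => rw [show w = y * (y⁻¹ * w) by group]
    rw [show ⁅g, y * (y⁻¹ * w)⁆ = g * y * g⁻¹ * (g * (y⁻¹ * w) * g⁻¹) * (y⁻¹ * w)⁻¹ * y⁻¹ by
      simp only [commutatorElement_def]; group, hinv y hy, hZ _ hz, mul_inv_cancel_right]
  rw [e] at h
  have h1 := WE_inf_Z D (mul_mem (inv_mem hy) (inv_mem hy)) h.2
  have h3 := W_pow D (WE_le_W (inv_mem hy))
  rw [pow_succ, pow_two, h1, one_mul, inv_eq_one] at h3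
  subst h3
  simpa using hz

set_option maxHeartbeats 1000000 in
/-- No element of the stabilizer acts trivially on the middle section and inverts the commutator module. -/
theorem no_inverting {g : ↥(normalizer (WE 3 E : Set G))} (hg : (g : G) ∈ Stab0 D) (hΛ : actX D g = 1)
    (hinv : ∀ w ∈ WE 3 E, (g : G) * w * (g : G)⁻¹ = w⁻¹) : False := by
  set γ := (g : G) with hγ
  have hconjX : ∀ a ∈ Xb D, γ * a * γ⁻¹ ∈ Xb D := fun a ha => conjX_mem D g ha
  have hgV : ∀ a ∈ Xb D, a⁻¹ * (γ * a * γ⁻¹) ∈ Vb E := fun a ha => by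
    have h := actX_mk D g ha
    rw [hΛ] at h
    exact (mkX_eq_iff D ha (hconjX a ha)).1 h
  have hfix : ∀ a ∈ Xb D, ∀ b ∈ Xb D, γ * ⁅a, b⁆ * γ⁻¹ = ⁅a, b⁆ := fun a ha b hb => by
    rw [show γ * ⁅a, b⁆ * γ⁻¹ = ⁅γ * a * γ⁻¹, γ * b * γ⁻¹⁆ by simp only [commutatorElement_def]; group]
    exact comm_congr D (hconjX a ha) ha (hconjX b hb) hb (hgV a ha) (hgV b hb)
  have hZ : ∀ z ∈ Zb E, γ * z * γ⁻¹ = z := by
    intro z hz
    rw [← D.comm, Subgroup.commutator_def] at hz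
    induction hz using Subgroup.closure_induction with
    | mem x hx =>
      obtain ⟨a, ha, b, hb, rfl⟩ := hx
      exact hfix a (Q_le_X D ha) b (Q_le_X D hb)
    | one => group
    | mul x y _ _ h1 h2 => rw [show γ * (x * y) * γ⁻¹ = γ * x * γ⁻¹ * (γ * y * γ⁻¹) by group, h1, h2]
    | inv x _ h1 => rw [show γ * x⁻¹ * γ⁻¹ = (γ * x * γ⁻¹)⁻¹ by group, h1]
  have hQX : ∀ x ∈ Qb E, ∀ a ∈ Xb D, ⁅x, a⁆ ∈ Zb E := fun x hx a ha =>
    W_fixed D hinv hZ (comm_Q_PE D hx ha.1) (by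
      rw [commutatorElement_def γ, hfix x (Q_le_X D hx) a ha, mul_inv_cancel]; exact one_mem _)
  have hQP : ∀ x ∈ Qb E, ∀ y ∈ PE 3 E, ⁅x, y⁆ ∈ Zb E := fun x hx y hy =>
    W_fixed D hinv hZ (comm_Q_PE D hx hy) (by
      have ha : ⁅γ, y⁆ ∈ Xb D := hg.2.2 y hy
      have hyy : γ * y * γ⁻¹ = ⁅γ, y⁆ * y := by simp only [commutatorElement_def]; group
      have hy' : γ * y * γ⁻¹ ∈ PE 3 E := hyy ▸ mul_mem ha.1 hy
      have e : γ * ⁅x, y⁆ * γ⁻¹ = ⁅x, ⁅γ, y⁆⁆ * ⁅x, y⁆ := by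
        rw [show γ * ⁅x, y⁆ * γ⁻¹ = ⁅x * (x⁻¹ * (γ * x * γ⁻¹)), γ * y * γ⁻¹⁆ by
          simp only [commutatorElement_def]; group,
          comm_mul_left' D (Q_le_X D hx) (V_le_X D (hgV x (Q_le_X D hx))) hy',
          commutatorElement_eq_one_iff_mul_comm.2 (V_central D (hgV x (Q_le_X D hx)) hy').symm, mul_one, hyy,
          comm_mul_right D (Q_le_X D hx) ha.1 hy]
      rw [commutatorElement_def γ, e, mul_inv_cancel_right]
      exact hQX x hx _ ha)
  -- the stabilizer is in the core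
  have hsq : γ * γ ∈ PE 3 E := S0_le_PE D ⟨⟨mul_mem hg hg, mem_centralizer_iff.2 fun w hw => by
    have e : γ * γ * w * (γ * γ)⁻¹ = w := by
      rw [show γ * γ * w * (γ * γ)⁻¹ = γ * (γ * w * γ⁻¹) * γ⁻¹ by group, hinv w hw, hinv _ (inv_mem hw), inv_inv]
    rw [mul_inv_eq_iff_eq_mul] at e
    exact e.symm⟩,
    g * g, by rw [SetLike.mem_coe, MonoidHom.mem_ker, map_mul, hΛ, one_mul], rfl⟩
  -- the subgroup fixed modulo the centre
  let C : Subgroup G :=
    { carrier := {y | (∃ q ∈ Qb E, ∃ v ∈ Vb E, y = q * v) ∧ ⁅γ, y⁆ ∈ Zb E}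
      one_mem' := ⟨⟨1, one_mem _, 1, one_mem _, by group⟩, by rw [commutatorElement_one_right]; exact one_mem _⟩
      mul_mem' := by
        rintro _ _ ⟨⟨q, hq, v, hv, rfl⟩, h⟩ ⟨⟨q', hq', v', hv', rfl⟩, h'⟩
        refine ⟨⟨q * q', mul_mem hq hq', v * v', mul_mem hv hv', ?_⟩, ?_⟩
        · rw [show q * v * (q' * v') = q * (v * q') * v' by group, ← V_central D hv (D.Q_le hq')]; group
        · have hqv : q * v ∈ PE 3 E := mul_mem (D.Q_le hq) (V_le_PE D hv)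
          rw [show ⁅γ, q * v * (q' * v')⁆ = ⁅γ, q * v⁆ * (q * v * ⁅γ, q' * v'⁆ * (q * v)⁻¹) by
            simp only [commutatorElement_def]; group, Z_central D hqv h', mul_inv_cancel_right]
          exact mul_mem h h'
      inv_mem' := by
        rintro _ ⟨⟨q, hq, v, hv, rfl⟩, h⟩
        refine ⟨⟨q⁻¹, inv_mem hq, v⁻¹, inv_mem hv, ?_⟩, ?_⟩
        · rw [_root_.mul_inv_rev, ← V_central D (inv_mem hv) (inv_mem (D.Q_le hq))]
        · have hqv : (q * v)⁻¹ ∈ PE 3 E := inv_mem (mul_mem (D.Q_le hq) (V_le_PE D hv))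
          rw [show ⁅γ, (q * v)⁻¹⁆ = (q * v)⁻¹ * ⁅γ, q * v⁆⁻¹ * (q * v)⁻¹⁻¹ by
            simp only [commutatorElement_def]; group, Z_central D hqv (inv_mem h), mul_inv_cancel_right]
          exact inv_mem h }
  have hCP : ∀ c ∈ C, ∀ y ∈ PE 3 E, ⁅c, y⁆ ∈ Zb E := by
    rintro c ⟨⟨q, hq, v, hv, rfl⟩, -⟩ y hy
    rw [comm_mul_left' D (Q_le_X D hq) (V_le_X D hv) hy,
      commutatorElement_eq_one_iff_mul_comm.2 (V_central D hv hy).symm, mul_one]
    exact hQP q hq y hy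
  have hCQV : ∀ x ∈ Qb E, ∃ c ∈ C, ∃ w ∈ WE 3 E, x = c * w := by
    intro x hx
    have hxP := D.Q_le hx
    set v := ⁅γ, x⁆ with hv
    have hvV : v ∈ Vb E := actX_comm D hΛ (Q_le_X D hx)
    have hgvV : γ * v * γ⁻¹ ∈ Vb E := (mem_normalizer_iff.1 (L_le_normalizer_V D g.2) v).1 hvV
    have hz : γ * v * γ⁻¹ * v ∈ Zb E := by
      have h := inv_mem (hQP x hx _ hsq)
      rwa [commutatorElement_inv, show ⁅γ * γ, x⁆ = γ * v * γ⁻¹ * v by
        simp only [hv, commutatorElement_def]; group] at h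
    have hgx : γ * x * γ⁻¹ = v * x := by simp only [hv, commutatorElement_def]; group
    have hx2 : x * x * v ∈ C := by
      refine ⟨⟨x * x, mul_mem hx hx, v, hvV, rfl⟩, ?_⟩
      have e : ⁅γ, x * x * v⁆ = γ * v * γ⁻¹ * v := by
        rw [show ⁅γ, x * x * v⁆ = γ * x * γ⁻¹ * (γ * x * γ⁻¹) * (γ * v * γ⁻¹) * v⁻¹ * (x * x)⁻¹ by
          simp only [commutatorElement_def]; group, hgx]
        calc v * x * (v * x) * (γ * v * γ⁻¹) * v⁻¹ * (x * x)⁻¹ =
              v * (x * v) * x * (γ * v * γ⁻¹ * v⁻¹) * (x * x)⁻¹ := by group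
          _ = v * (v * x) * x * (γ * v * γ⁻¹ * v⁻¹) * (x * x)⁻¹ := by rw [V_central D hvV hxP]
          _ = v * v * ((x * x) * (γ * v * γ⁻¹ * v⁻¹)) * (x * x)⁻¹ := by group
          _ = v * v * ((γ * v * γ⁻¹ * v⁻¹) * (x * x)) * (x * x)⁻¹ := by
              rw [V_central D (mul_mem hgvV (inv_mem hvV)) (mul_mem hxP hxP)]
          _ = v * v * (γ * v * γ⁻¹) * v⁻¹ := by group
          _ = γ * v * γ⁻¹ * (v * v) * v⁻¹ := by rw [omegaOneCenter_comm (mul_mem hvV hvV) hgvV]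
          _ = γ * v * γ⁻¹ * v := by group
      rw [e]; exact hz
    set c := (x * x * v) * (x * x * v) with hc
    have hu : c⁻¹ * x ∈ Vb E := by
      have h4 : (x * x * x) ∈ Vb E := by
        have h := (Q_le_X D hx).2.1
        rwa [pow_succ, pow_two] at h
      have e : c⁻¹ * x = v⁻¹ * v⁻¹ * (x * x * x)⁻¹ := by
        have e1 : c = x * x * (x * x) * (v * v) := by
          rw [hc, show x * x * v * (x * x * v) = x * x * (v * (x * x)) * v by group,
            ← V_central D hvV (mul_mem hxP hxP)]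
          group
        rw [e1]; group
      rw [e]
      exact mul_mem (mul_mem (inv_mem hvV) (inv_mem hvV)) (inv_mem h4)
    set u := c⁻¹ * x with hu'
    set w := ⁅γ, u⁆ with hw
    have hwW : w ∈ WE 3 E := hg.2.1 u hu
    have hgu : γ * u * γ⁻¹ = w * u := by simp only [hw, commutatorElement_def]; group
    have hwu : w * u = u * w := omegaOneCenter_comm (W_le_V D (WE_le_W hwW)) hu
    have hf : w⁻¹ * u ∈ C := by
      refine ⟨⟨1, one_mem _, _, mul_mem (inv_mem (W_le_V D (WE_le_W hwW))) hu, (one_mul _).symm⟩, ?_⟩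
      have h3 : w * w * w = 1 := by
        have h := W_pow D (WE_le_W hwW)
        rwa [pow_succ, pow_two] at h
      rw [show ⁅γ, w⁻¹ * u⁆ = γ * w⁻¹ * γ⁻¹ * (γ * u * γ⁻¹) * u⁻¹ * w by simp only [commutatorElement_def]; group,
        hinv _ (inv_mem hwW), inv_inv, hgu, show w * (w * u) * u⁻¹ * w = w * w * w by group, h3]
      exact one_mem _
    refine ⟨c * (w⁻¹ * u), mul_mem (mul_mem hx2 hx2) hf, w, hwW, ?_⟩
    rw [show c * (w⁻¹ * u) * w = c * (w⁻¹ * (u * w)) by group, ← hwu, inv_mul_cancel_left, hu', mul_inv_cancel_left]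
  -- a quadratic element
  obtain ⟨b, hb, hbC, hbq⟩ := exists_quadratic D
  refine D.quad b hb (fun h => hbC (centralizer_le WE_le_W h)) ?_
  rw [D.cent]
  have hbN : b ∈ normalizer (E : Set G) := B_le_normalizer D.setting hb
  have hbL : b ∈ normalizer (WE 3 E : Set G) := normalizer_le_normalizer_module 3 E hbN
  have hcomm : ∀ {N : Subgroup G}, b ∈ normalizer (N : Set G) → ∀ β ∈ zpowers b, ∀ y ∈ N, ⁅y, β⁆ ∈ N := by
    intro N hN β hβ y hy
    rw [show ⁅y, β⁆ = y * (β * y⁻¹ * β⁻¹) by simp only [commutatorElement_def]; group]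
    exact mul_mem hy ((mem_normalizer_iff.1 (zpowers_le.2 hN hβ) _).1 (inv_mem hy))
  have hCb : b ∈ normalizer (C : Set G) := by
    refine mem_normalizer_of_conj_mem fun y hy => ?_
    obtain ⟨q, hq, v, hv, rfl⟩ := hy.1
    have hyP : ∀ p ∈ PE 3 E, ⁅q * v, p⁆ ∈ Zb E := hCP _ hy
    have hq' : b * q * b⁻¹ ∈ Qb E := (mem_normalizer_iff.1 (LocalP.normalizer_le_normalizer_pCoreOf E hbN) q).1 hq
    have hv' : b * v * b⁻¹ ∈ Vb E := (mem_normalizer_iff.1 (L_le_normalizer_V D hbL) v).1 hv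
    refine ⟨⟨_, hq', _, hv', by group⟩, ?_⟩
    have hd : b * γ * b⁻¹ * γ⁻¹ ∈ S0 D := by
      refine ⟨⟨mul_mem ((mem_normalizer_iff.1 (L_le_normalizer_Stab0 D hbL) _).1 hg) ((Stab0 D).inv_mem hg),
        mem_centralizer_iff.2 fun w hw => ?_⟩, ⟨b, hbL⟩ * g * ⟨b, hbL⟩⁻¹ * g⁻¹,
        by rw [SetLike.mem_coe, MonoidHom.mem_ker, map_mul, map_mul, map_mul, map_inv, map_inv, hΛ, mul_one,
          mul_inv_cancel, one_mul, inv_one], rfl⟩
      have hw' : b⁻¹ * w⁻¹ * b ∈ WE 3 E := (mem_normalizer_iff''.1 hbL _).1 (inv_mem hw)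
      have hgi : γ⁻¹ * w * γ = w⁻¹ := by
        conv_lhs => rw [show w = γ * w⁻¹ * γ⁻¹ by rw [hinv _ (inv_mem hw), inv_inv]]
        group
      have e : b * γ * b⁻¹ * γ⁻¹ * w * (b * γ * b⁻¹ * γ⁻¹)⁻¹ = w := by
        rw [show b * γ * b⁻¹ * γ⁻¹ * w * (b * γ * b⁻¹ * γ⁻¹)⁻¹ = b * (γ * (b⁻¹ * (γ⁻¹ * w * γ) * b) * γ⁻¹) * b⁻¹ by group,
          hgi, hinv _ hw']
        group
      rw [mul_inv_eq_iff_eq_mul] at e
      exact e.symm
    have hdP : (b * γ * b⁻¹ * γ⁻¹)⁻¹ ∈ PE 3 E := inv_mem (S0_le_PE D hd)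
    set d := b * γ * b⁻¹ * γ⁻¹ with hd'
    set y := q * v with hy'
    set y' := b * y * b⁻¹ with hy''
    have hy'P : y' ∈ PE 3 E :=
      (mem_normalizer_iff.1 (L_le_normalizer_PE hbL) y).1 (mul_mem (D.Q_le hq) (V_le_PE D hv))
    have hzb : b * ⁅γ, y⁆ * b⁻¹ ∈ Zb E := mem_WZ D hbN hy.2
    have e : ⁅γ, y'⁆ = b * ⁅γ, y⁆ * b⁻¹ * ⁅d⁻¹, y'⁆ := by
      rw [show ⁅γ, y'⁆ = d⁻¹ * (b * ⁅γ, y⁆ * b⁻¹) * d * ⁅d⁻¹, y'⁆ by
        simp only [hd', hy'', commutatorElement_def]; group, Z_central D hdP hzb, inv_mul_cancel_right]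
    rw [e]
    refine mul_mem hzb ?_
    rw [← commutatorElement_inv]
    refine inv_mem ?_
    have hy'X : ∃ q' ∈ Qb E, ∃ v' ∈ Vb E, y' = q' * v' := ⟨_, hq', _, hv', by rw [hy'', hy']; group⟩
    obtain ⟨q', hq1, v', hv1, e'⟩ := hy'X
    rw [e', comm_mul_left' D (Q_le_X D hq1) (V_le_X D hv1) hdP,
      commutatorElement_eq_one_iff_mul_comm.2 (V_central D hv1 hdP).symm, mul_one]
    exact hQP q' hq1 _ hdP
  let M : Subgroup G :=
    { carrier := {y | y ∈ Qb E ∧ ∀ β ∈ zpowers b, ⁅y, β⁆ ∈ Zb E}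
      one_mem' := ⟨one_mem _, fun β _ => by rw [commutatorElement_one_left]; exact one_mem _⟩
      mul_mem' := by
        rintro y z ⟨hy, hy'⟩ ⟨hz, hz'⟩
        refine ⟨mul_mem hy hz, fun β hβ => ?_⟩
        rw [show ⁅y * z, β⁆ = y * ⁅z, β⁆ * y⁻¹ * ⁅y, β⁆ by simp only [commutatorElement_def]; group,
          Z_central D (D.Q_le hy) (hz' β hβ), mul_inv_cancel_right]
        exact mul_mem (hz' β hβ) (hy' β hβ)
      inv_mem' := by
        rintro y ⟨hy, hy'⟩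
        refine ⟨inv_mem hy, fun β hβ => ?_⟩
        rw [show ⁅y⁻¹, β⁆ = y⁻¹ * ⁅y, β⁆⁻¹ * y⁻¹⁻¹ by simp only [commutatorElement_def]; group,
          Z_central D (inv_mem (D.Q_le hy)) (inv_mem (hy' β hβ)), mul_inv_cancel_right]
        exact inv_mem (hy' β hβ) }
  suffices h : ⁅Qb E, zpowers b⁆ ≤ M from
    commutator_le.2 fun y hy β hβ => (h hy).2 β hβ
  refine commutator_le.2 fun x hx β₁ h₁ => ⟨hcomm (LocalP.normalizer_le_normalizer_pCoreOf E hbN) β₁ h₁ x hx,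
    fun β₂ h₂ => ?_⟩
  obtain ⟨hw0, hxW⟩ := hbq β₁ h₁ β₂ h₂
  obtain ⟨c, hc, w, hw, rfl⟩ := hCQV x hx
  have hs : ⁅⁅c * w, β₁⁆, β₂⁆ ∈ Wb E := hxW _ hx
  have hwb : ⁅w, β₁⁆ ∈ WE 3 E := hcomm hbL β₁ h₁ w hw
  have hcb : ⁅c, β₁⁆ ∈ C := hcomm hCb β₁ h₁ c hc
  have hCle : ∀ c ∈ C, c ∈ PE 3 E := by
    rintro _ ⟨⟨q, hq, v, hv, rfl⟩, -⟩
    exact mul_mem (D.Q_le hq) (V_le_PE D hv)
  have hWV : ∀ w ∈ WE 3 E, w ∈ Vb E := fun w hw => W_le_V D (WE_le_W hw)
  have e1 : ⁅c * w, β₁⁆ = ⁅c, β₁⁆ * ⁅w, β₁⁆ := by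
    rw [show ⁅c * w, β₁⁆ = c * ⁅w, β₁⁆ * c⁻¹ * ⁅c, β₁⁆ by simp only [commutatorElement_def]; group,
      V_central D (hWV _ hwb) (hCle c hc), mul_inv_cancel_right, V_central D (hWV _ hwb) (hCle _ hcb)]
  have e2 : ⁅⁅c, β₁⁆ * ⁅w, β₁⁆, β₂⁆ = ⁅⁅c, β₁⁆, β₂⁆ := by
    rw [show ⁅⁅c, β₁⁆ * ⁅w, β₁⁆, β₂⁆ = ⁅c, β₁⁆ * ⁅⁅w, β₁⁆, β₂⁆ * ⁅c, β₁⁆⁻¹ * ⁅⁅c, β₁⁆, β₂⁆ by
      simp only [commutatorElement_def]; group, hw0 w hw, mul_one, mul_inv_cancel, one_mul]
  rw [e1, e2] at hs ⊢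
  exact W_fixed D hinv hZ hs (hcomm hCb β₂ h₂ _ hcb).2

set_option maxHeartbeats 1000000 in
include D in
/-- An exceptional block is normalized by the centralizer of its commutator module. -/
theorem centralizer_le_of_exc : centralizer (WE 3 E : Set G) ≤ normalizer (E : Set G) := by
  have h3 := three_zero D
  set L : Subgroup G := normalizer (WE 3 E : Set G) with hL
  set K : Subgroup (Aut (XA D)) := ((K1 D).subgroupOf L).map (actX D) with hK
  have hEL : ∀ {e : G}, e ∈ E → e ∈ L := fun he => E_le_L he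
  have hrE : ∀ r ∈ commutator (SpecialLinearGroup (Fin 2) F),
      ∃ e : E, act (planeForm D) r = actX D ⟨e, hEL e.2⟩ ∧ D.rQ e = r := fun r hr => by
    rw [← D.rQ_range] at hr
    obtain ⟨e, rfl⟩ := hr
    exact ⟨e, (actX_E D e).symm, rfl⟩
  have ht : act (planeForm D) (-1) = actX D ⟨tE D, hEL (tE D).2⟩ := by
    rw [← rQ_tE D]; exact (actX_E D _).symm
  have hunip : ∀ k : L, (k : G) ∈ K1 D → (actX D k * act (planeForm D) (-1)) ^ 3 ≠ 1 := by
    intro k hk h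
    rw [ht, ← map_mul, ← map_pow] at h
    refine no_inverting D (g := (k * ⟨tE D, hEL (tE D).2⟩) ^ 3)
      (by
        show ((k : G) * (tE D : G)) ^ 3 ∈ Stab0 D
        exact pow_mem (mul_mem hk.1 (E_le_Stab0 D (tE D).2)) 3) h ?_
    intro w hw
    have hi : ∀ w ∈ WE 3 E, (k : G) * (tE D : G) * w * ((k : G) * (tE D : G))⁻¹ = w⁻¹ := fun w hw => by
      rw [show (k : G) * (tE D : G) * w * ((k : G) * (tE D : G))⁻¹ =
        (k : G) * ((tE D : G) * w * (tE D : G)⁻¹) * (k : G)⁻¹ by group, WE_inverted D hw,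
        ← mem_centralizer_iff.1 hk.2 _ (inv_mem hw), mul_inv_cancel_right]
    show ((k : G) * (tE D : G)) ^ 3 * w * (((k : G) * (tE D : G)) ^ 3)⁻¹ = w⁻¹
    set u := (k : G) * (tE D : G) with hu
    rw [show u ^ 3 * w * (u ^ 3)⁻¹ = u * (u * (u * w * u⁻¹) * u⁻¹) * u⁻¹ by
      rw [pow_succ, pow_two]; group, hi w hw, hi _ (inv_mem hw), inv_inv, hi w hw]
  have hs : IsometrySetting (planeForm D) K :=
    { three := h3
      dich := (three_pow_dichotomy D.card).2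
      exp := XA_exp D
      isom := by
        rintro _ ⟨k, hk, rfl⟩ x y
        exact actX_isom D hk.1 x y
      norm := by
        rintro r hr _ ⟨k, hk, rfl⟩
        obtain ⟨e, he, -⟩ := hrE r hr
        rw [he, ← map_inv, ← map_mul, ← map_mul]
        exact ⟨_, (mem_normalizer_iff.1 (L_le_normalizer_K1 D (hEL e.2)) _).1 hk, rfl⟩
      noUnip := by
        rintro _ ⟨k, hk, rfl⟩
        exact hunip k hk }
  obtain ⟨S, hS3, hSn, hSc⟩ := exists_stabilizer hs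
  -- commutators of `K1` with the block lie in the core
  set S1 : Subgroup G := K1 D ⊓ (S.comap (actX D)).map L.subtype with hS1
  have hK1S1 : K1 D ≤ normalizer (S1 : Set G) := fun k hk => mem_normalizer_of_conj_mem fun s hs' => by
    refine ⟨mul_mem (mul_mem hk hs'.1) ((K1 D).inv_mem hk), ?_⟩
    obtain ⟨s', hs'', rfl⟩ := hs'.2
    refine ⟨⟨k, hk.1.1⟩ * s' * ⟨k, hk.1.1⟩⁻¹, ?_, rfl⟩
    show actX D _ ∈ S
    rw [map_mul, map_mul, map_inv]
    exact hSn _ ⟨⟨k, hk.1.1⟩, hk, rfl⟩ _ hs''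
  have hS1P : S1 ≤ PE 3 E := by
    refine le_PE_of_stab D.setting (K := K1 D) inf_le_left hK1S1 (K1_le_L D) (L_le_normalizer_K1 D) ?_
    intro g hg
    obtain ⟨g', hg', hgg⟩ := hg.2
    have h3' : g ^ 3 ∈ PE 3 E := S0_le_PE D ⟨pow_mem hg.1 3, g' ^ 3, by
      rw [SetLike.mem_coe, MonoidHom.mem_ker, map_pow, hS3 _ hg'], by
      rw [map_pow]; exact congrArg (· ^ 3) hgg⟩
    obtain ⟨m, hm⟩ := (LocalP.pCoreOf_isPGroup (p := 3) L) ⟨g ^ 3, h3'⟩
    refine ⟨1 + m, ?_⟩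
    have e := congrArg Subtype.val hm
    simp only [SubgroupClass.coe_pow, OneMemClass.coe_one] at e
    rw [pow_add, pow_one, pow_mul, e]
    exact one_mem _
  have hK1E : ∀ k ∈ K1 D, ∀ e ∈ E, ⁅k, e⁆ ∈ PE 3 E := fun k hk e he => hS1P ⟨by
    rw [commutatorElement_def, show k * e * k⁻¹ * e⁻¹ = k * (e * k⁻¹ * e⁻¹) by group]
    exact mul_mem hk ((mem_normalizer_iff.1 (L_le_normalizer_K1 D (hEL he)) _).1 (inv_mem hk)),
    ⟨k, hk.1.1⟩ * ⟨e, hEL he⟩ * ⟨k, hk.1.1⟩⁻¹ * ⟨e, hEL he⟩⁻¹, by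
      show actX D _ ∈ S
      rw [map_mul, map_mul, map_mul, map_inv, map_inv, actX_E D ⟨e, he⟩]
      exact hSc _ ⟨⟨k, hk.1.1⟩, hk, rfl⟩ _ (by rw [← D.rQ_range]; exact ⟨_, rfl⟩),
    by simp [commutatorElement_def]⟩
  -- the general element
  refine le_normalizer_of_commutator D.setting.block.1 (LocalP.pCoreOf_isPGroup _) (PE_le_normalizer D.setting)
    fun k hk e he => ?_
  have hkL : k ∈ L := centralizer_le_normalizer' _ hk
  have hmem : ∀ x ∈ E, ⁅k, x⁆ ∈ K1 D := fun x hx => by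
    refine ⟨?_, ?_⟩
    · rw [commutatorElement_def]
      exact mul_mem ((mem_normalizer_iff.1 (L_le_normalizer_Stab0 D hkL) x).1 (E_le_Stab0 D hx))
        ((Stab0 D).inv_mem (E_le_Stab0 D hx))
    · rw [commutatorElement_def, show k * x * k⁻¹ * x⁻¹ = k * (x * k⁻¹ * x⁻¹) by group]
      exact mul_mem hk ((mem_normalizer_iff.1 (L_le_normalizer_centralizer (hEL hx)) _).1 (inv_mem hk))
  have hPX : ∀ p : L, (p : G) ∈ PE 3 E → actX D p = 1 := fun p hp => LinearEquiv.ext fun x => by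
    obtain ⟨a, ha, rfl⟩ := mkX_surj D x
    show actX D p (mkX D a) = mkX D a
    rw [actX_mk D p ha, mkX_eq_iff D (conjX_mem D p ha) ha]
    rw [show ((p : G) * a * (p : G)⁻¹)⁻¹ * a = p * ⁅a⁻¹, (p : G)⁻¹⁆⁻¹⁻¹ * (p : G)⁻¹ * 1 by
      simp only [commutatorElement_def]; group, inv_inv, mul_one]
    exact (mem_normalizer_iff.1 (L_le_normalizer_V D p.2) _).1 ((inv_mem ha : a⁻¹ ∈ Xb D).2.2 _ (inv_mem hp))
  -- `k` commutes with the central involution modulo the core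
  set P' : Subgroup L := (PE 3 E).subgroupOf L with hP'
  haveI : P'.Normal := normal_subgroupOf_of_le_normalizer L_le_normalizer_PE
  let π := QuotientGroup.mk' P'
  have hcent : ∀ (h : L) (x : E), (h : G) ∈ K1 D → Commute (π h) (π ⟨x, hEL x.2⟩) := fun h x hh => by
    rw [← commutatorElement_eq_one_iff_commute, ← map_commutatorElement]
    exact (QuotientGroup.eq_one_iff (N := P') ⁅h, (⟨x, hEL x.2⟩ : L)⁆).2 (hK1E _ hh _ x.2)
  have hkt : ⁅k, (tE D : G)⁆ ∈ PE 3 E := by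
    set κ : L := ⟨k, hkL⟩
    set a : L := ⟨D.ea, hEL D.ea.2⟩
    set b : L := ⟨D.eb, hEL D.eb.2⟩
    have ha : (⁅κ, a⁆ : L).1 ∈ K1 D := hmem _ D.ea.2
    have hb : (⁅κ, b⁆ : L).1 ∈ K1 D := hmem _ D.eb.2
    have c1 : Commute (π ⁅κ, a⁆) (π b) := hcent _ D.eb ha
    have c2 : Commute (π ⁅κ, b⁆) (π a) := hcent _ D.ea hb
    have c3 : Commute (π ⁅κ, a⁆) (π ⁅κ, b⁆) := by
      have h' : (κ⁻¹ * ⁅κ, a⁆ * κ : L).1 ∈ K1 D := (mem_normalizer_iff''.1 (L_le_normalizer_K1 D hkL) _).1 ha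
      have h1 := (hcent _ D.eb h').map (MulAut.conj (π κ)).toMonoidHom
      have e1 : (MulAut.conj (π κ)).toMonoidHom (π (κ⁻¹ * ⁅κ, a⁆ * κ)) = π ⁅κ, a⁆ := by
        show π κ * π (κ⁻¹ * ⁅κ, a⁆ * κ) * (π κ)⁻¹ = _
        rw [← map_inv, ← map_mul, ← map_mul]; congr 1; group
      have e2 : (MulAut.conj (π κ)).toMonoidHom (π b) = π ⁅κ, b⁆ * π b := by
        show π κ * π b * (π κ)⁻¹ = _
        rw [← map_inv, ← map_mul, ← map_mul, ← map_mul]; congr 1
        simp only [commutatorElement_def]; group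
      rw [e1, e2] at h1
      have h2 := h1.mul_right c1.inv_right
      rwa [mul_inv_cancel_right] at h2
    have key : π ⁅κ, ⁅a, b⁆⁆ = 1 := by
      rw [map_commutatorElement, commutatorElement_eq_one_iff_commute]
      have e1 : π κ * π a * (π κ)⁻¹ = π ⁅κ, a⁆ * π a := by
        rw [map_commutatorElement π, commutatorElement_def]; group
      have e2 : π κ * π b * (π κ)⁻¹ = π ⁅κ, b⁆ * π b := by
        rw [map_commutatorElement π, commutatorElement_def]; group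
      have e3 : π κ * ⁅π a, π b⁆ * (π κ)⁻¹ = ⁅π a, π b⁆ := by
        rw [show π κ * ⁅π a, π b⁆ * (π κ)⁻¹ = ⁅π κ * π a * (π κ)⁻¹, π κ * π b * (π κ)⁻¹⁆ by
          simp only [commutatorElement_def]; group, e1, e2]
        have ca : Commute (π ⁅κ, a⁆) (π a) := hcent _ D.ea ha
        have cb : Commute (π ⁅κ, b⁆) (π b) := hcent _ D.eb hb
        set A := π ⁅κ, a⁆
        set B := π ⁅κ, b⁆
        have h4 : ⁅A * π a, B * π b⁆ = (A * π a) * (B * π b) * ((π a)⁻¹ * A⁻¹) * ((π b)⁻¹ * B⁻¹) := by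
          simp only [commutatorElement_def]; group
        have hAB : Commute A B := c3
        calc ⁅A * π a, B * π b⁆ = A * (π a * B) * π b * ((π a)⁻¹ * A⁻¹) * ((π b)⁻¹ * B⁻¹) := by rw [h4]; group
          _ = A * B * (π a * π b * (π a)⁻¹ * (A⁻¹ * (π b)⁻¹)) * B⁻¹ := by rw [← c2.eq]; group
          _ = A * B * (π a * π b * (π a)⁻¹ * ((π b)⁻¹ * A⁻¹)) * B⁻¹ := by rw [c1.inv_inv.eq]
          _ = A * B * ⁅π a, π b⁆ * (B * A)⁻¹ := by simp only [commutatorElement_def]; group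
          _ = ⁅π a, π b⁆ := by
              rw [← hAB.eq]
              have hc : Commute (A * B) ⁅π a, π b⁆ := by
                rw [commutatorElement_def]
                have h5 : Commute (A * B) (π a) := ca.mul_left c2
                have h6 : Commute (A * B) (π b) := c1.mul_left cb
                exact ((h5.mul_right h6).mul_right h5.inv_right).mul_right h6.inv_right
              rw [hc.eq, mul_inv_cancel_right]
      rw [map_commutatorElement]
      exact mul_inv_eq_iff_eq_mul.1 e3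
    exact (QuotientGroup.eq_one_iff (N := P') _).1 key
  -- the commutator acts as a scalar `±1` on the plane and trivially on the kernel of the projection
  set Λk := actX D ⟨k, hkL⟩ with hΛk
  set τ := act (planeForm D) (-1) with hτ
  have hcommt : ∀ x : L, ⁅(x : G), (tE D : G)⁆ ∈ PE 3 E → Commute (actX D x) τ := fun x hx => by
    rw [ht, ← commutatorElement_eq_one_iff_commute, ← map_commutatorElement]
    exact hPX _ hx
  have hkτ : Commute Λk τ := hcommt _ hkt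
  set h : L := ⟨⁅k, e⁆, (hmem e he).1.1⟩ with hh
  have hhτ : Commute (actX D h) τ := by
    refine hcommt _ ?_
    exact hK1E _ (hmem e he) _ (tE D).2
  have hπ0 : ∀ {f : Aut (XA D)}, Commute f τ → ∀ v, (planeForm D).π v = 0 → (planeForm D).π (f v) = 0 := by
    intro f hf v hv
    have h1 : τ (f v) = f v := by
      rw [← Aut.comp_apply, ← hf.eq, Aut.comp_apply, hτ, act_fix _ hv]
    have h2 := congrArg (planeForm D).π h1
    rw [hτ, π_act, val_neg, val_one, Matrix.neg_mulVec, Matrix.one_mulVec] at h2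
    ext i
    have h2i : -((planeForm D).π (f v) i) = (planeForm D).π (f v) i := congrFun h2 i
    simp only [Pi.zero_apply]
    linear_combination ((planeForm D).π (f v) i) * h3 + h2i
  have hι : ∀ x, actX D h ((planeForm D).ι x) = (planeForm D).ι ((planeForm D).π (actX D h ((planeForm D).ι x))) := by
    intro x
    set v := actX D h ((planeForm D).ι x) with hv
    have h1 : τ v = -v := by
      rw [hv, ← Aut.comp_apply, ← hhτ.eq, Aut.comp_apply, hτ, act_ι, val_neg, val_one, Matrix.neg_mulVec,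
        Matrix.one_mulVec, map_neg, map_neg]
    rw [hτ, act_apply, val_neg, val_one, Matrix.sub_mulVec, Matrix.neg_mulVec, Matrix.one_mulVec] at h1
    have h2 : (planeForm D).ι ((planeForm D).π v) =
        (planeForm D).ι (-(planeForm D).π v - (planeForm D).π v) := by
      congr 1
      ext i
      simp only [Pi.sub_apply, Pi.neg_apply]
      linear_combination ((planeForm D).π v i) * h3
    rw [h2]
    have h3' : (planeForm D).ι (-(planeForm D).π v - (planeForm D).π v) = -v + -v := by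
      rw [eq_comm, ← sub_eq_zero] at h1
      rw [← sub_eq_zero, ← neg_eq_zero, ← h1]; abel
    rw [h3']
    rw [← sub_eq_zero, ← XA_exp D v]; abel
  have hker : ∀ v, (planeForm D).π v = 0 → actX D h v = v := by
    intro v hv
    have e1 : h = ⟨k, hkL⟩ * ⟨e, hEL he⟩ * ⟨k, hkL⟩⁻¹ * ⟨e, hEL he⟩⁻¹ := by
      apply Subtype.ext; rfl
    rw [e1, map_mul, map_mul, map_mul, map_inv, map_inv, Aut.comp_apply, Aut.comp_apply, Aut.comp_apply,
      show (actX D ⟨e, hEL he⟩)⁻¹ v = v by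
        rw [actX_E D ⟨e, he⟩, ← map_inv, act_fix _ hv],
      actX_E D ⟨e, he⟩, act_fix _ (hπ0 hkτ.inv_left v hv)]
    exact Aut.self_inv _ _
  obtain ⟨s, hs1, hsι, -⟩ := proj_eq hs (k := actX D h) ⟨h, hmem e he, rfl⟩
  rcases hs1 with rfl | rfl
  · refine S0_le_PE D ⟨hmem e he, h, ?_, rfl⟩
    rw [SetLike.mem_coe, MonoidHom.mem_ker]
    refine LinearEquiv.ext fun v => ?_
    show actX D h v = v
    set p := (planeForm D).π v with hp
    have hv0 : (planeForm D).π (v - (planeForm D).ι p) = 0 := by rw [map_sub, (planeForm D).πι, hp, sub_self]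
    rw [show v = (v - (planeForm D).ι p) + (planeForm D).ι p by rw [sub_add_cancel], map_add (actX D h),
      hker _ hv0, hι, hsι, one_smul]
  · exfalso
    refine hunip h (hmem e he) ?_
    have e1 : actX D h * τ = 1 := LinearEquiv.ext fun v => by
      show actX D h (τ v) = v
      set p := (planeForm D).π v with hp
      have hv0 : (planeForm D).π (v - (planeForm D).ι p) = 0 := by rw [map_sub, (planeForm D).πι, hp, sub_self]
      have e : τ v = (v - (planeForm D).ι p) + (planeForm D).ι (-p) := by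
        conv_lhs => rw [show v = (v - (planeForm D).ι p) + (planeForm D).ι p by abel]
        rw [map_add τ, hτ, act_fix _ hv0, act_ι, val_neg, val_one, Matrix.neg_mulVec, Matrix.one_mulVec]
      rw [e, map_add (actX D h), hker _ hv0, hι, hsι, neg_one_smul, neg_neg, sub_add_cancel]
    rw [e1, one_pow]

end Cfsg.Agent.LAE62.BlockCent
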