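import Cfsg.Agent.LAE62.BlockCentralizer.ExcMain

/-!
The centralizer of the commutator module of a block normalizes the block.
-/

set_option autoImplicit false

open Subgroup Matrix
open scoped commutatorElement

namespace Cfsg.Agent.LAE62.BlockCent

open Baumann

open Classical in
/-- A map on the ambient group extending a homomorphism on a subgroup. -/
noncomputable def extendFun {G : Type*} [Group G] {U : Subgroup G} {F : Type} [Field F]
    (ψ : ↥U →* Multiplicative (Fin 2 → F)) (g : G) : Fin 2 → F :=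
  if h : g ∈ U then Multiplicative.toAdd (ψ ⟨g, h⟩) else 0

theorem extendFun_apply {G : Type*} [Group G] {U : Subgroup G} {F : Type} [Field F]
    (ψ : ↥U →* Multiplicative (Fin 2 → F)) {g : G} (h : g ∈ U) :
    extendFun ψ g = Multiplicative.toAdd (ψ ⟨g, h⟩) := dif_pos h

theorem exceptional_case {G : Type*} [Group G] [Finite G] [Fact (Nat.Prime 3)] {T : Sylow 3 G} {E : Subgroup G}
    (hs : BlockSetting T E) {F : Type} [Field F] [Fintype F] {n : ℕ} (hcard : Fintype.card F = 3 ^ n)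
    (hquot : Nonempty (↥E ⧸ Cfsg.pCore 3 ↥E ≃* ↥(commutator (Matrix.SpecialLinearGroup (Fin 2) F))))
    (hact1 : Cfsg.ActsAsSL2OnSection F (commutator (Matrix.SpecialLinearGroup (Fin 2) F)) E (Wb E) (Zb E))
    (hact2 : Cfsg.ActsAsSL2OnSection F (commutator (Matrix.SpecialLinearGroup (Fin 2) F)) E (Qb E) (Wb E))
    (hQQ : ⁅Qb E, Qb E⁆ = Zb E) (hZE : E ⊓ centralizer (E : Set G) = Zb E)
    (hn : Nat.card ↥(E ⊓ centralizer (E : Set G)) = 3 ^ n)
    (hq : ∀ b : G, b ∈ Cfsg.baumannSubgroupOf 3 (T : Subgroup G) → b ∉ centralizer (Wb E : Set G) →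
      ¬ ⁅⁅Qb E, zpowers b⁆, zpowers b⁆ ≤ E ⊓ centralizer (E : Set G)) :
    centralizer (WE 3 E : Set G) ≤ normalizer (E : Set G) := by
  by_cases htriv : ∀ e ∈ E, ∀ a ∈ PE 3 E, ⁅e, a⁆ ∈ Wb E
  · exact centralizer_le_of_trivial hs htriv
  set Y := ⁅PE 3 E, E⁆ with hY
  have hYQ : Y ≤ Qb E := commutator_le.2 fun a ha e he => by
    rw [← commutatorElement_inv]
    exact inv_mem (commutator_PE_le hs e he a ha)
  have hYP : Y ≤ PE 3 E := commutator_le.2 fun a ha e he => by
    rw [commutatorElement_def, show a * e * a⁻¹ * e⁻¹ = a * (e * a⁻¹ * e⁻¹) by group]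
    exact mul_mem ha ((mem_normalizer_iff.1 (L_le_normalizer_PE (E_le_L he)) _).1 (inv_mem ha))
  have hne : ¬ Y ≤ Wb E := fun h => htriv fun e he a ha => by
    rw [← commutatorElement_inv]
    exact inv_mem (h (commutator_mem_commutator ha he))
  have hdec : ∀ x ∈ Qb E, ∃ y ∈ Y, y⁻¹ * x ∈ Wb E := fun x hx =>
    BlockModules.sl2_section hact2 hYQ (normalizer_commutator_ge_right _ E) hne hx
  have h3 : (3 : F) = 0 := (three_pow_dichotomy hcard).1
  have hWZ : ¬ WE 3 E ≤ Zb E := fun h => by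
    have h2 := le_centralizer_of_commutator hs.block.1 (fun x hx => omegaOneCenter_pow (WE_le_W hx))
      (le_centralizer_iff.1 (h.trans inf_le_right))
    obtain ⟨-, -, ρ, ψ, hρ, hψ, -, hact⟩ := hact1
    obtain ⟨e, he⟩ : rI ∈ ρ.range := hρ ▸ rI_mem h3
    obtain ⟨u, hu⟩ := hψ (Multiplicative.ofAdd ![1, 0])
    obtain ⟨w, hw, hw'⟩ := hact e u
    rw [he] at hw'
    have hwu : w = u := Subtype.ext (by
      rw [hw, ← mem_centralizer_iff.1 (h2 e.2) _ u.2, mul_inv_cancel_right])
    rw [hwu, hu, toAdd_ofAdd] at hw'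
    have h1 := congrFun hw' 0
    simp [rI_coe] at h1
  have hWP : Wb E ≤ PE 3 E := by
    have hZP : Zb E ≤ PE 3 E := by
      rw [← hQQ]
      refine commutator_le.2 fun x hx x' hx' => ?_
      obtain ⟨y, hy, hw⟩ := hdec x hx
      obtain ⟨y', hy', hw'⟩ := hdec x' hx'
      have hc : ∀ {w q : G}, w ∈ Wb E → q ∈ Qb E → q * w = w * q := fun hw hq => W_comm_Q hw hq
      have e : ⁅x, x'⁆ = ⁅y, y'⁆ := by
        set w := y⁻¹ * x
        set w' := y'⁻¹ * x'
        rw [show x = y * w by simp [w], show x' = y' * w' by simp [w']]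
        calc ⁅y * w, y' * w'⁆ = y * (w * (y' * w')) * w⁻¹ * y⁻¹ * (y' * w')⁻¹ := by
              simp only [commutatorElement_def]; group
          _ = y * (y' * w') * y⁻¹ * (y' * w')⁻¹ := by
              rw [← hc hw (mul_mem (hYQ hy') (W_le_Q hw'))]; group
          _ = y * y' * (w' * y⁻¹) * w'⁻¹ * y'⁻¹ := by group
          _ = ⁅y, y'⁆ := by
              rw [← hc hw' (inv_mem (hYQ hy))]; simp only [commutatorElement_def]; group
      rw [e, commutatorElement_def]
      exact mul_mem (mul_mem (mul_mem (hYP hy) (hYP hy')) (inv_mem (hYP hy))) (inv_mem (hYP hy'))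
    intro w hw
    obtain ⟨y, hy, hz⟩ := BlockModules.sl2_section hact1 WE_le_W (normalizer_commutator_ge_right _ E) hWZ hw
    rw [show w = y * (y⁻¹ * w) by group]
    exact mul_mem (WE_le_PE hs hy) (hZP hz)
  have hQP : Qb E ≤ PE 3 E := fun x hx => by
    obtain ⟨y, hy, hw⟩ := hdec x hx
    rw [show x = y * (y⁻¹ * x) by group]
    exact mul_mem (hYP hy) (hWP hw)
  obtain ⟨hEW, -, ρ, ψ, hρ, hψ, hker, hact⟩ := hact1
  obtain ⟨hEQ, -, ρ', ψ', hρ', hψ', hker', hact'⟩ := hact2
  obtain ⟨ea, hea⟩ : rI ∈ ρ'.range := hρ' ▸ rI_mem h3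
  obtain ⟨eb, heb⟩ : rJ h3 ∈ ρ'.range := hρ' ▸ rJ_mem h3
  exact centralizer_le_of_exc (F := F)
    { setting := hs
      n := n
      card := hcard
      fW := extendFun ψ
      fW_mul := fun a ha b hb => by
        rw [extendFun_apply ψ ha, extendFun_apply ψ hb, extendFun_apply ψ (mul_mem ha hb), ← toAdd_mul, ← map_mul]
        rfl
      fW_zero := fun w hw => by
        rw [extendFun_apply ψ hw, toAdd_eq_zero, hker]
      fW_surj := fun x => by
        obtain ⟨u, hu⟩ := hψ (Multiplicative.ofAdd x)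
        exact ⟨u, u.2, by rw [extendFun_apply ψ u.2, Subtype.coe_eta, hu, toAdd_ofAdd]⟩
      rW := ρ
      fW_conj := fun e w hw => by
        obtain ⟨w', h, h'⟩ := hact e ⟨w, hw⟩
        rw [← h, extendFun_apply ψ w'.2, extendFun_apply ψ hw, Subtype.coe_eta, h']
      fQ := extendFun ψ'
      fQ_mul := fun a ha b hb => by
        rw [extendFun_apply ψ' ha, extendFun_apply ψ' hb, extendFun_apply ψ' (mul_mem ha hb), ← toAdd_mul, ← map_mul]
        rfl
      fQ_zero := fun w hw => by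
        rw [extendFun_apply ψ' hw, toAdd_eq_zero, hker']
      fQ_surj := fun x => by
        obtain ⟨u, hu⟩ := hψ' (Multiplicative.ofAdd x)
        exact ⟨u, u.2, by rw [extendFun_apply ψ' u.2, Subtype.coe_eta, hu, toAdd_ofAdd]⟩
      rQ := ρ'
      fQ_conj := fun e w hw => by
        obtain ⟨w', h, h'⟩ := hact' e ⟨w, hw⟩
        rw [← h, extendFun_apply ψ' w'.2, extendFun_apply ψ' hw, Subtype.coe_eta, h']
      rW_range := hρ
      rQ_range := hρ'
      quot := hquot
      comm := hQQ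
      cardZ := by rw [← hZE]; exact hn
      quad := hq
      cent := hZE
      Q_le := hQP
      ea := ea
      eb := eb
      rQ_ea := hea
      rQ_eb := by rw [heb, rJ_coe] }

theorem centralizer_le {G : Type*} [Group G] [Finite G] {p : ℕ} [Fact p.Prime]
    (hG : centralizer (Cfsg.pCore p G : Set G) ≤ Cfsg.pCore p G) (T : Sylow p G) (E : Subgroup G)
    (hE : Cfsg.IsBaumannBlock p (T : Subgroup G) E) :
    centralizer (WE p E : Set G) ≤ normalizer (E : Set G) := by
  have hs : BlockSetting T E := ⟨hG, hE⟩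
  have hQW : Cfsg.pCoreOf p E = Cfsg.omegaOneCenter p (Cfsg.pCoreOf p E) →
      centralizer (WE p E : Set G) ≤ normalizer (E : Set G) := fun h =>
    centralizer_le_of_trivial hs fun e he a ha => h ▸ commutator_PE_le hs e he a ha
  rcases hE.2.2.2.2 with ⟨F, _, _, n, hcard, hquot, hact, hQ | ⟨hp3, hact2, hQQ, -, hZE, hn, hq⟩⟩ | ⟨-, m, -, -, hQ⟩
  · exact hQW hQ
  · subst hp3
    exact exceptional_case hs hcard hquot hact hact2 hQQ hZE hn hq
  · exact hQW hQ

end Cfsg.Agent.LAE62.BlockCent
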